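import Mathlib
import Cfsg.Agent.Lib.Deg.Anti
import Cfsg.Agent.Lib.Block.Fix
import Cfsg.Agent.Lib.Char.ExtDet

/-! Characters with `χ(1) - χ(u) = 4` or `χ(u) = 0`: the character ring of `A₅` appears. -/

set_option autoImplicit false
set_option linter.unusedVariables false
set_option linter.unusedSectionVars false

namespace H86.Cz

open Cfsg H6 H87 ComplexConjugate

variable {G : Type*} [Group G] [Fintype G]

theorem inner_congr {φ ψ φ' ψ' : G → ℂ} (h : ∀ g, φ g * conj (ψ g) = φ' g * conj (ψ' g)) :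
    classInner φ ψ = classInner φ' ψ' := by
  rw [classInner_def, classInner_def]; simp only [h]

/-- degree three identity -/
theorem sq_three (hl : ∀ l : G →* ℂˣ, l = 1) {χ : G → ℂ} (h : IsCharacter G χ) (h3 : χ 1 = 3)
    (g : G) : χ (g * g) = χ g * χ g - 2 * conj (χ g) := by
  rw [← char_inv h]
  obtain ⟨n, ρ, rfl⟩ := h
  have hn : n = 3 := by
    have := ρ.char_one
    rw [h3, Module.finrank_fin_fun] at this
    exact_mod_cast this.symm
  subst hn
  have hd : (LinearMap.toMatrix' (ρ g)).det = 1 := by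
    have := congrArg (fun l : G →* ℂˣ => (l g : ℂ)) (hl (H31.repDet ρ))
    simpa [H31.repDet_apply] using this
  have ht : ∀ x, ρ.character x = (LinearMap.toMatrix' (ρ x)).trace := fun x => by
    simp [Representation.character, Matrix.trace_toLin'_eq, ← LinearMap.trace_eq_matrix_trace,
      ← LinearMap.toMatrix_eq_toMatrix']
  have hm : ∀ x y, LinearMap.toMatrix' (ρ (x * y)) =
      LinearMap.toMatrix' (ρ x) * LinearMap.toMatrix' (ρ y) := fun x y => by
    rw [map_mul, ← LinearMap.toMatrix'_mul]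
  have hi : LinearMap.toMatrix' (ρ g⁻¹) = (LinearMap.toMatrix' (ρ g)).adjugate := by
    have e1 : LinearMap.toMatrix' (ρ g⁻¹) * LinearMap.toMatrix' (ρ g) = 1 := by
      rw [← hm, inv_mul_cancel, map_one, LinearMap.toMatrix'_one]
    have e2 := Matrix.mul_adjugate (LinearMap.toMatrix' (ρ g))
    rw [hd, one_smul] at e2
    calc _ = LinearMap.toMatrix' (ρ g⁻¹) * (LinearMap.toMatrix' (ρ g) *
          (LinearMap.toMatrix' (ρ g)).adjugate) := by rw [e2, mul_one]
      _ = _ := by rw [← mul_assoc, e1, one_mul]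
  rw [ht, ht, ht, hm, hi]
  generalize LinearMap.toMatrix' (ρ g) = A
  simp [Matrix.trace_fin_three, Matrix.adjugate_fin_three, Matrix.mul_apply, Fin.sum_univ_three]
  ring

def Hyp (u : G) : Prop :=
  ∀ χ, IsIrrCharacter G χ → χ ≠ (fun _ => 1) → χ 1 - χ u = 4 ∨ χ u = 0

structure Gd (u : G) (ψ : G → ℂ) (D : ℕ) (V : ℤ) : Prop where
  ch : IsCharacter G ψ
  nt : classInner ψ (fun _ => 1) = 0
  sq : ψ (u * u) = ψ 1
  d : ψ 1 = D
  v : ψ u = V

def T3 (u : G) (χ : G → ℂ) : Prop := IsIrrCharacter G χ ∧ χ 1 = 3 ∧ χ u = -1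

variable {u : G}

theorem Hyp.hom (H : Hyp u) (l : G →* ℂˣ) : l = 1 := by
  by_contra hl
  rcases H _ (isIrrCharacter_hom l) fun e => hl (hom_coe_injective e) with e | e
  · have h1 := char_norm_le (isCharacter_hom l) u
    have : (l u : ℂ) = -3 := by simp only [map_one, Units.val_one] at e; linear_combination -e
    simp only [this, map_one, Units.val_one] at h1
    norm_num at h1
  · exact Units.ne_zero _ e

theorem Hyp.lin (H : Hyp u) {χ : G → ℂ} (h : IsCharacter G χ) (h1 : χ 1 = 1) : χ = fun _ => 1 := by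
  obtain ⟨l, rfl⟩ := exists_hom_of_char_one_eq_one h h1
  rw [H.hom l]; rfl

theorem Hyp.zero_of_eq (H : Hyp u) {ψ : G → ℂ} (h : IsCharacter G ψ)
    (nt : classInner ψ (fun _ => 1) = 0) (e : ψ u = ψ 1) : ψ = 0 := by
  by_contra h0
  obtain ⟨η, hη, hne⟩ := exists_constituent h h0
  have e1 := apply_eq_of_constituent h hη hne e
  rcases H η hη (fun e => hne (e ▸ nt)) with e2 | e2
  · rw [e1] at e2; norm_num at e2
  · exact irr_one_ne_zero hη (e1 ▸ e2)

theorem isChar_norm_sub {η : G → ℂ} (hη : IsIrrCharacter G η) :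
    IsCharacter G ((η * fun g => conj (η g)) - fun _ => 1) ∧
      classInner ((η * fun g => conj (η g)) - fun _ => 1) (fun _ => 1) = 0 := by
  have e : classInner (η * fun g => conj (η g)) (fun _ => 1) = 1 := by
    exact (inner_congr fun g => by simp).trans (irr_inner_self hη)
  refine ⟨isCharacter_sub_of_inner_ne_zero (isCharacter_mul (irr_isCharacter hη)
    (isCharacter_conj (irr_isCharacter hη))) isIrrCharacter_one (by rw [e]; exact one_ne_zero), ?_⟩
  rw [classInner_sub_left, e, classInner_one_one, sub_self]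

theorem Hyp.not_two (H : Hyp u) {η : G → ℂ} (hη : IsIrrCharacter G η) (h2 : η 1 = 2) :
    η u ≠ -2 := fun e => by
  obtain ⟨h1, h3⟩ := isChar_norm_sub hη
  have := congrFun (H.zero_of_eq h1 h3 (by simp [e, h2, map_ofNat])) 1
  simp [h2, map_ofNat] at this
  norm_num at this

theorem Hyp.type (H : Hyp u) {η : G → ℂ} (hη : IsIrrCharacter G η) (hne : η ≠ fun _ => 1)
    (hsq : η (u * u) = η 1) : ∃ (d : ℕ) (v : ℤ), η 1 = d ∧ η u = v ∧ 3 ≤ d ∧
      (v = d - 4 ∨ v = 0) ∧ (d = 3 → v = -1) := by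
  obtain ⟨d, hd0, hd⟩ := irr_one_pos hη
  have hc := irr_isCharacter hη
  have h1 : d ≠ 1 := fun e => hne (H.lin hc (by rw [hd, e]; simp))
  have h2 : d ≠ 2 := fun e => by
    subst e
    rcases H η hη hne with e | e
    · exact H.not_two hη (by simpa using hd) (by rw [hd] at e; push_cast at e; linear_combination -e)
    · have := congrFun (H.lin (H84.isCharacter_alt hc) (by simp [H84.alt, hd]; norm_num)) u
      simp only [H84.alt, e, hsq, hd] at this
      norm_num at this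
  rcases H η hη hne with e | e
  · exact ⟨d, d - 4, hd, by push_cast; linear_combination hd - e, by omega, Or.inl rfl,
      fun e => by omega⟩
  · refine ⟨d, 0, hd, by simpa using e, by omega, Or.inr rfl, fun e3 => ?_⟩
    subst e3
    have := sq_three H.hom hc (by simpa using hd) u
    rw [hsq, hd, e] at this
    norm_num at this

theorem Hyp.peel (H : Hyp u) {ψ η : G → ℂ} {D : ℕ} {V : ℤ} (h : Gd u ψ D V)
    (hη : IsIrrCharacter G η) (hne : classInner ψ η ≠ 0) : ∃ (d : ℕ) (v : ℤ), Gd u η d v ∧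
      Gd u (ψ - η) (D - d) (V - v) ∧ d ≤ D ∧ 3 ≤ d ∧ (v = d - 4 ∨ v = 0) ∧ (d = 3 → v = -1) := by
  have h1 : η ≠ fun _ => 1 := fun e => hne (e ▸ h.nt)
  have hsq := apply_eq_of_constituent h.ch hη hne h.sq
  obtain ⟨d, v, hd, hv, h3, h4, h5⟩ := H.type hη h1 hsq
  have h0 := irr_inner_ne hη isIrrCharacter_one h1
  have hle : d ≤ D := by
    have := deg_le_of_inner h.ch hη hne
    rwa [deg_of_eq hd, deg_of_eq h.d] at this
  refine ⟨d, v, ⟨irr_isCharacter hη, h0, hsq, hd, hv⟩,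
    ⟨isCharacter_sub_of_inner_ne_zero h.ch hη hne, ?_, ?_, ?_, ?_⟩, hle, h3, h4, h5⟩
  · rw [classInner_sub_left, h.nt, h0, sub_self]
  · simp [h.sq, hsq]
  · simp [h.d, hd, Nat.cast_sub hle]
  · simp [h.v, hv]

theorem Gd.ne_zero {ψ : G → ℂ} {D : ℕ} {V : ℤ} (h : Gd u ψ D V) (hD : D ≠ 0) : ψ ≠ 0 := fun e => by
  have := h.d
  rw [e, Pi.zero_apply] at this
  exact hD (by exact_mod_cast this.symm)

theorem Gd.eq_zero {ψ : G → ℂ} {V : ℤ} (h : Gd u ψ 0 V) : ψ = 0 :=
  char_eq_zero_of_one h.ch (by simpa using h.d)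

theorem Hyp.small (H : Hyp u) {ψ : G → ℂ} {D : ℕ} {V : ℤ} (h : Gd u ψ D V) (hD : D ≤ 2) :
    D = 0 := by
  by_contra h0
  obtain ⟨η, hη, hne⟩ := exists_constituent h.ch (h.ne_zero h0)
  obtain ⟨d, v, -, -, h1, h2, -⟩ := H.peel h hη hne
  omega

theorem Hyp.irr (H : Hyp u) {ψ : G → ℂ} {D : ℕ} {V : ℤ} (h : Gd u ψ D V) (h0 : D ≠ 0)
    (hD : D ≤ 5) : IsIrrCharacter G ψ := by
  obtain ⟨η, hη, hne⟩ := exists_constituent h.ch (h.ne_zero h0)
  obtain ⟨d, v, -, h1, h2, h3, -⟩ := H.peel h hη hne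
  have h4 := H.small h1 (by omega)
  rw [h4] at h1
  rw [sub_eq_zero.1 h1.eq_zero]; exact hη

theorem inner_ne_of_sub {ψ η θ : G → ℂ} (h : IsCharacter G (ψ - η)) (hη : IsCharacter G η)
    (hθ : IsCharacter G θ) (hne : classInner (ψ - η) θ ≠ 0) : classInner ψ θ ≠ 0 := by
  obtain ⟨a, ha⟩ := char_inner_nat h hθ
  obtain ⟨b, hb⟩ := char_inner_nat hη hθ
  have : classInner ψ θ = ((a + b : ℕ) : ℂ) := by
    rw [classInner_sub_left] at ha; push_cast; linear_combination ha + hb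
  rw [ha] at hne
  rw [this]
  have : a ≠ 0 := by exact_mod_cast hne
  exact_mod_cast (by omega : a + b ≠ 0)

theorem Hyp.neg (H : Hyp u) (D : ℕ) : ∀ {ψ : G → ℂ} {V : ℤ}, Gd u ψ D V → V < 0 →
    ∃ η, T3 u η ∧ classInner ψ η ≠ 0 := by
  induction D using Nat.strong_induction_on with
  | _ D ih =>
  intro ψ V h hV
  have h0 : ψ ≠ 0 := fun e => by
    have := h.v
    rw [e, Pi.zero_apply] at this
    have : V = 0 := by exact_mod_cast this.symm
    omega
  obtain ⟨η, hη, hne⟩ := exists_constituent h.ch h0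
  obtain ⟨d, v, h1, h2, h3, h4, h5, h6⟩ := H.peel h hη hne
  by_cases e : d = 3
  · exact ⟨η, ⟨hη, by rw [h1.d, e]; simp, by rw [h1.v, h6 e]; simp⟩, hne⟩
  · obtain ⟨θ, hθ, hne'⟩ := ih (D - d) (by omega) h2 (by omega)
    exact ⟨θ, hθ, inner_ne_of_sub h2.ch h1.ch (irr_isCharacter hθ.1) hne'⟩

theorem Hyp.neg' (H : Hyp u) {D : ℕ} {ψ : G → ℂ} {V : ℤ} (h : Gd u ψ D V) (hV : V < 0) :
    ∃ η, T3 u η ∧ classInner ψ η ≠ 0 ∧ Gd u (ψ - η) (D - 3) (V + 1) := by
  obtain ⟨η, hη, hne⟩ := H.neg D h hV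
  obtain ⟨d, v, h1, h2, h3, h4, h5, h6⟩ := H.peel h hη.1 hne
  have e : d = 3 := by have := h1.d.symm.trans hη.2.1; exact_mod_cast this
  refine ⟨η, hη, hne, ?_⟩
  rw [h6 e, e] at h2
  simpa using h2

theorem Hyp.sub (H : Hyp u) {ψ η : G → ℂ} {D d : ℕ} {V v : ℤ} (h : Gd u ψ D V)
    (hη : IsIrrCharacter G η) (hne : classInner ψ η ≠ 0) (hd : η 1 = d) (hv : η u = v) :
    Gd u (ψ - η) (D - d) (V - v) := by
  obtain ⟨d', v', h1, h2, -⟩ := H.peel h hη hne
  have e1 : d' = d := by have := h1.d.symm.trans hd; exact_mod_cast this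
  have e2 : v' = v := by have := h1.v.symm.trans hv; exact_mod_cast this
  rwa [e1, e2] at h2

theorem T3.sq (H : Hyp u) {χ : G → ℂ} (h : T3 u χ) (g : G) :
    χ (g * g) = χ g * χ g - 2 * conj (χ g) := sq_three H.hom (irr_isCharacter h.1) h.2.1 g

theorem T3.uu (H : Hyp u) {χ : G → ℂ} (h : T3 u χ) : χ (u * u) = 3 := by
  rw [h.sq H, h.2.2]; simp; norm_num

theorem inner_deg {a b : G → ℂ} (ha : IsIrrCharacter G a) (hb : IsIrrCharacter G b)
    (h : a 1 ≠ b 1) : classInner a b = 0 := irr_inner_ne ha hb fun e => h (e ▸ rfl)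

theorem T3.real (H : Hyp u) {χ : G → ℂ} (h : T3 u χ) (g : G) : conj (χ g) = χ g := by
  by_contra hg
  obtain ⟨c, hc⟩ : ∃ c : G → ℂ, c = fun g => conj (χ g) := ⟨_, rfl⟩
  have hcg : ∀ g, conj (χ g) = c g := fun g => by rw [hc]
  have hcg' : ∀ g, conj (c g) = χ g := fun g => by rw [hc]; simp
  have hci : IsIrrCharacter G c := hc ▸ isIrrCharacter_conj h.1
  have hcc := irr_isCharacter hci
  have hχ := irr_isCharacter h.1
  have c1 : c 1 = 3 := by rw [← hcg, h.2.1, map_ofNat]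
  have cu : c u = -1 := by rw [← hcg, h.2.2]; simp
  have cuu : c (u * u) = 3 := by rw [← hcg, h.uu H, map_ofNat]
  have hne : χ ≠ c := fun e => hg ((hcg g).trans (congrFun e g).symm)
  have o1 : (fun _ : G => (1 : ℂ)) 1 = 1 := rfl
  obtain ⟨S, hS⟩ : ∃ S : G → ℂ, S = χ * χ - c := ⟨_, rfl⟩
  have hSg : ∀ g, S g = χ g * χ g - c g := fun g => by rw [hS]; rfl
  have hSc : IsCharacter G S := by
    convert H84.isCharacter_sym hχ using 1
    funext x; rw [hSg, H84.sym, h.sq H, hcg]; ring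
  have gS : Gd u S 6 2 := by
    refine ⟨hSc, ?_, ?_, ?_, ?_⟩
    · rw [hS, classInner_sub_left, inner_deg hci isIrrCharacter_one (by rw [c1]; norm_num),
        sub_zero]
      exact (inner_congr fun g => by simp [hcg']).trans (irr_inner_ne h.1 hci hne)
    · rw [hSg, hSg, h.uu H, cuu, h.2.1, c1]
    · rw [hSg, h.2.1, c1]; norm_num
    · rw [hSg, h.2.2, cu]; norm_num
  have hSi : IsIrrCharacter G S := by
    obtain ⟨η, hη, hne⟩ := exists_constituent hSc (gS.ne_zero (by norm_num))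
    obtain ⟨d, v, h1, h2, h3, h4, h5, h6⟩ := H.peel gS hη hne
    by_cases e : d = 3
    · subst e
      rw [h6 rfl] at h2
      have h7 := H.irr h2 (by norm_num) (by norm_num)
      obtain ⟨d', v', h8, h9, -, -, h10⟩ := H.type h7 (fun e => by
        have := h2.d; rw [e] at this; norm_num at this) h2.sq
      have e1 : d' = 3 := by have := h8.symm.trans h2.d; exact_mod_cast this
      have := h9.symm.trans h2.v
      rw [h10 e1] at this
      norm_num at this
    · have h7 := H.small h2 (by omega)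
      rw [h7] at h2
      rw [sub_eq_zero.1 h2.eq_zero]; exact hη
  have S1 : S 1 = 6 := by simpa using gS.d
  have Sc0 : classInner S c = 0 := inner_deg hSi hci (by rw [S1, c1]; norm_num)
  have cS0 : classInner c S = 0 := inner_deg hci hSi (by rw [S1, c1]; norm_num)
  obtain ⟨P, hP⟩ : ∃ P : G → ℂ, P = χ * c - fun _ => 1 := ⟨_, rfl⟩
  have hPg : ∀ g, P g = χ g * c g - 1 := fun g => by rw [hP]; rfl
  obtain ⟨hPc, hP0⟩ := isChar_norm_sub h.1
  rw [← hc, ← hP] at hPc hP0
  have hPi : IsIrrCharacter G P := by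
    refine isIrr_of_char_of_inner_self hPc ?_
    have e1 : classInner (P + fun _ => 1) (P + fun _ => 1) = classInner (S + c) (S + c) :=
      inner_congr fun g => by simp [hPg, hSg, hcg, hcg']; ring
    simp only [classInner_add_left, classInner_add_right, hP0, classInner_eq_zero_comm.1 hP0,
      classInner_one_one, Sc0, cS0, irr_inner_self hSi, irr_inner_self hci] at e1
    linear_combination e1
  have gW : Gd u (χ * S) 18 (-2) := by
    refine ⟨isCharacter_mul hχ hSc, ?_, ?_, ?_, ?_⟩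
    · rw [← Sc0]; exact inner_congr fun g => by simp [hcg']; ring
    · simp [gS.sq, h.uu H, h.2.1]
    · simp [S1, h.2.1]; norm_num
    · simp [gS.v, h.2.2]
  have WP : classInner (χ * S) P ≠ 0 := by
    obtain ⟨n, hn⟩ := char_inner_nat (isCharacter_mul hSc hSc) hχ
    have e1 : classInner (χ * S) (P + fun _ => 1) = classInner (S * S) χ + classInner S (S + c) := by
      rw [classInner_eq_mul_conj_one (S * S), classInner_eq_mul_conj_one S, ← classInner_add_left]
      exact inner_congr fun g => by simp [hPg, hSg, hcg, hcg']; ring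
    rw [classInner_add_right, classInner_add_right, gW.nt, hn, Sc0, irr_inner_self hSi] at e1
    have : classInner (χ * S) P = ((n + 1 : ℕ) : ℂ) := by push_cast; linear_combination e1
    rw [this]; exact_mod_cast Nat.succ_ne_zero n
  have gT := H.sub gW hPi WP (d := 8) (v := 0) (by rw [hPg, h.2.1, c1]; norm_num)
    (by rw [hPg, h.2.2, cu]; norm_num)
  obtain ⟨η1, t1, -, g1⟩ := H.neg' gT (by norm_num)
  obtain ⟨η2, t2, -, g2⟩ := H.neg' g1 (by norm_num)
  obtain ⟨κ, hκ⟩ : ∃ κ, κ = χ * S - P - η1 - η2 := ⟨_, rfl⟩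
  have hκi : IsIrrCharacter G κ := hκ ▸ H.irr g2 (by norm_num) (by norm_num)
  have hκc := irr_isCharacter hκi
  have Wκ : classInner (χ * S) κ ≠ 0 := by
    refine inner_ne_of_sub gT.ch hPc hκc (inner_ne_of_sub g1.ch (irr_isCharacter t1.1) hκc
      (inner_ne_of_sub g2.ch (irr_isCharacter t2.1) hκc ?_))
    rw [← hκ, irr_inner_self hκi]; exact one_ne_zero
  rw [← hκ] at g2
  have κ1 : κ 1 = 4 := by simpa using g2.d
  have κu : κ u = 0 := by simpa using g2.v
  have gX : Gd u (κ * c) 12 0 := by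
    refine ⟨isCharacter_mul hκc hcc, ?_, ?_, ?_, ?_⟩
    · rw [← inner_deg hκi h.1 (by rw [κ1, h.2.1]; norm_num)]
      exact inner_congr fun g => by simp [hcg]
    · simp [g2.sq, cuu, c1]
    · simp [κ1, c1]; norm_num
    · simp [κu]
  have XS : classInner (κ * c) S ≠ 0 := by
    rw [Ne, classInner_eq_zero_comm] at Wκ
    refine fun e => Wκ (Eq.trans ?_ e)
    exact inner_congr fun g => by simp [hcg]; ring
  have gR := H.sub gX hSi XS gS.d gS.v
  obtain ⟨η3, t3, -, g3⟩ := H.neg' gR (by norm_num)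
  obtain ⟨η4, h4⟩ : ∃ η, η = κ * c - S - η3 := ⟨_, rfl⟩
  have h4i : IsIrrCharacter G η4 := h4 ▸ H.irr g3 (by norm_num) (by norm_num)
  rw [← h4] at g3
  have η41 : η4 1 = 3 := by simpa using g3.d
  obtain ⟨hQc, hQ0⟩ := isChar_norm_sub hκi
  obtain ⟨Q, hQ⟩ : ∃ Q : G → ℂ, Q = (κ * fun g => conj (κ g)) - fun _ => 1 := ⟨_, rfl⟩
  rw [← hQ] at hQc hQ0
  have hQg : ∀ g, Q g = κ g * conj (κ g) - 1 := fun g => by rw [hQ]; rfl
  obtain ⟨m, hm⟩ := char_inner_nat hQc hPc
  have hm' := mul_deg_le_of_inner hQc hPi hm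
  rw [deg_of_eq (n := 8) (by rw [hPg, h.2.1, c1]; norm_num),
    deg_of_eq (n := 15) (by rw [hQg, κ1, map_ofNat]; norm_num)] at hm'
  obtain ⟨k, hk⟩ := char_inner_nat (irr_isCharacter t3.1) (irr_isCharacter h4i)
  have e1 : classInner (S + η3 + η4) (S + η3 + η4) =
      classInner (Q + fun _ => 1) (P + fun _ => 1) := by
    rw [show S + η3 + η4 = κ * c by rw [h4]; ring]
    exact inner_congr fun g => by simp [hPg, hQg, hcg, hcg']; ring
  have hk' : classInner η4 η3 = k := by rw [← hk]; exact char_inner_comm g3.ch (irr_isCharacter t3.1)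
  simp only [classInner_add_left, classInner_add_right, hP0, classInner_eq_zero_comm.1 hP0, hQ0,
    classInner_one_one, irr_inner_self hSi, irr_inner_self h4i, irr_inner_self t3.1, hm, hk, hk',
    inner_deg hSi t3.1 (by rw [S1, t3.2.1]; norm_num), inner_deg hSi h4i (by rw [S1, η41]; norm_num),
    inner_deg t3.1 hSi (by rw [S1, t3.2.1]; norm_num),
    inner_deg h4i hSi (by rw [S1, η41]; norm_num)] at e1
  have : ((2 * k + 2 : ℕ) : ℂ) = m := by push_cast; linear_combination e1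
  have : 2 * k + 2 = m := by exact_mod_cast this
  omega

def ph (χ : G → ℂ) : G → ℂ := fun g => χ g * χ g - 1 - χ g

theorem T3.ne_one {χ : G → ℂ} (h : T3 u χ) : classInner χ (fun _ => 1) = 0 :=
  inner_deg h.1 isIrrCharacter_one (by rw [h.2.1]; norm_num)

theorem T3.gph (H : Hyp u) {χ : G → ℂ} (h : T3 u χ) : Gd u (ph χ) 5 1 := by
  have hχ := irr_isCharacter h.1
  have e : H84.sym χ = χ * χ - χ := by
    funext x; rw [H84.sym, h.sq H, h.real H]; simp; ring
  have e1 : classInner (H84.sym χ) (fun _ => 1) = 1 := by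
    rw [e, classInner_sub_left, h.ne_one, sub_zero]
    exact (inner_congr fun g => by simp [h.real H]).trans (irr_inner_self h.1)
  have e2 : ph χ = H84.sym χ - fun _ => 1 := by funext x; simp [e, ph]; ring
  refine ⟨e2 ▸ isCharacter_sub_of_inner_ne_zero (H84.isCharacter_sym hχ) isIrrCharacter_one
    (by rw [e1]; exact one_ne_zero), by rw [e2, classInner_sub_left, e1, classInner_one_one, sub_self],
    by simp [ph, h.uu H, h.2.1], by simp [ph, h.2.1]; norm_num, by simp [ph, h.2.2]⟩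

theorem T3.iph (H : Hyp u) {χ : G → ℂ} (h : T3 u χ) : IsIrrCharacter G (ph χ) :=
  H.irr (h.gph H) (by norm_num) (by norm_num)

theorem T3.ph1 {χ : G → ℂ} (h : T3 u χ) : ph χ 1 = 5 := by simp [ph, h.2.1]; norm_num

theorem T3.rph (H : Hyp u) {χ : G → ℂ} (h : T3 u χ) (g : G) : conj (ph χ g) = ph χ g := by
  simp [ph, h.real H]

theorem T3.gmul (H : Hyp u) {χ η : G → ℂ} (h : T3 u χ) (h' : T3 u η) (hne : χ ≠ η) :
    Gd u (χ * η) 9 1 := by
  refine ⟨isCharacter_mul (irr_isCharacter h.1) (irr_isCharacter h'.1), ?_,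
    by simp [h.uu H, h'.uu H, h.2.1, h'.2.1], by simp [h.2.1, h'.2.1]; norm_num,
    by simp [h.2.2, h'.2.2]⟩
  exact (inner_congr fun g => by simp [h'.real H]).trans (irr_inner_ne h.1 h'.1 hne)

theorem T3.ph_eq (H : Hyp u) {χ η : G → ℂ} (h : T3 u χ) (h' : T3 u η) : ph χ = ph η := by
  by_cases hne : χ = η
  · rw [hne]
  by_contra hp
  have g := h.gmul H h' hne
  have e : classInner (χ * η) (χ * η) =
      classInner (ph χ + χ + fun _ => 1) (ph η + η + fun _ => 1) :=
    inner_congr fun g => by simp [ph, h.real H, h'.real H]; ring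
  simp only [classInner_add_left, classInner_add_right, irr_inner_ne (h.iph H) (h'.iph H) hp,
    (h.gph H).nt, h.ne_one, classInner_eq_zero_comm.1 (h'.gph H).nt,
    classInner_eq_zero_comm.1 h'.ne_one, classInner_one_one, irr_inner_ne h.1 h'.1 hne,
    inner_deg (h.iph H) h'.1 (by rw [h.ph1, h'.2.1]; norm_num),
    inner_deg h.1 (h'.iph H) (by rw [h'.ph1, h.2.1]; norm_num)] at e
  have hi := isIrr_of_char_of_inner_self g.ch (by simpa using e)
  rcases H _ hi (fun e => by have := g.d; rw [e] at this; norm_num at this) with e | e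
  · rw [g.d, g.v] at e; norm_num at e
  · rw [g.v] at e; norm_num at e

theorem T3.inner_ph (H : Hyp u) {χ : G → ℂ} (h : T3 u χ) : classInner (χ * ph χ) (ph χ) ≠ 0 := by
  have e : H84.alt (ph χ) = χ * ph χ - ph χ := by
    funext x; simp only [H84.alt, ph, h.sq H, h.real H, Pi.sub_apply, Pi.mul_apply]; ring
  have hp := irr_isCharacter (h.iph H)
  obtain ⟨n, hn⟩ := char_inner_nat (H84.isCharacter_alt hp) hp
  rw [e, classInner_sub_left, irr_inner_self (h.iph H)] at hn
  have : classInner (χ * ph χ) (ph χ) = ((n + 1 : ℕ) : ℂ) := by push_cast; linear_combination hn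
  rw [this]; exact_mod_cast Nat.succ_ne_zero n

theorem Hyp.seven (H : Hyp u) {ψ : G → ℂ} (h : Gd u ψ 7 (-1)) : ∃ η κ, T3 u η ∧
    IsIrrCharacter G κ ∧ Gd u κ 4 0 ∧ ψ = η + κ := by
  obtain ⟨η, t, -, g⟩ := H.neg' h (by norm_num)
  exact ⟨η, ψ - η, t, H.irr g (by norm_num) (by norm_num), g, by ring⟩

theorem T3.struct (H : Hyp u) {χ : G → ℂ} (h : T3 u χ) : ∃ χ' κ κ' : G → ℂ, T3 u χ' ∧ χ' ≠ χ ∧
    χ * ph χ = χ + ph χ + χ' + κ ∧ χ * χ' = ph χ + κ ∧ χ * κ = ph χ + χ' + κ' ∧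
    ∀ η, T3 u η → η = χ ∨ η = χ' := by
  have hχ := irr_isCharacter h.1
  have gp := h.gph H
  have ip := h.iph H
  obtain ⟨φ, hφ⟩ : ∃ φ, φ = ph χ := ⟨_, rfl⟩
  have rφ : ∀ g, conj (φ g) = φ g := fun g => hφ ▸ h.rph H g
  have hφg : ∀ g, φ g = χ g * χ g - 1 - χ g := fun g => by rw [hφ]; rfl
  have iφ : ∀ η, T3 u η → classInner (η * φ) φ ≠ 0 := fun η hη => by
    rw [hφ, h.ph_eq H hη]; exact hη.inner_ph H
  rw [← hφ] at gp ip ⊢
  have φ1 : φ 1 = 5 := by simpa using gp.d
  have φ3 : ∀ η, T3 u η → classInner φ η = 0 := fun η hη =>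
    inner_deg ip hη.1 (by rw [φ1, hη.2.1]; norm_num)
  have φ3' : ∀ η, T3 u η → classInner η φ = 0 := fun η hη =>
    classInner_eq_zero_comm.1 (φ3 η hη)
  have g15 : Gd u (χ * φ) 15 (-1) := by
    refine ⟨isCharacter_mul hχ gp.ch, ?_, by simp [gp.sq, h.uu H, h.2.1],
      by simp [φ1, h.2.1]; norm_num, by simp [gp.v, h.2.2]⟩
    exact (inner_congr fun g => by simp [rφ]).trans (φ3' χ h)
  have i1 : classInner (χ * φ) χ = 1 := by
    have e : classInner (χ * φ) χ = classInner φ (φ + χ + fun _ => 1) :=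
      inner_congr fun g => by simp [rφ, h.real H]; rw [hφg]; ring
    rw [e, classInner_add_right, classInner_add_right, irr_inner_self ip, φ3 χ h, gp.nt]; simp
  have g12 := H.sub g15 h.1 (by rw [i1]; exact one_ne_zero) (d := 3) (v := -1)
    (by simpa using h.2.1) (by simpa using h.2.2)
  have g7 := H.sub g12 ip (by rw [classInner_sub_left, φ3' χ h, sub_zero]; exact iφ χ h) gp.d gp.v
  obtain ⟨χ', κ, t', iκ, gκ, e1⟩ := H.seven g7
  have E1 : χ * φ = χ + φ + χ' + κ := by linear_combination e1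
  have κ3 : ∀ {κ η : G → ℂ}, IsIrrCharacter G κ → Gd u κ 4 0 → T3 u η → classInner κ η = 0 :=
    fun iκ gκ hη => inner_deg iκ hη.1 (by rw [gκ.d, hη.2.1]; norm_num)
  have κφ : ∀ {κ : G → ℂ}, IsIrrCharacter G κ → Gd u κ 4 0 → classInner κ φ = 0 :=
    fun iκ gκ => inner_deg iκ ip (by rw [gκ.d, φ1]; norm_num)
  have hne : χ' ≠ χ := fun e => by
    rw [E1, e] at i1
    simp only [classInner_add_left, irr_inner_self h.1, φ3 χ h, κ3 iκ gκ h] at i1
    norm_num at i1
  have g9 := h.gmul H t' hne.symm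
  have i2 : classInner (χ * χ') φ = 1 := by
    have e : classInner (χ * χ') φ = classInner χ' (χ * φ) :=
      inner_congr fun g => by simp [rφ, h.real H]; ring
    rw [e, E1]
    simp only [classInner_add_right, irr_inner_ne t'.1 h.1 hne, φ3' χ' t', irr_inner_self t'.1,
      classInner_eq_zero_comm.1 (κ3 iκ gκ t')]
    simp
  have g4 := H.sub g9 ip (by rw [i2]; exact one_ne_zero) gp.d gp.v
  obtain ⟨κ1, hκ1⟩ : ∃ κ1, κ1 = χ * χ' - φ := ⟨_, rfl⟩
  rw [← hκ1] at g4
  have iκ1 := H.irr g4 (by norm_num) (by norm_num)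
  have g12' : Gd u (χ * κ) 12 0 := by
    refine ⟨isCharacter_mul hχ gκ.ch, ?_, by simp [gκ.sq, h.uu H, h.2.1],
      by simp [gκ.d, h.2.1]; norm_num, by simp [gκ.v]⟩
    exact (inner_congr fun g => by simp [h.real H]; ring).trans (κ3 iκ gκ h)
  have i3 : classInner (χ * κ) φ = 1 := by
    have e : classInner (χ * κ) φ = classInner κ (χ * φ) :=
      inner_congr fun g => by simp [rφ, h.real H]; ring
    rw [e, E1]
    simp only [classInner_add_right, κ3 iκ gκ h, κ3 iκ gκ t', κφ iκ gκ, irr_inner_self iκ]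
    simp
  have g7' := H.sub g12' ip (by rw [i3]; exact one_ne_zero) gp.d gp.v
  obtain ⟨η', κ', tη, iκ', gκ', e2⟩ := H.seven g7'
  have E3 : φ * φ = (fun _ => 1) + χ + φ + φ + κ1 + η' + κ' := by
    funext g
    have a1 := congrFun E1 g
    have a2 := congrFun e2 g
    have a3 := congrFun hκ1 g
    have a4 := hφg g
    simp only [Pi.mul_apply, Pi.add_apply, Pi.sub_apply] at a1 a2 a3 ⊢
    linear_combination (φ g) * a4 + χ g * a1 + a2 - a3 - a4
  have all : ∀ η, T3 u η → η = χ ∨ η = η' := fun η hη => by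
    by_contra hc
    push Not at hc
    refine iφ η hη ?_
    have e : classInner (η * φ) φ = classInner (φ * φ) η :=
      inner_congr fun g => by simp [rφ, hη.real H]; ring
    rw [e, E3]
    simp only [classInner_add_left, classInner_eq_zero_comm.1 hη.ne_one, φ3 η hη,
      irr_inner_ne h.1 hη.1 hc.1.symm, irr_inner_ne tη.1 hη.1 hc.2.symm, κ3 iκ1 g4 hη,
      κ3 iκ' gκ' hη]
    simp
  have e3 : χ' = η' := (all χ' t').resolve_left hne
  subst e3
  have E2 : χ * κ = φ + χ' + κ' := by linear_combination e2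
  have e4 : κ = κ1 := by
    refine irr_eq_of_inner_ne_zero iκ iκ1 ?_
    have e : classInner (χ * κ) χ' = classInner κ (φ + κ1) := by
      rw [hκ1]; exact inner_congr fun g => by simp [rφ, h.real H]; ring
    rw [E2] at e
    simp only [classInner_add_left, classInner_add_right, φ3 χ' t', irr_inner_self t'.1,
      κ3 iκ' gκ' t', κφ iκ gκ] at e
    rw [show classInner κ κ1 = 1 by linear_combination -e]
    exact one_ne_zero
  exact ⟨χ', κ, κ', t', hne, E1, by rw [e4, hκ1]; ring, E2, all⟩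

theorem T3.ring (H : Hyp u) {χ : G → ℂ} (h : T3 u χ) : ∃ χ' κ : G → ℂ, T3 u χ' ∧ χ' ≠ χ ∧
    (∀ g, χ g * ph χ g = χ g + ph χ g + χ' g + κ g) ∧ (∀ g, χ g * χ' g = ph χ g + κ g) ∧
    (∀ g, χ g * κ g = ph χ g + χ' g + κ g) ∧ ∀ η, T3 u η → η = χ ∨ η = χ' := by
  obtain ⟨χ', κ, κ', t', hne, e1, e2, e3, all⟩ := h.struct H
  obtain ⟨χ'', κ2, -, t'', hne', f1, f2, -, -⟩ := t'.struct H
  have e4 : χ'' = χ := (all _ t'').resolve_right hne'
  subst e4
  rw [t'.ph_eq H h] at f1 f2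
  refine ⟨χ', κ, t', hne, congrFun e1, congrFun e2, fun g => ?_, all⟩
  have a1 := congrFun e1 g
  have a2 := congrFun e2 g
  have a3 := congrFun e3 g
  have b1 := congrFun f1 g
  have b2 := congrFun f2 g
  have a4 : ph χ'' g = χ'' g * χ'' g - 1 - χ'' g := rfl
  simp only [Pi.mul_apply, Pi.add_apply] at a1 a2 a3 b1 b2
  linear_combination -(χ'' g) * a2 - χ' g * a4 + a2 + b1 - a1 + (a2 - b2)

theorem Hyp.pos (H : Hyp u) {θ : G → ℂ} (hθ : IsIrrCharacter G θ) (ht : ¬ T3 u θ) :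
    θ u = 0 ∨ 0 < (θ 1 * θ u).re := by
  by_cases h1 : θ = fun _ => 1
  · right; simp [h1]
  rcases H θ hθ h1 with e | e
  swap
  · exact Or.inl e
  obtain ⟨d, hd0, hd⟩ := irr_one_pos hθ
  have hv : θ u = d - 4 := by linear_combination hd - e
  have h2 : d ≠ 1 := fun e => h1 (H.lin (irr_isCharacter hθ) (by rw [hd, e]; simp))
  have h3 : d ≠ 2 := fun e => H.not_two hθ (by rw [hd, e]; simp) (by rw [hv, e]; norm_num)
  have h4 : d ≠ 3 := fun e => ht ⟨hθ, by rw [hd, e]; simp, by rw [hv, e]; norm_num⟩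
  by_cases h5 : d = 4
  · left; rw [hv, h5]; norm_num
  right
  have : (5 : ℝ) ≤ d := by exact_mod_cast (by omega : 5 ≤ d)
  rw [hd, hv]; simp; nlinarith

theorem Hyp.nonneg (H : Hyp u) {θ : G → ℂ} (hθ : IsIrrCharacter G θ) (ht : ¬ T3 u θ) :
    0 ≤ (θ 1 * θ u).re := (H.pos hθ ht).elim (fun e => by simp [e]) le_of_lt

theorem Hyp.exists_T3 (H : Hyp u) (hu : u ≠ 1) : ∃ χ, T3 u χ := by
  by_contra hc
  push Not at hc
  have h1 := congrArg Complex.re (sum_irr_one_mul hu)
  rw [Complex.re_sum, Complex.zero_re, Finset.sum_eq_zero_iff_of_nonneg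
    fun θ _ => H.nonneg θ.2 (hc _)] at h1
  simpa using h1 ⟨_, isIrrCharacter_one⟩ (Finset.mem_univ _)

theorem Hyp.main (H : Hyp u) (hu : u ≠ 1) : ∃ N : Subgroup G, N.Normal ∧ N.index = 60 ∧ u ∉ N ∧
    u * u ∈ N ∧ Nat.card (Subgroup.centralizer ({u} : Set G)) = 4 ∧
    (∀ g, g ∉ N → g * g ∈ N → IsConj u g) ∧ ∀ g, g * g * (g * g) ∈ N → g * g ∈ N := by
  classical
  obtain ⟨χ, h⟩ := H.exists_T3 hu
  obtain ⟨χ', κ, t', hne, e1, e2, e3, all⟩ := h.ring H
  have hχ := irr_isCharacter h.1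
  have ip := h.iph H
  have gp := h.gph H
  have φ1 := h.ph1
  have φu : ph χ u = 1 := by simpa using gp.v
  have hφ : ∀ g, ph χ g = χ g * χ g - 1 - χ g := fun g => rfl
  let a : IrrCharacter G := ⟨_, isIrrCharacter_one⟩
  let b : IrrCharacter G := ⟨_, h.1⟩
  let c : IrrCharacter G := ⟨_, t'.1⟩
  let d : IrrCharacter G := ⟨_, ip⟩
  have nd : ∀ x y : IrrCharacter G, x.1 1 ≠ y.1 1 → x ≠ y := fun x y h e => h (e ▸ rfl)
  have ab : a ≠ b := nd _ _ (by simp [a, b, h.2.1])
  have ac : a ≠ c := nd _ _ (by simp [a, c, t'.2.1])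
  have ad : a ≠ d := nd _ _ (by simp [a, d, φ1])
  have bc : b ≠ c := fun e => hne (congrArg Subtype.val e).symm
  have bd : b ≠ d := nd _ _ (by simp [b, d, φ1, h.2.1])
  have cd : c ≠ d := nd _ _ (by simp [c, d, φ1, t'.2.1])
  have s4 : ∀ F : IrrCharacter G → ℂ, ∑ x ∈ ({a, b, c, d} : Finset _), F x = F a + F b + F c + F d :=
    fun F => by
      rw [Finset.sum_insert (by simp [ab, ac, ad]), Finset.sum_insert (by simp [bc, bd]),
        Finset.sum_pair cd]; ring
  have nT : ∀ θ : IrrCharacter G, θ ∉ ({a, b, c, d} : Finset _) → ¬ T3 u θ.1 := fun θ hθ ht => by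
    rcases all _ ht with e | e
    · exact hθ (by rw [show θ = b from Subtype.ext e]; simp)
    · exact hθ (by rw [show θ = c from Subtype.ext e]; simp)
  have van : ∀ θ : IrrCharacter G, θ ∉ ({a, b, c, d} : Finset _) → θ.1 u = 0 := fun θ hθ => by
    have h1 := sum_irr_one_mul hu
    rw [← Finset.sum_add_sum_compl {a, b, c, d}, s4] at h1
    have h2 : ∑ x ∈ ({a, b, c, d} : Finset (IrrCharacter G))ᶜ, x.1 1 * x.1 u = 0 := by
      simp only [a, b, c, d, h.2.1, h.2.2, t'.2.1, t'.2.2, φ1, φu] at h1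
      linear_combination h1
    have h3 := congrArg Complex.re h2
    rw [Complex.re_sum, Complex.zero_re, Finset.sum_eq_zero_iff_of_nonneg
      fun θ hθ => H.nonneg θ.2 (nT θ (Finset.mem_compl.1 hθ))] at h3
    exact (H.pos θ.2 (nT θ hθ)).resolve_right (h3 θ (Finset.mem_compl.2 hθ)).not_gt
  have col : ∀ g, ∑ θ : IrrCharacter G, θ.1 u * conj (θ.1 g) = 1 - χ g - χ' g + ph χ g := fun g => by
    rw [← Finset.sum_subset (Finset.subset_univ {a, b, c, d}) fun θ _ hθ => by simp [van θ hθ], s4]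
    simp only [a, b, c, d, h.2.2, t'.2.2, φu, h.real H, t'.real H, h.rph H, map_one]
    ring
  have mem : ∀ g, g ∈ charKer χ ↔ χ g = 3 := fun g => by rw [mem_charKer hχ, h.2.1]
  have sq : ∀ g, χ (g * g) = χ g * χ g - 2 * χ g := fun g => by rw [h.sq H, h.real H]
  have val : ∀ g, g ∉ charKer χ → g * g ∈ charKer χ → χ g = -1 := fun g h1 h2 => by
    rw [mem] at h1 h2
    rw [sq] at h2
    have : (χ g - 3) * (χ g + 1) = 0 := by linear_combination h2
    exact eq_neg_of_add_eq_zero_left ((mul_eq_zero.1 this).resolve_left (sub_ne_zero.2 h1))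
  refine ⟨charKer χ, inferInstance, ?_, by rw [mem, h.2.2]; norm_num, by rw [mem, h.uu H], ?_,
    fun g h1 h2 => ?_, fun g h1 => ?_⟩
  · obtain ⟨ρ, hρ⟩ : ∃ ρ : G → ℂ, ρ = (fun _ => 1) + (3 : ℂ) • χ + (3 : ℂ) • χ' +
      (4 : ℂ) • (χ * χ' - ph χ) + (5 : ℂ) • ph χ := ⟨_, rfl⟩
    have hρg : ∀ g, ρ g = 1 + 3 * χ g + 3 * χ' g + 4 * κ g + 5 * ph χ g := fun g => by
      simp [hρ, e2]
    have i1 : classInner ρ (fun _ => 1) = 1 := by
      simp only [hρ, classInner_add_left, classInner_smul_left, classInner_sub_left, h.ne_one,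
        t'.ne_one, gp.nt, (h.gmul H t' hne.symm).nt, classInner_one_one]
      simp
    have v : ∀ g, ρ g = if g ∈ charKer χ then 60 else 0 := fun g => by
      have a1 := e1 g
      have a2 := e2 g
      have a3 := e3 g
      have a4 := hφ g
      split_ifs with hg
      · rw [mem] at hg
        rw [hg] at a1 a2 a3 a4
        rw [hρg, hg]
        linear_combination (-15 / 4 : ℂ) * a1 + (-1 / 4 : ℂ) * a2 + (49 / 4 : ℂ) * a4
      · rw [mem] at hg
        refine (mul_eq_zero.1 (?_ : (χ g - 3) * ρ g = 0)).resolve_left (sub_ne_zero.2 hg)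
        rw [hρg]
        linear_combination 5 * a1 + 3 * a2 + 4 * a3 - 3 * a4
    rw [classInner_one_right, Finset.sum_congr rfl fun g _ => v g, ← Finset.sum_filter,
      Finset.sum_const, nsmul_eq_mul, ← Fintype.card_subtype, ← Nat.card_eq_fintype_card,
      ← (charKer χ).index_mul_card] at i1
    have h0 : (Nat.card (charKer χ) : ℂ) ≠ 0 := card_ne_zero
    have h1 : ((charKer χ).index : ℂ) ≠ 0 := by exact_mod_cast Subgroup.index_ne_zero_of_finite
    push_cast at i1
    field_simp at i1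
    exact_mod_cast i1.symm
  · have := column_orthogonality_self u
    rw [col, h.2.2, t'.2.2, φu] at this
    have e : ((Nat.card (Subgroup.centralizer ({u} : Set G)) : ℕ) : ℂ) = (4 : ℕ) := by
      rw [← this]; norm_num
    exact_mod_cast e
  · by_contra hc
    have := column_orthogonality_not_isConj hc
    have a0 := val g h1 h2
    have a1 := e1 g
    have a3 := e3 g
    have a4 := hφ g
    rw [col] at this
    rw [a0] at a1 a3 a4 this
    have : (4 : ℂ) = 0 := by linear_combination this - 2 * a1 + a3 - 4 * a4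
    norm_num at this
  · by_contra hc
    have a0 := val _ hc h1
    rw [sq] at a0
    have a5 : χ g = 1 := by
      have : (χ g - 1) ^ 2 = 0 := by linear_combination a0
      exact sub_eq_zero.1 (pow_eq_zero_iff two_ne_zero |>.1 this)
    have a1 := e1 g
    have a2 := e2 g
    have a3 := e3 g
    have a4 := hφ g
    rw [a5] at a1 a2 a3 a4
    have : (4 : ℂ) = 0 := by linear_combination -a1 + a2 + 2 * a3 + 3 * a4
    norm_num at this

end H86.Cz
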