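import Mathlib

/-! # Principal 3-blocks with extraspecial defect group of order 27: arithmetic -/

set_option autoImplicit false

namespace H86.E27

open Finset

/-- the norm of `a + b ω` -/
def nrm (a b : ℤ) : ℤ := a ^ 2 - a * b + b ^ 2

theorem nrm_nonneg (a b : ℤ) : 0 ≤ nrm a b := by unfold nrm; nlinarith [sq_nonneg (2 * a - b), sq_nonneg b]

theorem nrm_eq_zero {a b : ℤ} (h : nrm a b = 0) : a = 0 ∧ b = 0 := by
  unfold nrm at h
  have hb : b = 0 := by nlinarith [sq_nonneg (2 * a - b), sq_nonneg b]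
  subst hb
  exact ⟨by nlinarith [sq_nonneg a], rfl⟩

theorem small {a b : ℤ} (h : 2 * a - b + 3 * nrm a b ≤ 2) :
    (a = 0 ∧ b = 0) ∨ (a = -1 ∧ b = 0) ∨ (a = 0 ∧ b = 1) ∨ (a = -1 ∧ b = -1) := by
  unfold nrm at h
  have h1 : b ≤ 1 := by nlinarith [sq_nonneg (2 + 6 * a - 3 * b), sq_nonneg (b - 2)]
  have h2 : -1 ≤ b := by nlinarith [sq_nonneg (2 + 6 * a - 3 * b), sq_nonneg (b + 2)]
  have h3 : a ≤ 1 := by nlinarith [sq_nonneg (2 * b - 1 - a), sq_nonneg (a - 2)]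
  have h4 : -2 ≤ a := by nlinarith [sq_nonneg (2 * b - 1 - a), sq_nonneg (a + 3)]
  interval_cases a <;> interval_cases b <;> simp_all

theorem ex_nonneg (a b : ℤ) : 0 ≤ 2 * a - b + 3 * nrm a b := by
  by_contra h
  rcases small (a := a) (b := b) (by omega) with ⟨rfl, rfl⟩ | ⟨rfl, rfl⟩ | ⟨rfl, rfl⟩ | ⟨rfl, rfl⟩ <;>
    simp [nrm] at h

/-- the possible states of a row of height zero -/
def St (A B N : ℤ) : Prop :=
  (A = 0 ∧ B = 0 ∧ N = 0) ∨ (A = -1 ∧ B = 0 ∧ N = 1) ∨ (A = 0 ∧ B = 1 ∧ N = 1) ∨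
    (A = -1 ∧ B = -1 ∧ N = 1) ∨ (A = -2 ∧ B = 0 ∧ N = 2)

theorem row0 {ι : Type*} (s : Finset ι) (a b : ι → ℤ)
    (h : 2 * ∑ i ∈ s, a i - ∑ i ∈ s, b i + 3 * ∑ i ∈ s, nrm (a i) (b i) ≤ 2) :
    St (∑ i ∈ s, a i) (∑ i ∈ s, b i) (∑ i ∈ s, nrm (a i) (b i)) := by
  classical
  induction s using Finset.induction_on with
  | empty => simp [St]
  | insert j s hj ih =>
    simp only [sum_insert hj] at h ⊢
    have h0 : 0 ≤ 2 * ∑ i ∈ s, a i - ∑ i ∈ s, b i + 3 * ∑ i ∈ s, nrm (a i) (b i) := by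
      rw [mul_sum, mul_sum, ← sum_sub_distrib, ← sum_add_distrib]
      exact sum_nonneg fun i _ => ex_nonneg _ _
    have h1 := ex_nonneg (a j) (b j)
    have h2 := ih (by omega)
    have h3 := small (a := a j) (b := b j) (by omega)
    generalize ∑ i ∈ s, a i = A at *
    generalize ∑ i ∈ s, b i = B at *
    generalize ∑ i ∈ s, nrm (a i) (b i) = N at *
    clear ih h0 h1
    rcases h2 with ⟨rfl, rfl, rfl⟩ | ⟨rfl, rfl, rfl⟩ | ⟨rfl, rfl, rfl⟩ | ⟨rfl, rfl, rfl⟩ | ⟨rfl, rfl, rfl⟩ <;>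
      rcases h3 with ⟨e, f⟩ | ⟨e, f⟩ | ⟨e, f⟩ | ⟨e, f⟩ <;> rw [e, f] at h ⊢ <;> revert h <;>
      simp [nrm, St]

theorem row1 {ι : Type*} (s : Finset ι) (a b : ι → ℤ) (h : ∑ i ∈ s, nrm (a i) (b i) ≤ 1) :
    nrm (∑ i ∈ s, a i) (∑ i ∈ s, b i) = ∑ i ∈ s, nrm (a i) (b i) := by
  classical
  induction s using Finset.induction_on with
  | empty => simp [nrm]
  | insert j s hj ih =>
    simp only [sum_insert hj] at h ⊢
    have h0 : 0 ≤ ∑ i ∈ s, nrm (a i) (b i) := sum_nonneg fun i _ => nrm_nonneg _ _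
    have h1 := nrm_nonneg (a j) (b j)
    have h2 := ih (by omega)
    by_cases e : nrm (a j) (b j) = 0
    · rw [e, (nrm_eq_zero e).1, (nrm_eq_zero e).2, zero_add, zero_add, zero_add, h2]
    · have h3 : ∑ i ∈ s, nrm (a i) (b i) = 0 := by omega
      rw [h3] at h2 ⊢
      rw [(nrm_eq_zero h2).1, (nrm_eq_zero h2).2, add_zero, add_zero, add_zero]

theorem sq_c {c : ℤ} (h : (1 + 3 * c) ^ 2 ≤ 9) : c = 0 ∨ c = -1 := by
  have h1 : c ≤ 0 := by nlinarith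
  have h2 : -1 ≤ c := by nlinarith
  omega

/-- a column of norm nine with entries prime to three -/
theorem col9 {κ : Type*} {J : Finset κ} {d e : κ → ℤ} {o : κ} (ho : o ∈ J) (h1 : d o = 1) (h2 : e o = 1)
    (h3 : ∀ x ∈ J, ¬ 3 ∣ d x) (h4 : ∑ x ∈ J, d x ^ 2 = 9) (h5 : ∑ x ∈ J, d x * e x = 0) :
    J.card = 6 ∨ J.card = 9 := by
  classical
  have k : ∀ x ∈ J, d x ^ 2 = 1 ∨ d x ^ 2 = 4 := fun x hx => by
    have h6 : d x ^ 2 ≤ 9 := h4 ▸ single_le_sum (f := fun x => d x ^ 2) (fun _ _ => sq_nonneg _) hx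
    have h7 := h3 x hx
    have : -3 ≤ d x := by nlinarith
    have : d x ≤ 3 := by nlinarith
    interval_cases d x <;> simp_all
  have a1 : (J.card : ℤ) ≤ 9 := by
    rw [← h4, card_eq_sum_ones, Nat.cast_sum]
    exact sum_le_sum fun x hx => by rcases k x hx with e | e <;> simp [e]
  have a2 : (3 : ℤ) ∣ ∑ x ∈ J, (d x ^ 2 - 1) :=
    dvd_sum fun x hx => by rcases k x hx with e | e <;> simp [e]
  rw [sum_sub_distrib, h4, sum_const, nsmul_eq_mul, mul_one] at a2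
  have a3 := card_pos.2 ⟨o, ho⟩
  have a4 : J.card ≠ 3 := fun h => by
    rw [← add_sum_erase _ _ ho, h1] at h4 h5
    have b1 : ∑ x ∈ J.erase o, (4 - d x ^ 2) = 0 := by
      rw [sum_sub_distrib, sum_const, card_erase_of_mem ho, h]; simp; omega
    have b2 := (sum_eq_zero_iff_of_nonneg fun x hx => by
      rcases k x (mem_of_mem_erase hx) with e | e <;> simp [e]).1 b1
    have b3 : (2 : ℤ) ∣ ∑ x ∈ J.erase o, d x * e x := dvd_sum fun x hx =>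
      Dvd.dvd.mul_right (Int.prime_two.dvd_of_dvd_pow (n := 2) ⟨2, by have := b2 x hx; omega⟩) _
    omega
  omega

theorem main {κ μ ι : Type*} [Fintype ι] [DecidableEq ι] {J0 J1 : Finset κ} {I : Finset μ}
    {a b : κ → μ → ℤ} {c : κ → ι → ℤ} (i0 : ι) (hn : I.card + Fintype.card ι = 6)
    (hk : J0.card = 6 ∨ J0.card = 9)
    (D : ∀ i j, ∑ x ∈ J0, (1 + 3 * c x i) * (1 + 3 * c x j) = if i = j then 9 else 0)
    (R1 : ∑ x ∈ J0, ∑ i ∈ I, nrm (1 + 3 * a x i) (3 * b x i) +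
      ∑ x ∈ J1, ∑ i ∈ I, nrm (3 * a x i) (3 * b x i) = 27 * I.card)
    (R2 : ∑ x ∈ J0, nrm (∑ i ∈ I, (1 + 3 * a x i)) (∑ i ∈ I, 3 * b x i) +
      ∑ x ∈ J1, nrm (∑ i ∈ I, 3 * a x i) (∑ i ∈ I, 3 * b x i) = 27 * I.card)
    (R3 : ∑ x ∈ J0, (1 + 3 * c x i0) * (2 * ∑ i ∈ I, (1 + 3 * a x i) - ∑ i ∈ I, 3 * b x i) = 0)
    (r0 : ∀ x ∈ J0, 2 * ∑ i ∈ I, nrm (1 + 3 * a x i) (3 * b x i) + 3 * ∑ j, (1 + 3 * c x j) ^ 2 < 27)
    (r1 : ∀ x ∈ J1, 2 * ∑ i ∈ I, nrm (3 * a x i) (3 * b x i) < 27 ∧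
      ∑ i ∈ I, nrm (3 * a x i) (3 * b x i) ≠ 0) :
    J0.card = 6 ∧ J1.card = 2 * I.card := by
  have hs : 1 ≤ Fintype.card ι := Fintype.card_pos_iff.2 ⟨i0⟩
  have n1 : ∀ x, ∑ i ∈ I, nrm (1 + 3 * a x i) (3 * b x i) = I.card +
      3 * (2 * ∑ i ∈ I, a x i - ∑ i ∈ I, b x i + 3 * ∑ i ∈ I, nrm (a x i) (b x i)) := fun x => by
    rw [card_eq_sum_ones, Nat.cast_sum, mul_sum, mul_sum, ← sum_sub_distrib, ← sum_add_distrib, mul_sum,
      ← sum_add_distrib]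
    exact sum_congr rfl fun i _ => by simp only [nrm]; push_cast; ring
  have n2 : ∀ x, ∑ i ∈ I, nrm (3 * a x i) (3 * b x i) = 9 * ∑ i ∈ I, nrm (a x i) (b x i) := fun x => by
    rw [mul_sum]; exact sum_congr rfl fun i _ => by simp only [nrm]; ring
  have n3 : ∀ x, ∑ i ∈ I, (1 + 3 * a x i) = I.card + 3 * ∑ i ∈ I, a x i := fun x => by
    rw [sum_add_distrib, mul_sum]; simp
  have p1 : ∀ x ∈ J1, ∑ i ∈ I, nrm (a x i) (b x i) = 1 := fun x hx => by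
    have := r1 x hx
    have h0 : 0 ≤ ∑ i ∈ I, nrm (a x i) (b x i) := sum_nonneg fun i _ => nrm_nonneg _ _
    rw [n2] at this
    omega
  have q1 : ∑ x ∈ J1, ∑ i ∈ I, nrm (3 * a x i) (3 * b x i) = 9 * J1.card := by
    rw [sum_congr rfl fun x hx => by rw [n2, p1 x hx]]; simp [mul_comm]
  have q2 : ∑ x ∈ J1, nrm (∑ i ∈ I, 3 * a x i) (∑ i ∈ I, 3 * b x i) = 9 * J1.card := by
    rw [sum_congr rfl (g := fun _ => 9) fun x hx => ?_]
    · simp [mul_comm]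
    · have := row1 I (a x) (b x) (p1 x hx).le
      rw [p1 x hx] at this
      rw [← mul_sum, ← mul_sum]
      simp only [nrm] at this ⊢
      linear_combination 9 * this
  have cc : ∀ x ∈ J0, ∀ j, c x j = 0 ∨ c x j = -1 := fun x hx j => sq_c (by
    have := D j j
    rw [if_pos rfl] at this
    rw [← this, sq]
    exact single_le_sum (f := fun x => (1 + 3 * c x j) * (1 + 3 * c x j)) (fun _ _ => mul_self_nonneg _) hx)
  have c2 : ∀ x ∈ J0, ∑ j, (1 + 3 * c x j) ^ 2 = Fintype.card ι - 3 * ∑ j, c x j := fun x hx => by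
    rw [mul_sum, Fintype.card, card_eq_sum_ones, Nat.cast_sum, ← sum_sub_distrib]
    exact sum_congr rfl fun j _ => by rcases cc x hx j with e | e <;> simp [e]
  have c3 : ∀ j, ∑ x ∈ J0, 3 * c x j = J0.card - 9 := fun j => by
    have := D j j
    rw [if_pos rfl, sum_congr rfl (g := fun x => 1 - 3 * c x j) fun x hx => by
      rcases cc x hx j with e | e <;> simp [e], sum_sub_distrib] at this
    simp only [sum_const, nsmul_eq_mul, mul_one] at this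
    omega
  have c4 : ∀ x ∈ J0, ∑ j, c x j ≤ c x i0 := fun x hx => by
    rw [← add_sum_erase _ _ (mem_univ i0)]
    have : ∑ j ∈ univ.erase i0, c x j ≤ 0 := sum_nonpos fun j _ => by rcases cc x hx j with e | e <;> simp [e]
    omega
  rw [q1] at R1
  rw [q2] at R2
  simp only [n1, n3, ← mul_sum] at R1 R2 R3 r0
  obtain ⟨A, hA⟩ : ∃ A : κ → ℤ, ∀ x, ∑ i ∈ I, a x i = A x := ⟨_, fun _ => rfl⟩
  obtain ⟨B, hB⟩ : ∃ B : κ → ℤ, ∀ x, ∑ i ∈ I, b x i = B x := ⟨_, fun _ => rfl⟩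
  obtain ⟨N, hN⟩ : ∃ N : κ → ℤ, ∀ x, ∑ i ∈ I, nrm (a x i) (b x i) = N x := ⟨_, fun _ => rfl⟩
  have st : ∀ x ∈ J0, c x i0 * (2 * A x - B x) = 0 ∧ 0 ≤ nrm (A x) (B x) - N x ∧ nrm (A x) (B x) - N x ≤ 2 ∧
      2 * N x - 2 * ∑ j, c x j ≤ 2 + (nrm (A x) (B x) - N x) ∧ 0 ≤ 2 * A x - B x + 2 * N x := fun x hx => by
    have h1 := r0 x hx
    have h2 := c4 x hx
    have h3 := cc x hx i0
    rw [c2 x hx] at h1
    have h4 := row0 I (a x) (b x) (by omega)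
    rw [hA, hB, hN] at h1 h4
    rcases h4 with ⟨e, f, g⟩ | ⟨e, f, g⟩ | ⟨e, f, g⟩ | ⟨e, f, g⟩ | ⟨e, f, g⟩ <;> rw [e, f, g] at h1 ⊢ <;>
      simp only [nrm] <;> omega
  simp only [hA, hB, hN] at R1 R2 R3
  have s1 : ∑ x ∈ J0, (↑(#I) + 3 * (2 * A x - B x + 3 * N x)) =
      #J0 * #I + 3 * ∑ x ∈ J0, (2 * A x - B x) + 9 * ∑ x ∈ J0, N x := by
    rw [mul_sum, mul_sum, card_eq_sum_ones J0, Nat.cast_sum, sum_mul, ← sum_add_distrib, ← sum_add_distrib]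
    exact sum_congr rfl fun x _ => by push_cast; ring
  have s2 : ∑ x ∈ J0, nrm (↑(#I) + 3 * A x) (3 * B x) = #J0 * #I ^ 2 + 3 * #I * ∑ x ∈ J0, (2 * A x - B x) +
      9 * ∑ x ∈ J0, (nrm (A x) (B x) - N x) + 9 * ∑ x ∈ J0, N x := by
    rw [mul_sum, mul_sum, mul_sum, card_eq_sum_ones J0, Nat.cast_sum, sum_mul, ← sum_add_distrib,
      ← sum_add_distrib, ← sum_add_distrib]
    exact sum_congr rfl fun x _ => by simp only [nrm]; push_cast; ring
  have s3 : ∑ x ∈ J0, (1 + 3 * c x i0) * (2 * (↑(#I) + 3 * A x) - 3 * B x) = #J0 * (2 * #I) +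
      2 * #I * ∑ x ∈ J0, 3 * c x i0 + 3 * ∑ x ∈ J0, (2 * A x - B x) := by
    rw [mul_sum, mul_sum, card_eq_sum_ones J0, Nat.cast_sum, sum_mul, ← sum_add_distrib, ← sum_add_distrib]
    exact sum_congr rfl fun x hx => by push_cast; linear_combination 9 * (st x hx).1
  have s4 : ∑ x ∈ J0, (nrm (A x) (B x) - N x) ≤ 2 * #J0 := by
    rw [card_eq_sum_ones J0, Nat.cast_sum, mul_sum]
    exact sum_le_sum fun x hx => by have := (st x hx).2.2.1; push_cast; omega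
  have s5 : 0 ≤ ∑ x ∈ J0, (2 * A x - B x) + 2 * ∑ x ∈ J0, N x := by
    rw [mul_sum, ← sum_add_distrib]
    exact sum_nonneg fun x hx => (st x hx).2.2.2.2
  have s6 : 2 * ∑ x ∈ J0, N x - 2 * ∑ x ∈ J0, ∑ j, c x j ≤ 2 * #J0 + ∑ x ∈ J0, (nrm (A x) (B x) - N x) := by
    rw [mul_sum, mul_sum, card_eq_sum_ones J0, Nat.cast_sum, mul_sum, ← sum_sub_distrib, ← sum_add_distrib]
    exact sum_le_sum fun x hx => by have := (st x hx).2.2.2.1; push_cast; omega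
  have s7 : 3 * ∑ x ∈ J0, ∑ j, c x j = Fintype.card ι * (#J0 - 9) := by
    rw [sum_comm, mul_sum, sum_congr rfl fun j _ => by rw [mul_sum, c3 j]]; simp [mul_sub]
  rw [s1] at R1
  rw [s2] at R2
  rw [s3, c3] at R3
  generalize ∑ x ∈ J0, (2 * A x - B x) = SR at *
  generalize ∑ x ∈ J0, N x = SN at *
  generalize ∑ x ∈ J0, (nrm (A x) (B x) - N x) = SQ at *
  generalize ∑ x ∈ J0, ∑ j, c x j = SC at *
  rcases hk with hk | hk
  · rw [hk] at R1 R2 R3 s4 s6 s7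
    have h5 : #I ≤ 5 := by omega
    refine ⟨hk, ?_⟩
    generalize #I = n at *
    interval_cases n <;> push_cast at R1 R2 R3 <;> omega
  · exfalso
    have h1 : Fintype.card ι = 1 := by
      by_contra h
      obtain ⟨j, hj⟩ := Fintype.exists_ne_of_one_lt_card (α := ι) (by omega) i0
      have z : ∀ j, ∀ x ∈ J0, c x j = 0 := fun j x hx => by
        have h2 := c3 j
        rw [hk] at h2
        have := (sum_eq_zero_iff_of_nonpos (s := J0) (f := fun x => 3 * c x j) fun x hx => by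
          rcases cc x hx j with e | e <;> simp [e]).1 (by rw [h2]; simp) x hx
        omega
      have h2 := D j i0
      rw [if_neg hj, sum_congr rfl (g := fun _ => 1) fun x hx => by rw [z j x hx, z i0 x hx]; simp] at h2
      simp [hk] at h2
    have h5 : #I = 5 := by omega
    rw [hk, h5] at R1 R2 R3
    rw [hk] at s4
    norm_num at R1 R2 R3
    omega

end H86.E27
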