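import Cfsg.Agent.Lib.Blk86.Ex27G

/-! # Principal 3-blocks with extraspecial defect group of order 27: the result -/

set_option autoImplicit false
set_option linter.style.haveILetI false
set_option linter.unusedSectionVars false

namespace H86.E27

open Cfsg H69 H35 H84 Subgroup Finset

universe v

variable {G : Type v} [Group G] [Fintype G] {M : Ideal AlgInt} [M.IsMaximal]

theorem Cls.nilp {z : G} {ι : Type*} [Fintype ι] {u : ι → G} (c : Cls z u) (hM : IsPModular 3 M)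
    (h1 : Nil (1 : G) 3) (h2 : Nil z 3) (h3 : Nil z⁻¹ 3) (hι : Fintype.card ι = 8) :
    (bset (principalBlock M G)).card = 11 ∧ (J0 M G).card = 9 ∧ blockRank 3 (principalBlock M G) = 1 := by
  classical
  have t1 := h1.tr hM isPElt_one
  simp only [cut_one] at t1
  have k : (bset (principalBlock M G)).card = 11 := by
    have := sum_congr rfl fun (χ : IrrCharacter G) (_ : χ ∈ bset (principalBlock M G)) => c.split (χ : G → ℂ) χ
    rw [sum_add_distrib, sum_add_distrib, sum_add_distrib, t1, h2.tr hM (pelt c.z3),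
      h3.tr hM (pelt (by rw [inv_pow, c.z3]; simp)), sum_comm,
      sum_congr rfl fun i _ => (c.nil i).tr hM (pelt (c.u3 i))] at this
    simp only [H6.irr_inner_self (Subtype.prop _), sum_const, card_univ, hι, nsmul_eq_mul] at this
    exact_mod_cast (by linear_combination this : ((bset (principalBlock M G)).card : ℂ) = 11)
  refine ⟨k, ?_, by exact_mod_cast (blockRank_eq_sum hM isPBlock_principal).trans t1⟩
  have h4 := h1.col hM isPElt_one
  simp only [← cast_deg, map_natCast] at h4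
  have h5 : ∑ χ ∈ bset (principalBlock M G), (charDegree (χ : G → ℂ) : ℤ) * charDegree (χ : G → ℂ) = 27 := by
    exact_mod_cast h4
  have sub : J0 M G ⊆ bset (principalBlock M G) := filter_subset _ _
  have kk := card_sdiff_add_card_eq_card sub
  have d1 : ∀ χ ∈ bset (principalBlock M G) \ J0 M G, 3 ∣ charDegree (χ : G → ℂ) := fun χ h =>
    by_contra fun e => (mem_sdiff.1 h).2 (mem_J0.2 ⟨mem_bset.1 (mem_sdiff.1 h).1, e⟩)
  rw [← sum_sdiff sub] at h5
  have a1 := card_nsmul_le_sum _ (fun χ : IrrCharacter G => (charDegree (χ : G → ℂ) : ℤ) * charDegree (χ : G → ℂ))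
    9 fun χ h => by have := Nat.le_of_dvd (deg_pos χ) (d1 χ h); nlinarith
  have a2 := card_nsmul_le_sum (J0 M G)
    (fun χ : IrrCharacter G => (charDegree (χ : G → ℂ) : ℤ) * charDegree (χ : G → ℂ)) 1
    fun χ h => by have := deg_pos χ; nlinarith
  have a3 : (3 : ℤ) ∣ _ := dvd_sum fun χ h => (Int.natCast_dvd_natCast.2 (d1 χ h)).mul_right
    (charDegree (χ : G → ℂ) : ℤ)
  have a4 : (3 : ℤ) ∣ ∑ χ ∈ J0 M G, ((charDegree (χ : G → ℂ) : ℤ) * charDegree (χ : G → ℂ) - 1) :=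
    dvd_sum fun χ h => by
      have := (mem_J0.1 h).2
      generalize charDegree (χ : G → ℂ) = n at this
      obtain ⟨m, rfl | rfl⟩ : ∃ m, n = 3 * m + 1 ∨ n = 3 * m + 2 := ⟨n / 3, by omega⟩
      exacts [⟨3 * m * m + 2 * m, by push_cast; ring⟩, ⟨3 * m * m + 4 * m + 1, by push_cast; ring⟩]
  rw [sum_sub_distrib, sum_const] at a4
  simp only [nsmul_eq_mul] at a1 a2 a4
  omega

theorem memK {P : Subgroup G} {x : G} : x ∈ P ⊔ 𝐂(P) ↔ ∃ a ∈ P, ∃ b ∈ 𝐂(P), x = a * b :=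
  mem_sup_of_le_normalizer_right (le_normalizer_centralizer le_normalizer)

theorem K_le (P : Subgroup G) : P ⊔ 𝐂(P) ≤ 𝐍(P) := sup_le le_normalizer (centralizer_le_normalizer _)

instance K_normal (P : Subgroup G) : ((P ⊔ 𝐂(P)).subgroupOf 𝐍(P)).Normal :=
  (normal_subgroupOf_iff_le_normalizer (K_le P)).2 (le_normalizer_sup le_rfl
    (normalizer_le_normalizer_centralizer P))

theorem conjK {P : Subgroup G} {k : G} (hk : k ∈ P ⊔ 𝐂(P)) :
    ∃ a ∈ P, ∀ x ∈ P, k * x * k⁻¹ = a * x * a⁻¹ := by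
  obtain ⟨a, ha, b, hb, rfl⟩ := memK.1 hk
  exact ⟨a, ha, fun x hx => by
    rw [show a * b * x * (a * b)⁻¹ = a * (b * x * b⁻¹) * a⁻¹ by group, conj_eq_of_mem_centralizer hb hx]⟩

namespace Hy

variable {P : Sylow 3 G} {z : G} (h : Hy P z) {e : ℕ}
  (he : ((P : Subgroup G) ⊔ 𝐂((P : Subgroup G))).relIndex 𝐍((P : Subgroup G)) = e) (h8 : e ∣ 8)
include h

section
include he h8

theorem stabK {u n : G} (hu : u ∈ (P : Subgroup G)) (hn : u ∉ zpowers z) (h1 : n ∈ 𝐍((P : Subgroup G)))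
    (h2 : n * u = u * n) : n ∈ (P : Subgroup G) ⊔ 𝐂((P : Subgroup G)) := by
  obtain ⟨d, hd⟩ := h8
  have h3 : n ^ e ∈ (P : Subgroup G) ⊔ 𝐂((P : Subgroup G)) :=
    he ▸ pow_index_mem (((P : Subgroup G) ⊔ 𝐂((P : Subgroup G))).subgroupOf 𝐍((P : Subgroup G))) ⟨n, h1⟩
  have h4 := mul_mem (pow_mem (mem_sup_right (h.stab hu hn h1 h2)) 3) (inv_mem (pow_mem h3 d))
  rwa [← pow_mul, ← pow_mul, ← hd, show n ^ (3 * 3) * (n ^ 8)⁻¹ = n by group] at h4

theorem orb {u : G} (hu : u ∈ (P : Subgroup G)) (hn : u ∉ zpowers z) :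
    {y | ∃ n ∈ 𝐍((P : Subgroup G)), n * u * n⁻¹ = y}.ncard = 3 * e := by
  have h1 : (centralizer ({u} : Set G)).relIndex ((P : Subgroup G) ⊔ 𝐂((P : Subgroup G))) = 3 := by
    refine Eq.trans ?_ ((Set.ncard_image_of_injective _ (mul_left_injective u)).trans
      ((Nat.card_zpowers z).trans h.oz))
    rw [relIndex_cent]
    congr 1
    ext y
    refine ⟨fun ⟨k, a, b⟩ => ?_, fun ⟨w, a, b⟩ => b ▸ (h.cz hu hn a).imp fun v e => ⟨mem_sup_left e.1, e.2⟩⟩
    obtain ⟨v, c, d⟩ := conjK a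
    exact ⟨_, h.com v c u hu, by rw [← b, d u hu]; simp⟩
  have h2 := relIndex_mul_relIndex (centralizer ({u} : Set G) ⊓ _) _ _ inf_le_right (K_le (P : Subgroup G))
  rw [inf_relIndex_right, h1, he] at h2
  rw [← relIndex_cent, h2, ← inf_relIndex_right]
  congr 1
  exact le_antisymm (fun n hn' => ⟨hn'.1, h.stabK he h8 hu hn hn'.2 (mem_centralizer_singleton_iff.1 hn'.1)⟩)
    (inf_le_inf_left _ (K_le _))

theorem real (h2 : 2 ∣ e) {u : G} (hu : u ∈ (P : Subgroup G)) (hn : u ∉ zpowers z) :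
    ∃ n ∈ 𝐍((P : Subgroup G)), n * u * n⁻¹ = u⁻¹ := by
  obtain ⟨q, hq⟩ := exists_prime_orderOf_dvd_card' (G := 𝐍((P : Subgroup G)) ⧸
    ((P : Subgroup G) ⊔ 𝐂((P : Subgroup G))).subgroupOf 𝐍((P : Subgroup G))) 2 (h2.trans he.symm.dvd)
  obtain ⟨⟨t, ht⟩, rfl⟩ := QuotientGroup.mk_surjective q
  have h3 : t ∉ (P : Subgroup G) ⊔ 𝐂((P : Subgroup G)) := fun e => by
    rw [(QuotientGroup.eq_one_iff _).2 (mem_subgroupOf.2 e), orderOf_one] at hq; omega
  have h4 : t * t ∈ (P : Subgroup G) ⊔ 𝐂((P : Subgroup G)) := mem_subgroupOf.1 ((QuotientGroup.eq_one_iff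
    (⟨t, ht⟩ * ⟨t, ht⟩ : 𝐍((P : Subgroup G)))).1 (by rw [QuotientGroup.mk_mul, ← sq, ← hq, pow_orderOf_eq_one]))
  obtain ⟨a, ha, h5⟩ := conjK h4
  have m := conj_mem_of_mem_normalizer ht hu
  have h6 : t * u * t⁻¹ * u ∈ zpowers z := by_contra fun hn' => by
    have m' := mul_mem m hu
    obtain ⟨w, hw, h7⟩ := h.cz m' hn' (mul_mem (h.com a ha u hu) (h.com u hu _ m))
    refine h3 (mul_inv_cancel_left w t ▸ mul_mem (mem_sup_left hw) (h.stabK he h8 m' hn'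
      (mul_mem (le_normalizer (inv_mem hw)) ht) (mul_inv_eq_iff_eq_mul.1 ?_)))
    calc _ = w⁻¹ * (t * t * u * (t * t)⁻¹ * (t * u * t⁻¹)) * w := by group
      _ = w⁻¹ * (w * (t * u * t⁻¹ * u) * w⁻¹) * w := by rw [h5 u hu, h7]; group
      _ = _ := by group
  obtain ⟨w, hw, h7⟩ := h.cz (inv_mem hu) (mt inv_mem_iff.1 hn) h6
  refine ⟨w⁻¹ * t, mul_mem (le_normalizer (inv_mem hw)) ht, ?_⟩
  calc _ = w⁻¹ * (t * u * t⁻¹ * u * u⁻¹) * w := by group
    _ = _ := by rw [← h7]; group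

theorem reps : ∃ (ι : Type v) (_ : Fintype ι) (u : ι → G), (∀ i, u i ∈ (P : Subgroup G) ∧ u i ∉ zpowers z) ∧
    (∀ i j, IsConj (u i) (u j) → i = j) ∧ (∀ x ∈ (P : Subgroup G), x ∉ zpowers z → ∃ i, IsConj (u i) x) ∧
    Fintype.card ι * e = 8 := by
  classical
  let S : Finset G := univ.filter fun x => x ∈ (P : Subgroup G) ∧ x ∉ zpowers z
  have mS : ∀ x, x ∈ S ↔ x ∈ (P : Subgroup G) ∧ x ∉ zpowers z := fun x => by simp [S]
  choose u hu using fun i : S.image ConjClasses.mk => mem_image.1 i.2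
  refine ⟨S.image ConjClasses.mk, inferInstance, u, fun i => (mS _).1 (hu i).1, fun i j e => Subtype.ext ?_,
    fun x h1 h2 => ⟨⟨_, mem_image_of_mem _ ((mS x).2 ⟨h1, h2⟩)⟩, ConjClasses.mk_eq_mk_iff_isConj.1 (hu _).2⟩, ?_⟩
  · rw [← (hu i).2, ← (hu j).2, ConjClasses.mk_eq_mk_iff_isConj.2 e]
  have h1 : S.card = 24 := by
    rw [← Set.ncard_coe_finset, show (S : Set G) = ((P : Subgroup G) : Set G) \ zpowers z from Set.ext mS,
      Set.ncard_diff h.zle, ← Nat.card_coe_set_eq, ← Nat.card_coe_set_eq]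
    change Nat.card P - Nat.card (zpowers z) = 24
    rw [h.card, Nat.card_zpowers, h.oz]
  rw [card_eq_sum_card_image ConjClasses.mk, sum_congr rfl (g := fun _ => 3 * e) fun c hc => by
    obtain ⟨x, hx, rfl⟩ := mem_image.1 hc
    obtain ⟨a, b⟩ := (mS x).1 hx
    rw [← h.orb he h8 a b, ← Set.ncard_coe_finset]
    congr 1
    ext y
    simp only [coe_filter, Set.mem_setOf_eq, mS, ConjClasses.mk_eq_mk_iff_isConj]
    refine ⟨fun ⟨h1, h2⟩ => ?_, fun ⟨n, h1, h2⟩ => h2 ▸ ⟨⟨conj_mem_of_mem_normalizer h1 a, h.notZ a b⟩,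
      (isConj_iff.2 ⟨n, rfl⟩).symm⟩⟩
    obtain ⟨g, rfl⟩ := isConj_iff.1 h2.symm
    exact h.fus a h1.1, sum_const, smul_eq_mul] at h1
  rw [Fintype.card_coe]
  linarith

end

theorem cls {ι : Type*} {u : ι → G} (h1 : ∀ i, u i ∈ (P : Subgroup G) ∧ u i ∉ zpowers z)
    (h2 : ∀ i j, IsConj (u i) (u j) → i = j) (h3 : ∀ x ∈ (P : Subgroup G), x ∉ zpowers z → ∃ i, IsConj (u i) x) :
    Cls z u := by
  have k : ∀ w ∈ zpowers z, ∀ i, ¬ IsConj w (u i) := fun w hw i e => by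
    obtain ⟨g, e⟩ := isConj_iff.1 e
    exact (h1 i).2 (e ▸ (h.conjZ hw (e ▸ (h1 i).1)).symm ▸ hw)
  refine ⟨h.z3, h.z1, fun e => ?_, fun i => h.exp _ (h1 i).1, fun i e => (h1 i).2 (e ▸ one_mem _),
    k z (mem_zpowers z), k _ (inv_mem (mem_zpowers z)), h2, fun g hg => ?_, ?_, fun i => h.nil (h1 i).1 (h1 i).2⟩
  · obtain ⟨g, e⟩ := isConj_iff.1 e
    exact h.zne (e.symm.trans (h.f1 (e ▸ inv_mem h.zP)))
  · obtain ⟨a, -, ha⟩ := H4.exists_conj_le_sylow_of_le P le_top (isPElt_iff_zpowers.1 hg) le_top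
    have m := ha g (mem_zpowers g)
    have c : IsConj (a * g * a⁻¹) g := (isConj_iff.2 ⟨a, rfl⟩).symm
    by_cases e : a * g * a⁻¹ ∈ zpowers z
    · rcases h.cases e with e | e | e <;> rw [e] at c
      exacts [.inl (isConj_one_right.1 c), .inr (.inl c), .inr (.inr (.inl c))]
    · exact .inr (.inr (.inr ((h3 _ m e).imp fun i e => e.trans c)))
  · have := P.card_eq_multiplicity
    rw [h.card, show 27 = 3 ^ 3 from rfl] at this
    exact (Nat.pow_right_injective (by norm_num) this).symm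

theorem le_c : (P : Subgroup G) ≤ centralizer {z} := fun y hy => mem_centralizer_singleton_iff.2 (h.zc y hy).symm

omit h in
theorem mem_zc {x : centralizer ({z} : Set G)} : x ∈ zpowers (E27.zc z) ↔ (x : G) ∈ zpowers z :=
  exists_congr fun _ => Subtype.ext_iff

theorem sub [Fintype (centralizer ({z} : Set G))] : Hy (P.subtype h.le_c) (E27.zc z) :=
  ⟨(card_subgroupOf h.le_c).trans h.card, fun x hx => Subtype.ext (h.exp x hx), h.zP,
    fun e => h.z1 (congrArg Subtype.val e), fun y hy => Subtype.ext (h.zc y hy),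
    fun x hx e => mem_zc.2 (h.cen x hx fun y hy => congrArg Subtype.val (e ⟨y, h.le_c hy⟩ hy)),
    fun x hx y hy => mem_zc.2 (h.com x hx y hy), fun g _ => Subtype.ext (mem_centralizer_singleton_iff.1 g.2)⟩

include he h8 in
theorem even (hM : IsPModular 3 M) (h2 : 2 ∣ e) : ∃ s, s * e = 8 ∧ (J0 M G).card = 6 ∧
    (bset (principalBlock M G)).card + 2 * s = 18 ∧ blockRank 3 (principalBlock M G) + s = 6 := by
  obtain ⟨ι, _, u, h1, h3, h4, h5⟩ := h.reps he h8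
  haveI := Fintype.ofFinite (centralizer ({z} : Set G))
  have N : 𝐍((P : Subgroup G)) ≤ centralizer {z} := fun n hn => mem_centralizer_singleton_iff.2 (h.nc n hn)
  have cj : ∀ {x y : centralizer ({z} : Set G)}, (∃ n ∈ 𝐍((P : Subgroup G)), n * x * n⁻¹ = y) → IsConj x y :=
    fun ⟨n, a, b⟩ => isConj_iff.2 ⟨⟨n, N a⟩, Subtype.ext b⟩
  obtain ⟨i0⟩ : Nonempty ι := Fintype.card_pos_iff.1 (Nat.pos_of_ne_zero fun e => by simp [e] at h5)
  refine ⟨_, h5, Ful.inv (z := z) (u := u) (hu := fun i => h.le_c (h1 i).1) ⟨⟨h.cls h1 h3 h4, fun i =>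
    let ⟨n, _, e⟩ := h.real he h8 h2 (h1 i).1 (h1 i).2; isConj_iff.2 ⟨n, e⟩⟩, ⟨h.sub.cls
      (fun i => ⟨(h1 i).1, mt mem_zc.1 (h1 i).2⟩) (fun i j e => h3 i j ((centralizer {z}).subtype.map_isConj e))
      fun x a b => (h4 x a (mt mem_zc.2 b)).imp fun i e => cj ?_, fun i => cj (h.real he h8 h2 (h1 i).1 (h1 i).2)⟩,
    fun g => Subtype.ext (mem_centralizer_singleton_iff.1 g.2).symm, fun i => cj ?_⟩ hM i0⟩
  · obtain ⟨g, e⟩ := isConj_iff.1 e
    exact e ▸ h.fus (h1 i).1 (e ▸ a)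
  · exact (h.cz (h1 i).1 (h1 i).2 (mem_zpowers z)).imp fun v e => ⟨le_normalizer e.1, e.2⟩

theorem one (hM : IsPModular 3 M) (he : ((P : Subgroup G) ⊔ 𝐂((P : Subgroup G))).relIndex 𝐍((P : Subgroup G)) = 1) :
    (bset (principalBlock M G)).card = 11 ∧ (J0 M G).card = 9 ∧ blockRank 3 (principalBlock M G) = 1 := by
  obtain ⟨ι, _, u, h1, h3, h4, h5⟩ := h.reps he (one_dvd _)
  have n : HasNormalPComplement 3 G := (H4.hasNormalPComplement_iff_controls_fusion P).2 fun x hx g hg => by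
    obtain ⟨n, a, b⟩ := h.fus hx hg
    obtain ⟨w, c, d⟩ := conjK (relIndex_eq_one.1 he a)
    exact ⟨w, c, (d x hx).symm.trans b⟩
  have k : ∀ w ∈ zpowers z, Nil w 3 := fun w hw => nil_of (H4.hasNormalPComplement_subgroup n _)
    (isSylowIn_of_le P fun y hy => mem_centralizer_singleton_iff.2
      (mul_inv_eq_iff_eq_mul.1 (fix hw (h.zc y hy).symm))) h.card
  exact (h.cls h1 h3 h4).nilp hM (k _ (one_mem _)) (k _ (mem_zpowers z)) (k _ (inv_mem (mem_zpowers z)))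
    (by simpa using h5)

end Hy

theorem exists_hy {P : Sylow 3 G} (hE : IsExtraspecial 3 (P : Subgroup G)) (h27 : Nat.card (P : Subgroup G) = 27)
    (hexp : ∀ x ∈ (P : Subgroup G), x ^ 3 = 1) (hNC : ∀ g ∈ 𝐍((P : Subgroup G)), ∀ z ∈ (P : Subgroup G),
      (∀ y ∈ (P : Subgroup G), z * y = y * z) → g * z = z * g) : ∃ z, Hy P z := by
  obtain ⟨⟨-, -, h1⟩, h2⟩ := hE
  obtain ⟨⟨z, hz⟩, z1⟩ := (ne_bot_iff_exists_ne_one (H := center (P : Subgroup G))).1 fun e => by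
    simp [e] at h2
  have z1' : z ≠ 1 := fun e => z1 (Subtype.ext e)
  have h3 : zpowers z = center (P : Subgroup G) := eq_of_le_of_card_ge (zpowers_le.2 hz) (by
    rw [h2, Nat.card_zpowers, orderOf_eq_prime (p := 3) (Subtype.ext (hexp z z.2)) z1'])
  have h4 : ∀ x ∈ center (P : Subgroup G), (x : G) ∈ zpowers (z : G) := fun x hx =>
    let ⟨k, e⟩ := h3 ▸ hx; ⟨k, congrArg Subtype.val e⟩
  have zc : ∀ y ∈ (P : Subgroup G), z * y = y * z := fun y hy =>
    congrArg Subtype.val (mem_center_iff.1 hz ⟨y, hy⟩).symm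
  exact ⟨z, h27, hexp, z.2, fun e => z1' (Subtype.ext e), zc,
    fun x hx e => h4 ⟨x, hx⟩ (mem_center_iff.2 fun y => Subtype.ext (e y y.2)),
    fun x hx y hy => h4 (⟨x, hx⟩ * ⟨y, hy⟩ * ⟨x, hx⟩⁻¹ * ⟨y, hy⟩⁻¹)
      (h1 ▸ commutator_mem_commutator (mem_top _) (mem_top _)), fun g hg => hNC g hg z z.2 zc⟩

end H86.E27
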