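import Cfsg.Agent.Lib.Blk86.Ex27M
import Cfsg.Agent.Lib.LocStruct.SylowIn
import Cfsg.Agent.Lib.Transfer.NormalComplement

/-! # Fusion in an extraspecial Sylow 3-subgroup of order 27 whose normaliser centralises the centre -/

set_option autoImplicit false
set_option linter.style.haveILetI false
set_option linter.unusedSectionVars false

namespace H86.E27

open Cfsg H69 H35 Subgroup

variable {G : Type*} [Group G] [Fintype G]

theorem relIndex_cent (W : Subgroup G) (x : G) :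
    (centralizer ({x} : Set G)).relIndex W = {y : G | ∃ w ∈ W, w * x * w⁻¹ = y}.ncard := by
  let _ : MulAction W G := MulAction.compHom G ((MulAut.conj (G := G)).comp W.subtype)
  have h1 : MulAction.stabilizer W x = (centralizer ({x} : Set G)).subgroupOf W := by
    ext w
    rw [MulAction.mem_stabilizer_iff, mem_subgroupOf, mem_centralizer_singleton_iff]
    exact mul_inv_eq_iff_eq_mul
  rw [relIndex, ← h1, MulAction.index_stabilizer]
  congr 1
  ext y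
  exact ⟨fun ⟨w, h⟩ => ⟨w, w.2, h⟩, fun ⟨w, hw, h⟩ => ⟨⟨w, hw⟩, h⟩⟩

theorem nil_of {x : G} {T : Subgroup G} {k : ℕ} (h : HasNormalPComplement 3 (centralizer ({x} : Set G)))
    (hT : IsSylowIn 3 T (centralizer {x})) (hc : Nat.card T = 3 ^ k) : Nil x k := by
  obtain ⟨N, hN, h1, j, h2⟩ := H4.hasNormalPComplement_iff_exists.1 h
  exact ⟨N, hN, h1, by rw [H34.index_eq_pow_factorization h1 h2, ← hT.card_eq_pow_factorization, hc]⟩

/-- the local hypotheses -/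
structure Hy (P : Sylow 3 G) (z : G) : Prop where
  card : Nat.card P = 27
  exp : ∀ x ∈ (P : Subgroup G), x ^ 3 = 1
  zP : z ∈ (P : Subgroup G)
  z1 : z ≠ 1
  zc : ∀ y ∈ (P : Subgroup G), z * y = y * z
  cen : ∀ x ∈ (P : Subgroup G), (∀ y ∈ (P : Subgroup G), y * x = x * y) → x ∈ zpowers z
  com : ∀ x ∈ (P : Subgroup G), ∀ y ∈ (P : Subgroup G), x * y * x⁻¹ * y⁻¹ ∈ zpowers z
  nc : ∀ g ∈ 𝐍((P : Subgroup G)), g * z = z * g

namespace Hy

variable {P : Sylow 3 G} {z : G} (h : Hy P z)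
include h

theorem z3 : z ^ 3 = 1 := h.exp z h.zP

theorem oz : orderOf z = 3 := orderOf_eq_prime h.z3 h.z1

theorem zle : zpowers z ≤ P := zpowers_le.2 h.zP

theorem zi : z⁻¹ = z * z := by rw [inv_eq_iff_mul_eq_one, ← pow_three, h.z3]

theorem zne : z⁻¹ ≠ z := fun e => h.z1 (by rw [h.zi] at e; simpa using e)

theorem cases {w : G} (hw : w ∈ zpowers z) : w = 1 ∨ w = z ∨ w = z⁻¹ := by
  classical
  obtain ⟨k, hk, rfl⟩ := Finset.mem_image.1 ((mem_zpowers_iff_mem_range_orderOf).1 hw)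
  rw [h.oz, Finset.mem_range] at hk
  interval_cases k <;> simp [h.zi, sq]

omit h in
theorem fix {w c : G} (hw : w ∈ zpowers z) (hc : c * z = z * c) : c * w * c⁻¹ = w := by
  obtain ⟨k, rfl⟩ := hw
  exact mul_inv_eq_iff_eq_mul.2 (Commute.zpow_right hc k)

theorem cz {y w : G} (hy : y ∈ (P : Subgroup G)) (hn : y ∉ zpowers z) (hw : w ∈ zpowers z) :
    ∃ v ∈ (P : Subgroup G), v * y * v⁻¹ = w * y := by
  obtain ⟨v, hv, h1⟩ : ∃ v ∈ (P : Subgroup G), v * y ≠ y * v := by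
    by_contra! e
    exact hn (h.cen y hy e)
  have h2 := h.com v hv y hy
  have h3 : v * v * y * (v * v)⁻¹ = v * y * v⁻¹ * y⁻¹ * (v * y * v⁻¹ * y⁻¹) * y := by
    nth_rewrite 1 [← fix h2 (h.zc v hv).symm]
    group
  have h4 : v * y * v⁻¹ = v * y * v⁻¹ * y⁻¹ * y := by group
  have h5 : z⁻¹ * z⁻¹ = z := by rw [← mul_inv_rev, ← h.zi, inv_inv]
  rcases h.cases h2 with e | e | e
  · exact absurd (by rw [← mul_inv_eq_iff_eq_mul, ← mul_inv_eq_one, e]) h1
  all_goals rw [e] at h3 h4; rcases h.cases hw with rfl | rfl | rfl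
  exacts [⟨1, one_mem _, by group⟩, ⟨v, hv, h4⟩, ⟨_, mul_mem hv hv, h3.trans (by rw [h.zi])⟩,
    ⟨1, one_mem _, by group⟩, ⟨_, mul_mem hv hv, h3.trans (by rw [h5])⟩, ⟨v, hv, h4⟩]

theorem pz (g : G) : IsPGroup 3 (zpowers (g * z * g⁻¹)) := by
  rw [← cj_zpowers]; exact isPGroup_cj (P.2.to_le h.zle) g

theorem f0 {g : G} (hg : g * z * g⁻¹ ∈ zpowers z) : g * z * g⁻¹ = z := by
  have k : ∀ w ∈ zpowers z, w ∈ 𝐂((P : Subgroup G)) := fun w hw y hy =>
    mul_inv_eq_iff_eq_mul.1 (fix hw (h.zc y hy).symm)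
  obtain ⟨n, h1, h2⟩ := H4.exists_normalizer_conj_eq_of_centralizer P (A := {z}) (g := g)
    (Set.singleton_subset_iff.2 (k z (mem_zpowers z))) (by rintro _ rfl; exact k _ hg)
  rw [← h2 z rfl, h.nc n h1, mul_inv_cancel_right]

/-- `z` is weakly closed -/
theorem f1 {g : G} (hg : g * z * g⁻¹ ∈ (P : Subgroup G)) : g * z * g⁻¹ = z := by
  refine h.f0 (by_contra fun hn => ?_)
  obtain ⟨k, hk, h1⟩ := H4.exists_conj_le_sylow_of_le P (K := centralizer {z})
    (fun y hy => mem_centralizer_singleton_iff.2 (h.zc y hy).symm) (h.pz g⁻¹) (zpowers_le.2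
      (mem_centralizer_singleton_iff.2 (by
        rw [← mul_left_inj g⁻¹, ← mul_right_inj g]
        have := h.zc _ hg
        simpa only [mul_assoc, inv_inv, mul_inv_cancel_left, mul_inv_cancel, mul_one] using this)))
  have h2 := h1 _ (mem_zpowers _)
  have h3 : k * z * k⁻¹ = z := mul_inv_eq_iff_eq_mul.2 (mem_centralizer_singleton_iff.1 hk)
  have h4 : k * (g⁻¹ * z * g⁻¹⁻¹) * k⁻¹ ∉ zpowers z := fun e => hn (by
    have : k * g⁻¹ * z * (k * g⁻¹)⁻¹ = z := h.f0 (by convert e using 1; group)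
    rw [show g * z * g⁻¹ = (k * g⁻¹)⁻¹ * (k * z * k⁻¹) * (k * g⁻¹) by group, h3.trans this.symm]
    simp [mul_assoc])
  obtain ⟨v, -, e1⟩ := h.cz hg hn (inv_mem (mem_zpowers z))
  obtain ⟨w, -, e2⟩ := h.cz (inv_mem h2) (mt inv_mem_iff.1 h4) (mem_zpowers z)
  have h5 : k * g⁻¹ * (z⁻¹ * (g * z * g⁻¹)) * (k * g⁻¹)⁻¹ = z * (k * (g⁻¹ * z * g⁻¹⁻¹) * k⁻¹)⁻¹ := by
    rw [(show Commute z _ from h.zc _ (inv_mem h2)).eq]
    nth_rewrite 4 [← h3]
    group
  have h6 : (k * g⁻¹)⁻¹ * w⁻¹ * (k * g⁻¹) * v * g * z * ((k * g⁻¹)⁻¹ * w⁻¹ * (k * g⁻¹) * v * g)⁻¹ = z⁻¹ := by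
    rw [← e1, ← e2] at h5
    calc _ = (k * g⁻¹)⁻¹ * w⁻¹ * (k * g⁻¹ * (v * (g * z * g⁻¹) * v⁻¹) * (k * g⁻¹)⁻¹) * w * (k * g⁻¹) := by group
      _ = _ := by rw [h5]; group
  exact h.zne (h6.symm.trans (h.f0 (h6 ▸ inv_mem (mem_zpowers z))))

theorem conjZ {x g : G} (hx : x ∈ zpowers z) (hg : g * x * g⁻¹ ∈ (P : Subgroup G)) : g * x * g⁻¹ = x := by
  rcases h.cases hx with rfl | rfl | rfl
  · simp
  · exact h.f1 hg
  · exact fix hx (mul_inv_eq_iff_eq_mul.1 (h.f1 (by convert inv_mem hg using 1; group)))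

theorem notZ {x g : G} (hx : x ∈ (P : Subgroup G)) (hn : x ∉ zpowers z) : g * x * g⁻¹ ∉ zpowers z := fun e => by
  have := h.conjZ e (g := g⁻¹) (by convert hx using 1; group)
  exact hn (by convert this ▸ e using 1; group)

theorem syl {u : G} (hu : u ∈ (P : Subgroup G)) (hn : u ∉ zpowers z) :
    IsSylowIn 3 (zpowers u ⊔ zpowers z) (centralizer {u}) ∧ Nat.card (zpowers u ⊔ zpowers z : Subgroup G) = 9 := by
  have hA : zpowers u ⊔ zpowers z ≤ P := sup_le (zpowers_le.2 hu) h.zle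
  obtain ⟨T, hT, h1⟩ := exists_isSylowIn_le (P.2.to_le hA) (L := centralizer {u})
    (sup_le (zpowers_le.2 (mem_centralizer_singleton_iff.2 rfl))
      (zpowers_le.2 (mem_centralizer_singleton_iff.2 (h.zc u hu))))
  have h2 : 3 < Nat.card (zpowers u ⊔ zpowers z : Subgroup G) := by
    rw [← h.oz, ← Nat.card_zpowers]
    exact card_lt_of_lt (lt_of_le_of_ne le_sup_right fun e => hn (e ▸ mem_sup_left (mem_zpowers u)))
  have h3 : Nat.card T ≠ 27 := fun e => by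
    obtain ⟨g, -, hg⟩ := ((isSylowIn_top P).of_card_le hT.isP le_top (by rw [e, h.card])).conj (isSylowIn_top P)
    refine h.notZ hu hn (g := g) (h.cen _ (hg ▸ cj_mem g (h1 (mem_sup_left (mem_zpowers u)))) fun y hy => ?_)
    obtain ⟨a, ha, rfl⟩ := mem_cj'.1 (hg ▸ hy)
    have := mem_centralizer_singleton_iff.1 (hT.le ha)
    rw [show g * a * g⁻¹ * (g * u * g⁻¹) = g * (a * u) * g⁻¹ by group, this]; group
  have h4 := (isSylowIn_top P).card_dvd hT.isP le_top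
  have h5 := card_dvd_of_le hA
  have h6 := card_le_of_le h1
  rw [h.card, show 27 = 3 ^ 3 from rfl, Nat.dvd_prime_pow Nat.prime_three] at h4 h5
  obtain ⟨i, hi, e1⟩ := h4
  obtain ⟨j, hj, e2⟩ := h5
  have : Nat.card T ≤ 9 ∧ Nat.card (zpowers u ⊔ zpowers z : Subgroup G) = 9 := by
    interval_cases i <;> interval_cases j <;> omega
  exact ⟨hT.of_card_le (P.2.to_le hA) (h1.trans hT.le) (by omega), this.2⟩

theorem cenA {u n a : G} (h1 : n * u = u * n) (h2 : n * z = z * n) (ha : a ∈ zpowers u ⊔ zpowers z) :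
    a * n = n * a := by
  have : n ∈ 𝐂(zpowers u ⊔ zpowers z) := by
    rw [centralizer_sup, centralizer_zpowers, centralizer_zpowers]
    exact ⟨mem_centralizer_singleton_iff.2 h1, mem_centralizer_singleton_iff.2 h2⟩
  exact this a ha

theorem nil {u : G} (hu : u ∈ (P : Subgroup G)) (hn : u ∉ zpowers z) : Nil u 2 := by
  obtain ⟨h1, h2⟩ := h.syl hu hn
  obtain ⟨Q, hQ⟩ := h1.exists_sylow_subgroupOf
  refine nil_of (H4.hasNormalPComplement_of_normalizer_le_centralizer Q fun n h3 a ha => Subtype.ext ?_) h1 h2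
  have m : z ∈ centralizer ({u} : Set G) := mem_centralizer_singleton_iff.2 (h.zc u hu)
  have h4 := (mem_normalizer_iff.1 h3 ⟨z, m⟩).1 (hQ ▸ mem_sup_right (mem_zpowers z))
  change _ ∈ (Q : Subgroup (centralizer ({u} : Set G))) at ha h4
  rw [hQ] at ha h4
  exact h.cenA (mem_centralizer_singleton_iff.1 n.2)
    (mul_inv_eq_iff_eq_mul.1 (h.f1 (sup_le (zpowers_le.2 hu) h.zle h4))) ha

/-- the normaliser of `P` controls fusion -/
theorem fus {x g : G} (hx : x ∈ (P : Subgroup G)) (hy : g * x * g⁻¹ ∈ (P : Subgroup G)) :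
    ∃ n ∈ 𝐍((P : Subgroup G)), n * x * n⁻¹ = g * x * g⁻¹ := by
  by_cases hn : x ∈ zpowers z
  · exact ⟨1, one_mem _, by rw [h.conjZ hn hy]; group⟩
  have hn' := h.notZ hx hn (g := g)
  obtain ⟨c, hc, h1⟩ := (h.syl hy hn').1.exists_cj_le (h.pz g) (zpowers_le.2 (mem_centralizer_singleton_iff.2 (by
    rw [show g * z * g⁻¹ * (g * x * g⁻¹) = g * (z * x) * g⁻¹ by group, h.zc x hx]; group)))
  have h2 : c * g * z = z * (c * g) := mul_inv_eq_iff_eq_mul.1 (h.f1 (by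
    convert sup_le (zpowers_le.2 hy) h.zle (h1 (cj_mem c (mem_zpowers _))) using 1; group))
  have h3 : c * g * x * (c * g)⁻¹ = g * x * g⁻¹ := by
    rw [show c * g * x * (c * g)⁻¹ = c * (g * x * g⁻¹) * c⁻¹ by group, mem_centralizer_singleton_iff.1 hc,
      mul_inv_cancel_right]
  generalize g * x * g⁻¹ = y at *
  generalize c * g = k at *
  let L : Subgroup G :=
    { carrier := {c | c * z = z * c ∧ c * y * c⁻¹ * y⁻¹ ∈ zpowers z}
      one_mem' := ⟨by simp, by simp⟩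
      mul_mem' := fun {a b} ha hb => ⟨by rw [mul_assoc, hb.1, ← mul_assoc, ha.1, mul_assoc], by
        convert mul_mem (fix hb.2 ha.1 ▸ hb.2 : a * _ * a⁻¹ ∈ _) ha.2 using 1; group⟩
      inv_mem' := fun {a} ha => by
        have e : a⁻¹ * z = z * a⁻¹ := (show Commute a z from ha.1).inv_left
        exact ⟨e, by convert (fix (inv_mem ha.2) e ▸ inv_mem ha.2 : a⁻¹ * _ * a⁻¹⁻¹ ∈ _) using 1; group⟩ }
  obtain ⟨l, hl, h4⟩ := H4.exists_mem_normalizer_sylow_of_le_normalizer P (K := L) (g := k)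
    (fun v hv => ⟨(h.zc v hv).symm, h.com v hv y hy⟩) fun v hv => by
      obtain ⟨a, ha, rfl⟩ := mem_cj'.1 (coe_smul_sylow P k ▸ hv)
      have e := h.com a ha x hx
      exact ⟨((show Commute k z from h2).mul_left (h.zc a ha).symm).mul_left (show Commute k z from h2).inv_left, by
        rw [← h3]; convert (fix e h2 ▸ e : k * _ * k⁻¹ ∈ _) using 1; group⟩
  obtain ⟨v, hv, h5⟩ := h.cz hy hn' hl.2
  refine ⟨v⁻¹ * (l * k), mul_mem (le_normalizer (inv_mem hv)) h4, ?_⟩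
  calc _ = v⁻¹ * (l * (k * x * k⁻¹) * l⁻¹ * y⁻¹ * y) * v := by group
    _ = y := by rw [h3, ← h5]; group

theorem stab {u n : G} (hu : u ∈ (P : Subgroup G)) (hn : u ∉ zpowers z) (h1 : n ∈ 𝐍((P : Subgroup G)))
    (h2 : n * u = u * n) : n ^ 3 ∈ 𝐂((P : Subgroup G)) := fun v hv => by
  have m : v⁻¹ * (n * v * n⁻¹) ∈ (P : Subgroup G) := mul_mem (inv_mem hv) (conj_mem_of_mem_normalizer h1 hv)
  have e := fix (h.com v hv u hu) (h.nc n h1)
  have h3 : v⁻¹ * (n * v * n⁻¹) ∈ centralizer ({u} : Set G) := mem_centralizer_singleton_iff.2 (by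
    have e1 : n * u * n⁻¹ = u := mul_inv_eq_iff_eq_mul.2 h2
    refine mul_inv_eq_iff_eq_mul.1 ?_
    calc _ = v⁻¹ * (n * (v * (n⁻¹ * (n * u * n⁻¹) * n) * v⁻¹ * u⁻¹) * n⁻¹ * (n * u * n⁻¹)) * v := by
          rw [e1]; nth_rewrite 4 [← e1]; group
      _ = _ := by rw [show n⁻¹ * (n * u * n⁻¹) * n = u by group, e, e1]; group)
  have hs := (h.syl hu hn).1
  have h4 : v⁻¹ * (n * v * n⁻¹) ∈ zpowers u ⊔ zpowers z := by
    rw [← hs.max (P ⊓ centralizer {u}) (le_inf (sup_le (zpowers_le.2 hu) h.zle) hs.le) inf_le_right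
      (P.2.to_le inf_le_left)]
    exact ⟨m, h3⟩
  have h5 := h.cenA h2 (h.nc n h1) h4
  have h6 := h.exp _ m
  generalize ha : v⁻¹ * (n * v * n⁻¹) = a at h5 h6
  have h7 : SemiconjBy v (a * n) n := by rw [← ha, SemiconjBy]; group
  calc v * n ^ 3 = v * a ^ 3 * n ^ 3 := by rw [h6, mul_one]
    _ = v * (a * n) ^ 3 := by rw [(show Commute a n from h5).mul_pow, mul_assoc]
    _ = n ^ 3 * v := h7.pow_right 3

end Hy

end H86.E27
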