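import Cfsg.Agent.Lib.Blk86.Ex27S

/-! # Principal 3-blocks with extraspecial defect group of order 27: the central case -/

set_option autoImplicit false
set_option linter.style.haveILetI false
set_option linter.unusedSectionVars false

namespace H86.E27

open Cfsg Finset H84 H35 Subgroup
open scoped ComplexConjugate

attribute [local irreducible] H33.instFieldF

variable {G : Type*} [Group G] [Fintype G] {M : Ideal AlgInt} [M.IsMaximal]

theorem minval_B0 : minval 3 (principalBlock M G) = 0 := by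
  have := minval_le (p := 3) (irrOne_mem_principal (M := M) (G := G))
  rw [deg_irrOne, Nat.factorization_one, Finsupp.zero_apply] at this
  omega

theorem contr_B0 (χ ψ : G → ℂ) : contr 3 (principalBlock M G) χ ψ = tl 3 χ ψ := by
  rw [contr, minval_B0]; simp

theorem defect_B0 : blockDefect 3 (principalBlock M G) = (Nat.card G).factorization 3 := by
  rw [← minval_add_defect (block_nonempty (M := M) isPBlock_principal), minval_B0, zero_add]

theorem tl_ne (hM : IsPModular 3 M) {χ ψ : IrrCharacter G} (hχ : χ ∈ principalBlock M G) (hψ : ψ ∈ J0 M G) :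
    tl 3 (χ : G → ℂ) ψ ≠ 0 := by
  rw [← contr_B0 (M := M)]
  exact contr_ne_zero_of_height hM isPBlock_principal hχ (mem_J0.1 hψ).1 ((height_iff ψ).2 (mem_J0.1 hψ).2)

theorem odd9 {κ : Type*} {J : Finset κ} {d w : κ → ℤ} (h : J.card = 9) (h1 : ∀ x ∈ J, d x ≠ 0)
    (h2 : ∀ x ∈ J, w x ≠ 0) (h3 : ∑ x ∈ J, d x ^ 2 = 9) (h4 : ∑ x ∈ J, w x ^ 2 = 9) :
    ∑ x ∈ J, w x * d x ≠ 0 := fun h5 => by
  have k : ∀ d : κ → ℤ, (∀ x ∈ J, d x ≠ 0) → ∑ x ∈ J, d x ^ 2 = 9 → ∀ x ∈ J, d x = 1 ∨ d x = -1 :=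
    fun d a b x hx => sq_eq_one_iff.1 (sub_eq_zero.1 <|
      (sum_eq_zero_iff_of_nonneg (f := fun x => d x ^ 2 - 1) fun y hy => by
      have := sq_pos_of_ne_zero (a y hy); omega).1 (by rw [sum_sub_distrib, b, sum_const, h]; simp) x hx)
  have : (2 : ℤ) ∣ ∑ x ∈ J, (w x * d x - 1) := dvd_sum fun x hx => by
    rcases k d h1 h3 x hx with e | e <;> rcases k w h2 h4 x hx with e' | e' <;> simp [e, e']
  rw [sum_sub_distrib, h5, sum_const, h] at this
  norm_num at this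

/-- the scalar by which `z` acts -/
noncomputable def gr (z : G) (φ : IrrCharacter G) : ℂ := (φ : G → ℂ) z / (φ : G → ℂ) 1

open Classical in
/-- the members of the principal block with a given scalar -/
noncomputable def II (M : Ideal AlgInt) (z : G) (k : ℂ) : Finset (IrrCharacter G) :=
  (bset (principalBlock M G)).filter fun φ => gr z φ = k

theorem mem_II {z : G} {k : ℂ} {φ : IrrCharacter G} : φ ∈ II M z k ↔ φ ∈ principalBlock M G ∧ gr z φ = k := by
  rw [II, mem_filter, mem_bset]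

theorem cut_cen {z : G} (hz : ∀ g, Commute z g) (h3 : IsPElt 3 z) {f θ : G → ℂ} {a b : ℂ}
    (hf : ∀ g, f (z * g) = a * f g) (hθ : ∀ g, θ (z * g) = b * θ g) :
    classInner (cut z f) θ = a * conj b * classInner (pRegularPart 3 f) θ := by
  rw [← H6.classInner_comp_equiv (Equiv.mulLeft z), mul_assoc, ← H6.classInner_smul_right,
    ← H6.classInner_smul_left]
  congr 1 <;> funext g
  · have : IsConj z (pPart 3 (z * g)) ↔ ¬ 3 ∣ orderOf g := by
      rw [pPart_pElt_mul h3 (hz g), ← pPart_eq_one_iff, isConj_iff]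
      simp only [← (hz _).eq, mul_inv_cancel_right, left_eq_mul, exists_const]
    rw [Equiv.coe_mulLeft, cut, Pi.smul_apply, reg_apply, hf]
    split_ifs <;> first | tauto | simp
  · exact hθ g

/-- the case of a central `z` -/
structure Cn (z : G) {ι : Type*} (u : ι → G) : Prop extends Dat z u where
  cen : ∀ g, Commute z g
  fu : ∀ i, IsConj (u i) (z * u i)

namespace Cn

variable {z : G} {ι : Type*} [Fintype ι] {u : ι → G} (c : Cn z u)
include c

theorem zi3 : z⁻¹ ^ 3 = 1 := by rw [inv_pow, c.z3]; simp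

theorem gr_mul (φ : IrrCharacter G) (g : G) : (φ : G → ℂ) (z * g) = gr z φ * (φ : G → ℂ) g := by
  rw [irr_mul_of_sup_Cen (sup_Cen_of_le_center le_rfl) φ (mem_center_iff.2 fun g => (c.cen g).eq.symm)
    (mem_centralizer_iff.mpr fun z hz => (mem_center_iff.mp hz g).symm), gr]
  ring

theorem gr_cube (φ : IrrCharacter G) : gr z φ ^ 3 = 1 := by
  have : (φ : G → ℂ) (z * (z * (z * 1))) = (φ : G → ℂ) 1 := by
    rw [mul_one, ← pow_three, c.z3]
  rw [c.gr_mul, c.gr_mul, c.gr_mul] at this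
  exact mul_right_cancel₀ (irr_one_ne_zero φ) (by linear_combination this)

theorem gr_conj (φ : IrrCharacter G) : conj (gr z φ) = gr z φ ^ 2 := by
  rcases cube_cases (c.gr_cube φ) with e | e | e <;> rw [e]
  · simp
  · rw [conj_om, om_sq]
  · rw [← conj_om, Complex.conj_conj, conj_om]; linear_combination -om_sq

theorem gr_inv (φ : IrrCharacter G) (g : G) : (φ : G → ℂ) (z⁻¹ * g) = gr z φ ^ 2 * (φ : G → ℂ) g := by
  have := c.gr_mul φ (z⁻¹ * g)
  rw [mul_inv_cancel_left] at this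
  linear_combination -gr z φ ^ 2 * this - (φ : G → ℂ) (z⁻¹ * g) * c.gr_cube φ

theorem dd_zero {φ : IrrCharacter G} (h : gr z φ ≠ 1) (i : ι) : dd (u i) φ = 0 := by
  have := H6.classFun_of_isConj (irr_class φ) (c.fu i)
  rw [c.gr_mul, c.val] at this
  exact_mod_cast (mul_eq_zero.1 (by linear_combination this : (1 - gr z φ) * (dd (u i) φ : ℂ) = 0)).resolve_left
    (sub_ne_zero.2 h.symm)

theorem tl_same [DecidableEq (IrrCharacter G)] (hM : IsPModular 3 M) {φ ψ : IrrCharacter G}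
    (hφ : φ ∈ principalBlock M G) (hψ : ψ ∈ principalBlock M G) (h : gr z φ = gr z ψ) :
    tl 3 (φ : G → ℂ) ψ = (if φ = ψ then 9 else 0) - ∑ i, dd (u i) φ * dd (u i) ψ := by
  have h1 := c.tl_eq hM hφ hψ
  have h2 := c.cast_tl φ ψ
  have h3 := c.gr_cube ψ
  rw [cut_cen c.cen (pelt c.z3) (c.gr_mul φ) (c.gr_mul ψ), cut_cen (fun g => (c.cen g).inv_left)
    (pelt c.zi3) (c.gr_inv φ) (c.gr_inv ψ), map_pow, c.gr_conj, h] at h1
  generalize ∑ i, dd (u i) φ * dd (u i) ψ = S at *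
  refine Int.cast_injective (α := ℂ) ?_
  split_ifs at h1 ⊢ <;> push_cast <;>
    linear_combination (1 / 3) * h1 + (2 / 3) * h2 -
      9 * (2 + gr z ψ ^ 3) * classInner (pRegularPart 3 (φ : G → ℂ)) ψ * h3

theorem gr_one : gr z (irrOne G) = 1 := by simp [gr, irrOne_coe]

theorem II_one (hM : IsPModular 3 M) (i0 : ι) : II M z 1 = J0 M G := by
  classical
  ext φ
  rw [mem_II, mem_J0]
  refine and_congr_right fun h => ⟨fun e e' => tl_ne hM h one_mem_J0 ?_, fun e => by_contra fun e' =>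
    c.nd i0 (mem_J0.2 ⟨h, e⟩) (by rw [c.dd_zero e']; simp)⟩
  rw [c.tl_same hM h irrOne_mem_principal (e.trans c.gr_one.symm), if_neg fun e => by
    rw [e, deg_irrOne] at e'; norm_num at e']
  simp [c.pos hM _ h e']

theorem star (hM : IsPModular 3 M) {k : ℂ} (hk : k ^ 3 = 1) {g : G → ℂ}
    (hg : g ∈ regSpan 3 (principalBlock M G)) (θ : G → ℂ) :
    classInner g θ = 3 * ∑ φ ∈ II M z k, classInner g φ * classInner (pRegularPart 3 (φ : G → ℂ)) θ := by
  classical
  have h1 := blockPart_eq_self_of_mem hM isPBlock_principal hg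
  have h2 := reg_eq_self_of_mem hg
  have h0 : ∀ y : G, y ^ 3 = 1 → y ≠ 1 → (∀ g, Commute y g) → ∀ s, ¬ 3 ∣ orderOf s → g (y * s) = 0 :=
    fun y a b e s hs => by
      rw [← h2, reg_of_sing _ ((pPart_ne_one_iff 3).1 (by rwa [pPart_mul_eq (pelt a) hs (e s)]))]
  have e : g = (3 : ℂ) • ∑ φ ∈ II M z k, classInner g φ • pRegularPart 3 (φ : G → ℂ) := by
    funext s
    rw [Pi.smul_apply, Finset.sum_apply]
    by_cases hs : 3 ∣ orderOf s
    · conv_lhs => rw [← h2]
      simp [reg_of_sing _ hs]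
    have a1 := h0 z c.z3 c.z1 c.cen s hs
    have a2 := h0 z⁻¹ c.zi3 (inv_ne_one.2 c.z1) (fun g => (c.cen g).inv_left) s hs
    have a3 : g s = g s + k ^ 2 * g (z * s) + k * g (z⁻¹ * s) := by rw [a1, a2]; ring
    rw [a3, II, sum_filter, smul_eq_mul, mul_sum]
    conv_lhs => rw [← h1]
    simp only [blockPart_apply, c.gr_mul, c.gr_inv, mul_sum, ← sum_add_distrib, Pi.smul_apply,
      reg_of_reg _ hs, smul_eq_mul]
    refine sum_congr rfl fun φ _ => ?_
    have := three_of (c.gr_cube φ) hk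
    split_ifs at this ⊢ <;> linear_combination classInner g φ * (φ : G → ℂ) s * this
  conv_lhs => rw [e]
  simp only [H6.classInner_smul_left, H6.classInner_sum_left]

theorem star_tl (hM : IsPModular 3 M) {k : ℂ} (hk : k ^ 3 = 1) {ψ : IrrCharacter G}
    (hψ : ψ ∈ principalBlock M G) :
    ∑ φ ∈ II M z k, tl 3 (ψ : G → ℂ) φ ^ 2 = 9 * tl 3 (ψ : G → ℂ) ψ := by
  refine Int.cast_injective (α := ℂ) ?_
  push_cast
  rw [c.cast_tl, c.star hM hk (reg_mem_regSpan hψ), ← mul_assoc, ← mul_assoc, mul_sum]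
  refine sum_congr rfl fun φ _ => ?_
  rw [sq]
  nth_rewrite 2 [tl_comm (irr_gen ψ) (irr_gen φ)]
  rw [c.cast_tl, c.cast_tl]
  ring

theorem tl_I [DecidableEq (IrrCharacter G)] (hM : IsPModular 3 M) {φ ψ : IrrCharacter G} (hφ : φ ∈ II M z om)
    (hψ : ψ ∈ II M z om) : tl 3 (φ : G → ℂ) ψ = if φ = ψ then 9 else 0 := by
  obtain ⟨h1, h2⟩ := mem_II.1 hφ
  rw [c.tl_same hM h1 (mem_II.1 hψ).1 (h2.trans (mem_II.1 hψ).2.symm)]
  simp [c.dd_zero (h2 ▸ om_ne_one)]

theorem card_I (hM : IsPModular 3 M) (i0 : ι) : (II M z om).card + Fintype.card ι = (J0 M G).card := by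
  classical
  have h1 : ∑ ψ ∈ II M z om, ∑ φ ∈ J0 M G, tl 3 (ψ : G → ℂ) φ ^ 2 = 81 * (II M z om).card := by
    rw [sum_congr rfl fun ψ hψ => by
      rw [← c.II_one hM i0, c.star_tl hM (one_pow 3) (mem_II.1 hψ).1, c.tl_I hM hψ hψ, if_pos rfl]]
    simp [mul_comm]
  have h2 : ∀ i, ∑ φ ∈ J0 M G, dd (u i) φ * dd (u i) φ = 9 := fun i => by
    simpa using (c.sumJ hM i (dd (u i))).trans (c.col hM i i)
  rw [sum_comm, sum_congr rfl fun φ hφ => by
    rw [sum_congr rfl fun ψ _ => by rw [tl_comm (irr_gen ψ) (irr_gen φ)], c.star_tl hM om_cube (mem_J0.1 hφ).1,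
      c.tl_same hM (mem_J0.1 hφ).1 (mem_J0.1 hφ).1 rfl, if_pos rfl], ← mul_sum, sum_sub_distrib, sum_comm,
    sum_congr rfl fun i _ => h2 i] at h1
  simp only [sum_const, card_univ, nsmul_eq_mul] at h1
  omega

theorem dvd_I (hM : IsPModular 3 M) (i0 : ι) {ψ : IrrCharacter G} (hψ : ψ ∈ II M z om) :
    3 ∣ charDegree (ψ : G → ℂ) := by_contra fun h =>
  om_ne_one ((mem_II.1 hψ).2.symm.trans (mem_II.1 (c.II_one hM i0 ▸ mem_J0.2 ⟨(mem_II.1 hψ).1, h⟩)).2)

theorem dvd_tl (hM : IsPModular 3 M) (i0 : ι) {ψ : IrrCharacter G} (hψ : ψ ∈ II M z om) (φ : IrrCharacter G) :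
    (3 : ℤ) ∣ tl 3 (ψ : G → ℂ) φ :=
  (dvd_pow_self 3 (Nat.prime_three.factorization_pos_of_dvd (deg_ne_zero ψ) (c.dvd_I hM i0 hψ)).ne').trans
    (pow_dvd_tl ψ (irr_gen φ))

theorem six (hM : IsPModular 3 M) (i0 : ι) : (II M z om).card + Fintype.card ι = 6 := by
  classical
  rw [c.card_I hM i0]
  refine (c.k0 hM i0).resolve_right fun h => ?_
  obtain ⟨ψ, hψ⟩ : (II M z om).Nonempty := nonempty_iff_ne_empty.2 fun e => by
    have := c.star_tl hM om_cube irrOne_mem_principal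
    rw [e, sum_empty] at this
    exact tl_ne hM (irrOne_mem_principal (G := G)) one_mem_J0 (by omega)
  choose w hw using c.dvd_tl hM i0 hψ
  have m := (mem_II.1 hψ).1
  refine odd9 (d := dd (u i0)) (w := w) h (fun φ hφ e => c.nd i0 hφ (by simp [e]))
    (fun φ hφ e => tl_ne hM m hφ (by rw [hw, e, mul_zero])) ?_ ?_ ?_
  · simpa [sq] using (c.sumJ hM i0 (dd (u i0))).trans (c.col hM i0 i0)
  · have := c.star_tl hM (one_pow 3) m
    rw [c.II_one hM i0, c.tl_I hM hψ hψ, if_pos rfl] at this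
    simp only [hw, mul_pow, ← mul_sum] at this
    omega
  · have h1 := congrFun (reg_eq_sum_bset hM isPBlock_principal m) (u i0)
    rw [reg_of_sing _ ((pPart_ne_one_iff 3).1 (by rw [pPart_eq_self (pelt (c.u3 i0))]; exact c.u1 i0)),
      Finset.sum_apply] at h1
    have h2 := c.sumJ hM i0 w
    simp only [Int.cast_id] at h2
    rw [sum_congr rfl fun _ _ => mul_comm _ _, h2]
    refine Int.cast_injective (α := ℂ) ?_
    push_cast
    rw [← mul_zero (9 : ℂ), h1, mul_sum]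
    refine sum_congr rfl fun φ _ => ?_
    have := c.cast_tl ψ φ
    rw [hw] at this
    push_cast at this
    rw [Pi.smul_apply, smul_eq_mul, c.val]
    linear_combination (dd (u i0) φ / 3 : ℂ) * this

theorem eps (hM : IsPModular 3 M) (i0 : ι) {ψ : IrrCharacter G} (hψ : ψ ∈ II M z om) : ∃ ε : ℤ, ε ^ 2 = 1 ∧
    ∀ φ ∈ principalBlock M G, ∃ w : ℤ, tl 3 (ψ : G → ℂ) φ = 3 * (ε * dd (u i0) φ + 3 * w) := by
  have m := (mem_II.1 hψ).1
  obtain ⟨n, hn⟩ := c.dvd_I hM i0 hψ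
  have h1 := height_add_two_le hM isPBlock_principal m (mt (height_iff ψ).1 (not_not.2 ⟨n, hn⟩))
  have n0 : n ≠ 0 := fun e => deg_ne_zero ψ (by rw [hn, e])
  rw [defect_B0, c.card, height_eq, hn, Nat.factorization_mul (by norm_num) n0, Finsupp.add_apply,
    Nat.prime_three.factorization_self] at h1
  have h2 : ¬ 3 ∣ n := fun e => by have := Nat.prime_three.factorization_pos_of_dvd n0 e; omega
  have h3 := (not_dvd_tl_iff_height hM isPBlock_principal (irrOne_mem_principal (G := G))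
    irrOne_mem_principal).2 ((height_iff _).2 (mem_J0.1 (one_mem_J0 (M := M))).2)
  rw [deg_irrOne, Nat.factorization_one, Finsupp.zero_apply, zero_add, pow_one, Nat.cast_ofNat] at h3
  have h4 : ¬ (3 : ℤ) ∣ n * tl 3 (irrOne G : G → ℂ) (irrOne G) := fun e =>
    (Int.prime_three.dvd_or_dvd e).elim (by omega) h3
  obtain ⟨ε, e1, e2⟩ : ∃ ε : ℤ, ε ^ 2 = 1 ∧ 3 ∣ n * tl 3 (irrOne G : G → ℂ) (irrOne G) - ε := by
    by_cases e : 3 ∣ n * tl 3 (irrOne G : G → ℂ) (irrOne G) - 1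
    exacts [⟨1, by norm_num, e⟩, ⟨-1, by norm_num, by omega⟩]
  refine ⟨ε, e1, fun φ hφ => ?_⟩
  obtain ⟨w, hw⟩ := c.dvd_tl hM i0 hψ φ
  obtain ⟨a, ha⟩ := tl_cong hM hφ m hn hw
  obtain ⟨b, hb⟩ := c.cong i0 φ
  obtain ⟨d, hd⟩ := e2
  exact ⟨a + d * charDegree (φ : G → ℂ) + ε * b, by
    linear_combination hw + 3 * ha + 3 * (charDegree (φ : G → ℂ) : ℤ) * hd + 3 * ε * hb⟩

end Cn

end H86.E27
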