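import Cfsg.Agent.Lib.Blk86.Ex27H

/-! # Principal 3-blocks with extraspecial defect group of order 27: the invariants -/

set_option autoImplicit false
set_option linter.style.haveILetI false
set_option linter.unusedSectionVars false

namespace H86.E27

open Cfsg Finset H84 H35 Subgroup
open scoped ComplexConjugate

attribute [local irreducible] H33.instFieldF

variable {G : Type*} [Group G] [Fintype G] {M : Ideal AlgInt} [M.IsMaximal]

theorem zw_sum {κ : Type*} (s : Finset κ) (f : κ → ℂ) (h : ∀ x ∈ s, ∃ a b : ℤ, f x = a + b * om) :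
    ∃ a b : ℤ, ∑ x ∈ s, f x = a + b * om := by
  choose! a b h using h
  exact ⟨∑ x ∈ s, a x, ∑ x ∈ s, b x, by rw [sum_congr rfl h, sum_add_distrib, ← sum_mul]; push_cast; rfl⟩

theorem tl_pos (hM : IsPModular 3 M) {χ : IrrCharacter G} (hχ : χ ∈ principalBlock M G) :
    0 < tl 3 (χ : G → ℂ) χ := contr_B0 (M := M) (χ : G → ℂ) χ ▸ contr_self_pos hM isPBlock_principal hχ

/-- `z` as an element of its centraliser -/
def zc (z : G) : centralizer ({z} : Set G) := ⟨z, mem_centralizer_singleton_iff.2 rfl⟩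

variable {z : G} [Fintype (centralizer ({z} : Set G))]

/-- the scaled generalized decomposition numbers on the section of `z` -/
noncomputable def YY (z : G) [Fintype (centralizer ({z} : Set G))] (χ : IrrCharacter G)
    (ψ : IrrCharacter (centralizer ({z} : Set G))) : ℂ :=
  9 * classInner (pRegularPart 3 (ψ : centralizer ({z} : Set G) → ℂ)) (sec z _ (χ : G → ℂ))

theorem sec_mem (hM : IsPModular 3 M) (hz : IsPElt 3 z) {χ : IrrCharacter G} (hχ : χ ∈ principalBlock M G) :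
    pRegularPart 3 (sec z (centralizer {z}) (χ : G → ℂ)) ∈ regSpan 3 (principalBlock M _) := by
  rw [← sum_indBlocks_sub hM hz (isCen_singleton z) isPBlock_principal hχ]
  refine Submodule.sum_mem _ fun b hb => ?_
  have := mem_indBlocks.1 hb
  rw [← (H34.third_main hM ⟨_, this⟩).1 this]
  exact sub_mem_regSpan _ _

theorem bp_unsec (hM : IsPModular 3 M) (hz : IsPElt 3 z) {ψ : IrrCharacter (centralizer ({z} : Set G))}
    (hψ : ψ ∈ principalBlock M _) : blockPart (principalBlock M G) (unsec 3 z _ ψ.1) =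
      unsec 3 z _ ψ.1 := by
  have := blockPart_unsec hM hz (isCen_singleton z) (H34.isInducedBlock_principal_centralizer hM hz) ψ
  rwa [blockPart_irr_of_mem hψ] at this

theorem YY_eq (χ : IrrCharacter G) (ψ : IrrCharacter (centralizer ({z} : Set G))) :
    YY z χ ψ = 9 * classInner (unsec 3 z _ ψ.1) χ := by
  rw [inner_unsec (isCen_singleton z) _ (irr_class χ), YY]

/-- the data for the group and the centraliser of `z` -/
structure Ful (z : G) [Fintype (centralizer ({z} : Set G))] {ι : Type*} (u : ι → G)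
    (hu : ∀ i, u i ∈ centralizer ({z} : Set G)) : Prop extends Dat z u where
  cn : Cn (zc z) fun i => ⟨u i, hu i⟩

namespace Ful

variable {ι : Type*} [Fintype ι] {u : ι → G} {hu : ∀ i, u i ∈ centralizer ({z} : Set G)} (c : Ful z u hu)
include c

theorem diag (hM : IsPModular 3 M) {χ : IrrCharacter G} (hχ : χ ∈ principalBlock M G) :
    (tl 3 (χ : G → ℂ) χ : ℂ) + 2 * ∑ ψ ∈ II M (zc z) om, YY z χ ψ * conj (YY z χ ψ) +
      3 * (∑ i, dd (u i) χ * dd (u i) χ : ℤ) = 27 := by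
  classical
  have h := c.tl_eq hM hχ hχ
  rw [cut_inv, if_pos rfl, inner_cut (pelt c.z3) (isCen_singleton z) (irr_class χ) (irr_class χ),
    c.cn.star hM om_cube (sec_mem hM (pelt c.z3) hχ)] at h
  simp only [YY, map_mul, conj_inner_reg, map_ofNat, mul_mul_mul_comm (9 : ℂ) _ 9, ← mul_sum]
  rw [← h, sum_congr rfl fun ψ _ => mul_comm _ _]
  ring

theorem gram [DecidableEq (IrrCharacter (centralizer ({z} : Set G)))] (hM : IsPModular 3 M)
    {ψ φ : IrrCharacter (centralizer ({z} : Set G))} (hψ : ψ ∈ II M (zc z) om) (hφ : φ ∈ II M (zc z) om) :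
    ∑ χ ∈ bset (principalBlock M G), YY z χ ψ * conj (YY z χ φ) = if ψ = φ then 27 else 0 := by
  have h := inner_blockPart_left (principalBlock M G) (unsec 3 z _ ψ.1) (unsec 3 z _ φ.1)
  have h2 := c.cn.cast_tl ψ φ
  rw [bp_unsec hM (pelt c.z3) (mem_II.1 hψ).1, inner_unsec_unsec (pelt c.z3) (isCen_singleton z) _
    (irr_class φ)] at h
  rw [c.cn.tl_I hM hψ hφ] at h2
  simp only [YY_eq, map_mul, map_ofNat, mul_mul_mul_comm (9 : ℂ) _ 9, ← mul_sum]
  rw [← h]
  split_ifs at h2 ⊢ <;> push_cast at h2 <;> linear_combination -3 * h2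

theorem orth (hM : IsPModular 3 M) (i : ι) {ψ : IrrCharacter (centralizer ({z} : Set G))}
    (hψ : ψ ∈ II M (zc z) om) : ∑ χ ∈ J0 M G, dd (u i) χ * YY z χ ψ = 0 := by
  have h := congrFun (bp_unsec hM (pelt c.z3) (mem_II.1 hψ).1) (u i)
  rw [unsec_eq_zero (pelt c.z3) (isCen_singleton z) _ (by rw [pPart_eq_self (pelt (c.u3 i))]; exact c.uz i),
    blockPart_apply] at h
  rw [c.sumJ hM i, ← mul_zero (9 : ℂ), ← h, mul_sum]
  exact sum_congr rfl fun χ _ => by rw [YY_eq, c.val]; ring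

theorem res (hM : IsPModular 3 M) (i : ι) {χ : IrrCharacter G} (hχ : χ ∈ principalBlock M G) :
    blockPart (principalBlock M _) (fun g : centralizer ({z} : Set G) => (χ : G → ℂ) g) ⟨u i, hu i⟩ =
      dd (u i) χ := by
  obtain ⟨N, _, h1, h2⟩ := c.cn.nil i
  haveI := Fintype.ofFinite N
  refine mul_left_cancel₀ (H6.card_ne_zero (G := N)) ?_
  rw [H33.blockPart_principal_section hM (pelt (c.cn.u3 i)) h1 ⟨_, h2⟩
    (H6.isClassFunction_restrict _ (irr_class χ)), ← c.val, sum_congr rfl (g := fun _ => (χ : G → ℂ) (u i)),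
    sum_const, card_univ, nsmul_eq_mul, Nat.card_eq_fintype_card]
  intro n _
  refine (c.nil i).const hM (pelt (c.u3 i)) hχ (congrArg Subtype.val
    (mem_centralizer_singleton_iff.1 n.1.2).symm) ?_
  have := not_dvd_orderOf_of_mem h1 n.2
  rwa [orderOf_coe, orderOf_coe]

theorem YY_int (hM : IsPModular 3 M) (i : ι) {ψ : IrrCharacter (centralizer ({z} : Set G))}
    (hψ : ψ ∈ II M (zc z) om) : ∃ ε : ℤ, ε ^ 2 = 1 ∧ ∀ χ ∈ principalBlock M G, ∃ a b : ℤ,
      YY z χ ψ = ε * dd (u i) χ + 3 * (a + b * om) := by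
  obtain ⟨ε, h1, h2⟩ := c.cn.eps hM i hψ
  refine ⟨ε, h1, fun χ hχ => ?_⟩
  choose! w hw using h2
  choose m hm using fun φ : IrrCharacter (centralizer ({z} : Set G)) =>
    H6.char_inner_nat (H6.isCharacter_restrict (centralizer ({z} : Set G)) (irr_char χ)) (irr_char φ)
  obtain ⟨a, b, h⟩ := zw_sum (bset (principalBlock M _)) (fun φ => w φ * conj (gr (zc z) φ) * m φ) fun φ _ => by
    rcases cube_cases (c.cn.gr_cube φ) with e | e | e <;> rw [e]
    · exact ⟨w φ * m φ, 0, by simp⟩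
    · exact ⟨-w φ * m φ, -w φ * m φ, by rw [conj_om]; push_cast; ring⟩
    · exact ⟨0, w φ * m φ, by rw [← conj_om, Complex.conj_conj]; push_cast; ring⟩
  refine ⟨a, b, ?_⟩
  rw [← h, ← c.res hM i hχ, YY, ← blockPart_reg_of_mem hM isPBlock_principal (mem_II.1 hψ).1,
    inner_blockPart_left, blockPart_apply, mul_sum, mul_sum, mul_sum, ← sum_add_distrib]
  refine sum_congr rfl fun φ hφ => ?_
  have h3 := c.cn.cast_tl ψ φ
  have h4 : (dd (⟨u i, hu i⟩ : centralizer ({z} : Set G)) φ : ℂ) * conj (gr (zc z) φ) =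
      dd (⟨u i, hu i⟩ : centralizer ({z} : Set G)) φ := by
    by_cases e : gr (zc z) φ = 1
    · simp [e]
    · simp [c.cn.dd_zero e i]
  rw [hw φ (mem_bset.1 hφ)] at h3
  rw [inner_sec (isCen_singleton z), hm, c.cn.val i, map_mul, map_natCast]
  change 9 * (_ * (conj (gr (zc z) φ) * _)) = _
  push_cast at h3
  linear_combination -(1 / 3) * conj (gr (zc z) φ) * m φ * h3 + ε * m φ * h4

theorem inv (hM : IsPModular 3 M) (i0 : ι) : (J0 M G).card = 6 ∧
    (bset (principalBlock M G)).card + 2 * Fintype.card ι = 18 ∧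
    blockRank 3 (principalBlock M G) + Fintype.card ι = 6 := by
  classical
  have hn := c.cn.six hM i0
  choose! ε e1 e2 using fun ψ (h : ψ ∈ II M (zc z) om) => c.YY_int hM i0 h
  have : ∀ χ : IrrCharacter G, ∃ s : ℤ, s ^ 2 = 1 ∧ (χ ∈ J0 M G → ∀ i, ∃ t, s * dd (u i) χ = 1 + 3 * t) :=
    fun χ => by
    by_cases e : (3 : ℤ) ∣ charDegree (χ : G → ℂ) - 1
    · exact ⟨1, by norm_num, fun _ i => ⟨(dd (u i) χ - 1) / 3, by have := c.cong i χ; omega⟩⟩
    · exact ⟨-1, by norm_num, fun h i => ⟨(-dd (u i) χ - 1) / 3, by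
        have := c.cong i χ; have := (mem_J0.1 h).2; omega⟩⟩
  choose σ s1 s2 using this
  choose! t ht using s2
  have sub : J0 M G ⊆ bset (principalBlock M G) := filter_subset _ _
  have d0 : ∀ χ ∈ principalBlock M G, χ ∉ J0 M G → ∀ i, dd (u i) χ = 0 := fun χ h1 h2 i =>
    c.pos hM i h1 (by_contra fun e => h2 (mem_J0.2 ⟨h1, e⟩))
  have : ∀ χ ∈ principalBlock M G, ∀ ψ ∈ II M (zc z) om, ∃ a b : ℤ, σ χ * ε ψ * YY z χ ψ =
      ((if χ ∈ J0 M G then 1 else 0) + 3 * a : ℤ) + (3 * b : ℤ) * om := fun χ hχ ψ hψ => by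
    obtain ⟨a, b, h⟩ := e2 ψ hψ χ hχ
    have h1 : (ε ψ : ℂ) ^ 2 = 1 := by exact_mod_cast e1 ψ hψ
    split_ifs with e
    · have h2 : (σ χ : ℂ) * dd (u i0) χ = 1 + 3 * t χ i0 := by exact_mod_cast ht χ e i0
      exact ⟨t χ i0 + σ χ * ε ψ * a, σ χ * ε ψ * b, by
        rw [h]; push_cast; linear_combination σ χ * dd (u i0) χ * h1 + h2⟩
    · exact ⟨σ χ * ε ψ * a, σ χ * ε ψ * b, by rw [h, d0 χ hχ e]; push_cast; ring⟩
  choose! a b hab using this
  have sp : ∀ F : ℤ → IrrCharacter G → ℤ, ∑ χ ∈ J0 M G, F 1 χ + ∑ χ ∈ bset (principalBlock M G) \ J0 M G, F 0 χ =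
      ∑ χ ∈ bset (principalBlock M G), F (if χ ∈ J0 M G then 1 else 0) χ := fun F => by
    rw [← sum_sdiff sub, add_comm]
    congr 1 <;> refine sum_congr rfl fun χ h => ?_
    · rw [if_neg (mem_sdiff.1 h).2]
    · rw [if_pos h]
  have sg : ∀ χ, ∀ ψ ∈ II M (zc z) om, ∀ φ ∈ II M (zc z) om, σ χ * ε ψ * YY z χ ψ * conj (σ χ * ε φ * YY z χ φ) =
      ε ψ * ε φ * (YY z χ ψ * conj (YY z χ φ)) := fun χ ψ _ φ _ => by
    have h1 : (σ χ : ℂ) ^ 2 = 1 := by exact_mod_cast s1 χ
    simp only [map_mul, map_intCast]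
    linear_combination ε ψ * ε φ * (YY z χ ψ * conj (YY z χ φ)) * h1
  have nn : ∀ χ ∈ principalBlock M G, ∑ ψ ∈ II M (zc z) om, YY z χ ψ * conj (YY z χ ψ) =
      (∑ ψ ∈ II M (zc z) om, nrm ((if χ ∈ J0 M G then 1 else 0) + 3 * a χ ψ) (3 * b χ ψ) : ℤ) := fun χ hχ => by
    rw [Int.cast_sum]
    refine sum_congr rfl fun ψ hψ => ?_
    have h1 : (ε ψ : ℂ) ^ 2 = 1 := by exact_mod_cast e1 ψ hψ
    rw [← mul_conj_om, ← hab χ hχ ψ hψ, sg χ ψ hψ ψ hψ, ← sq, h1, one_mul]
  have dg : ∀ χ ∈ principalBlock M G, tl 3 (χ : G → ℂ) χ + 2 * ∑ ψ ∈ II M (zc z) om,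
      nrm ((if χ ∈ J0 M G then 1 else 0) + 3 * a χ ψ) (3 * b χ ψ) + 3 * ∑ i, dd (u i) χ * dd (u i) χ = 27 :=
    fun χ hχ => by have := c.diag hM hχ; rw [nn χ hχ] at this; exact_mod_cast this
  have R1 : ∑ χ ∈ bset (principalBlock M G), ∑ ψ ∈ II M (zc z) om,
      nrm ((if χ ∈ J0 M G then 1 else 0) + 3 * a χ ψ) (3 * b χ ψ) = 27 * (II M (zc z) om).card := by
    refine Int.cast_injective (α := ℂ) ?_
    rw [Int.cast_sum, ← sum_congr rfl fun χ hχ => nn χ (mem_bset.1 hχ), sum_comm,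
      sum_congr rfl fun ψ hψ => by rw [c.gram hM hψ hψ, if_pos rfl]]
    simp [mul_comm]
  have cl : ∀ i j, ∑ χ ∈ J0 M G, dd (u i) χ * dd (u j) χ = if i = j then 9 else 0 := fun i j => by
    simpa using (c.sumJ hM i (dd (u j))).trans (c.col hM i j)
  have sq' : ∀ χ ∈ J0 M G, ∀ i j, (1 + 3 * t χ i) * (1 + 3 * t χ j) = dd (u i) χ * dd (u j) χ := fun χ h i j => by
    rw [← ht χ h, ← ht χ h]; linear_combination dd (u i) χ * dd (u j) χ * s1 χ
  obtain ⟨k0, k1⟩ := main (J0 := J0 M G) (J1 := bset (principalBlock M G) \ J0 M G) (a := a) (b := b) (c := t)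
    i0 hn (c.k0 hM i0) (fun i j => by rw [sum_congr rfl fun χ h => sq' χ h i j, cl])
    (by simpa only [zero_add] using (sp fun e χ => ∑ ψ ∈ II M (zc z) om, nrm (e + 3 * a χ ψ) (3 * b χ ψ)).trans R1)
    (by
      have := sp fun e χ => nrm (∑ ψ ∈ II M (zc z) om, (e + 3 * a χ ψ)) (∑ ψ ∈ II M (zc z) om, 3 * b χ ψ)
      simp only [zero_add] at this
      rw [this]
      refine Int.cast_injective (α := ℂ) ?_
      rw [Int.cast_sum, sum_congr rfl fun χ hχ => by
        rw [← mul_conj_om, Int.cast_sum, Int.cast_sum, sum_mul, ← sum_add_distrib,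
          ← sum_congr rfl (hab χ (mem_bset.1 hχ)), map_sum, sum_mul_sum,
          sum_congr rfl fun ψ hψ => sum_congr rfl (sg χ ψ hψ)], sum_comm,
        sum_congr rfl (g := fun _ => (27 : ℂ)) fun ψ hψ => by
          have h1 : (ε ψ : ℂ) ^ 2 = 1 := by exact_mod_cast e1 ψ hψ
          rw [sum_comm, sum_congr rfl fun φ hφ => by rw [← mul_sum, c.gram hM hψ hφ]]
          simp only [mul_ite, mul_zero, sum_ite_eq, if_pos hψ]
          linear_combination 27 * h1]
      simp [mul_comm])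
    (by
      have h : ∑ χ ∈ J0 M G, ((1 + 3 * t χ i0 : ℤ) : ℂ) * ((∑ ψ ∈ II M (zc z) om, (1 + 3 * a χ ψ) : ℤ) +
          (∑ ψ ∈ II M (zc z) om, 3 * b χ ψ : ℤ) * om) = 0 := by
        rw [sum_congr rfl (g := fun χ => ∑ ψ ∈ II M (zc z) om, ε ψ * (dd (u i0) χ * YY z χ ψ)) fun χ hχ => by
          have h1 : (σ χ : ℂ) ^ 2 = 1 := by exact_mod_cast s1 χ
          rw [← ht χ hχ, Int.cast_sum, Int.cast_sum, sum_mul, ← sum_add_distrib, mul_sum]
          refine sum_congr rfl fun ψ hψ => ?_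
          have := hab χ (mem_J0.1 hχ).1 ψ hψ
          rw [if_pos hχ] at this
          rw [← this]
          push_cast
          linear_combination ε ψ * (dd (u i0) χ * YY z χ ψ) * h1, sum_comm]
        exact sum_eq_zero fun ψ hψ => by rw [← mul_sum, c.orth hM i0 hψ, mul_zero]
      have h' := congrArg conj h
      rw [map_sum, map_zero] at h'
      refine Int.cast_injective (α := ℂ) ?_
      rw [Int.cast_sum, Int.cast_zero, ← add_zero (0 : ℂ), ← congrArg₂ (· + ·) h h', ← sum_add_distrib]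
      exact sum_congr rfl fun χ _ => by rw [map_mul, map_intCast, ← mul_add, add_conj_om, Int.cast_mul])
    (fun χ hχ => by
      have h1 := dg χ (mem_J0.1 hχ).1
      have h2 := tl_pos hM (mem_J0.1 hχ).1
      rw [if_pos hχ] at h1
      simp only [sq, sq' χ hχ]
      omega)
    (fun χ hχ => by
      obtain ⟨m1, m2⟩ := mem_sdiff.1 hχ
      have m := mem_bset.1 m1
      have h1 := dg χ m
      have h2 := tl_pos hM m
      have h3 := contr_self_lt hM isPBlock_principal m irrOne_mem_principal (fun e => m2 (e ▸ one_mem_J0))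
        (by rw [contr_B0]; exact tl_ne hM m one_mem_J0)
      rw [contr_B0, defect_B0, c.card] at h3
      simp only [if_neg m2, zero_add, d0 χ m m2, mul_zero, sum_const_zero] at h1
      omega)
  have kk := card_sdiff_add_card_eq_card sub
  refine ⟨k0, by omega, ?_⟩
  have h1 : 27 * (blockRank 3 (principalBlock M G) : ℤ) = ∑ χ ∈ bset (principalBlock M G), tl 3 (χ : G → ℂ) χ := by
    refine Int.cast_injective (α := ℂ) ?_
    push_cast
    rw [blockRank_eq_sum hM isPBlock_principal, mul_sum]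
    exact sum_congr rfl fun χ _ => (c.cast_tl χ χ).symm
  have h2 := sum_congr rfl fun χ hχ => dg χ (mem_bset.1 hχ)
  rw [sum_add_distrib, sum_add_distrib, ← mul_sum, ← mul_sum, R1, ← h1, sum_comm,
    sum_congr rfl fun i _ => by rw [c.col hM i i, if_pos rfl]] at h2
  simp only [sum_const, card_univ, nsmul_eq_mul] at h2
  omega

end Ful

end H86.E27
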