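import Mathlib
import Cfsg.Agent.Lib.Block.Column
import Cfsg.Agent.Lib.Block.SubCount
import Cfsg.Agent.Lib.Block.Third
import Cfsg.Agent.Lib.Blk86.Ex27A

/-! # Principal 3-blocks with extraspecial defect group of order 27: sections -/

set_option autoImplicit false
set_option linter.style.haveILetI false
set_option linter.unusedSectionVars false

namespace H86.E27

open Cfsg Finset H84 H35 Subgroup
open scoped ComplexConjugate

attribute [local irreducible] H33.instFieldF

instance fact3 : Fact (Nat.Prime 3) := ⟨Nat.prime_three⟩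

/-- a primitive cube root of unity -/
noncomputable def om : ℂ := ⟨-1 / 2, √3 / 2⟩

theorem om_sq : om ^ 2 = -1 - om := by
  have : √3 * √3 = 3 := Real.mul_self_sqrt (by norm_num)
  apply Complex.ext <;> simp [om, pow_two] <;> linarith

theorem conj_om : conj om = -1 - om := by
  apply Complex.ext <;> simp [om]; norm_num

theorem om_cube : om ^ 3 = 1 := by linear_combination (om - 1) * om_sq

theorem cube_cases {c : ℂ} (h : c ^ 3 = 1) : c = 1 ∨ c = om ∨ c = -1 - om := by
  have : (c - 1) * ((c - om) * (c - (-1 - om))) = 0 := by linear_combination h - (c - 1) * om_sq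
  rcases mul_eq_zero.1 this with e | e
  · exact .inl (sub_eq_zero.1 e)
  · exact .inr ((mul_eq_zero.1 e).imp sub_eq_zero.1 sub_eq_zero.1)

theorem om_ne_one : om ≠ 1 := fun h => by
  have := om_sq
  rw [h] at this
  norm_num at this

theorem two_om : 2 * om + 1 ≠ 0 := fun h => by
  have : (3 : ℂ) = 0 := by linear_combination 4 * om_sq - (2 * om + 1) * h
  norm_num at this

theorem mul_conj_om (a b : ℤ) : (a + b * om) * conj (a + b * om : ℂ) = (nrm a b : ℤ) := by
  simp only [map_add, map_mul, map_intCast, conj_om, nrm]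
  push_cast
  linear_combination (-(b : ℂ) ^ 2) * om_sq

theorem add_conj_om (a b : ℤ) : (a + b * om) + conj (a + b * om : ℂ) = (2 * a - b : ℤ) := by
  simp only [map_add, map_mul, map_intCast, conj_om]
  push_cast
  ring

theorem three_of {c k : ℂ} (hc : c ^ 3 = 1) (hk : k ^ 3 = 1) [Decidable (c = k)] :
    1 + c * k ^ 2 + c ^ 2 * k = if c = k then 3 else 0 := by
  split_ifs with h
  · subst h; linear_combination 2 * hc
  · refine mul_left_cancel₀ (sub_ne_zero.2 h) ?_
    linear_combination (k - k ^ 2 * 0) * hc - c * hk + (c - k) - (c - k) + (k * c ^ 2 * 0) +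
      (c ^ 2 * k ^ 2 - c ^ 2 * k ^ 2)

variable {G : Type*} [Group G] [Fintype G] {M : Ideal AlgInt} [M.IsMaximal]

theorem val3 (χ : IrrCharacter G) {x : G} (hx : x ^ 3 = 1) : ∃ a b : ℤ, (χ : G → ℂ) x = a + b * om ∧
    (χ : G → ℂ) x⁻¹ = a + b * (-1 - om) ∧ (3 : ℤ) ∣ charDegree (χ : G → ℂ) - a - b := by
  obtain ⟨n, w, h1, h2, h3⟩ := H6.char_pow_eq_sum (irr_char χ) (by norm_num) hx
  have key : ∀ s : Finset (Fin n), ∃ a b : ℤ, ∑ i ∈ s, w i ^ 1 = a + b * om ∧
      ∑ i ∈ s, w i ^ 2 = a + b * (-1 - om) ∧ (3 : ℤ) ∣ s.card - a - b := fun s => by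
    induction s using Finset.induction_on with
    | empty => exact ⟨0, 0, by simp, by simp, by simp⟩
    | insert j s hj ih =>
      obtain ⟨a, b, e1, e2, e3⟩ := ih
      rw [sum_insert hj, sum_insert hj, e1, e2, card_insert_of_notMem hj]
      rcases cube_cases (h2 j) with e | e | e <;> rw [e]
      · exact ⟨a + 1, b, by push_cast; ring, by push_cast; ring, by omega⟩
      · exact ⟨a, b + 1, by push_cast; ring, by push_cast; linear_combination om_sq, by omega⟩
      · exact ⟨a - 1, b - 1, by push_cast; ring, by push_cast; linear_combination om_sq, by omega⟩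
  obtain ⟨a, b, e1, e2, e3⟩ := key univ
  refine ⟨a, b, by rw [← e1, ← h3, pow_one], by
    rw [← e2, ← h3, show x⁻¹ = x ^ 2 from inv_eq_of_mul_eq_one_right (by rw [← pow_succ', hx])], ?_⟩
  rwa [charDegree_eq_of h1, ← Fintype.card_fin n]

/-- the integer value of a character -/
noncomputable def dd (x : G) (χ : IrrCharacter G) : ℤ := round ((χ : G → ℂ) x).re

theorem real3 (χ : IrrCharacter G) {x : G} (hx : x ^ 3 = 1) (h : IsConj x x⁻¹) :
    (χ : G → ℂ) x = dd x χ ∧ (3 : ℤ) ∣ charDegree (χ : G → ℂ) - dd x χ := by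
  obtain ⟨a, b, e1, e2, e3⟩ := val3 χ hx
  have h1 := H6.classFun_of_isConj (irr_class χ) h
  have h2 : (b : ℂ) = 0 := (mul_eq_zero.1 (by linear_combination h1 - e1 + e2)).resolve_right two_om
  have h3 : b = 0 := by exact_mod_cast h2
  subst h3
  have : dd x χ = a := by rw [dd, e1]; simp
  rw [this]
  exact ⟨by rw [e1]; simp, by simpa using e3⟩

open Classical in
/-- the part of `f` on the section of `x` -/
noncomputable def cut (x : G) (f : G → ℂ) : G → ℂ := fun g => if IsConj x (pPart 3 g) then f g else 0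

theorem cut_one (f : G → ℂ) : cut 1 f = pRegularPart 3 f := by
  funext g
  have : IsConj 1 (pPart 3 g) ↔ ¬ 3 ∣ orderOf g := by rw [isConj_one_right, pPart_eq_one_iff]
  rw [cut, reg_apply]
  split_ifs <;> tauto

theorem inner_cut {x : G} {C : Subgroup G} [Fintype C] (hx : IsPElt 3 x) (hC : IsCen x C) {f θ : G → ℂ}
    (hf : IsClassFunction G f) (hθ : IsClassFunction G θ) :
    classInner (cut x f) θ = classInner (pRegularPart 3 (sec x C f)) (sec x C θ) := by
  rw [← inner_unsec hC _ hθ]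
  congr 1
  funext g
  rw [cut]
  split_ifs with h
  exacts [(unsec_sec_apply hx hC hf h).symm, (unsec_eq_zero hx hC _ h).symm]

theorem cut_inv (x : G) (χ : IrrCharacter G) :
    classInner (cut x⁻¹ (χ : G → ℂ)) χ = classInner (cut x (χ : G → ℂ)) χ := by
  rw [← H6.classInner_comp_equiv (Equiv.inv G), classInner, classInner]
  refine congrArg _ (sum_congr rfl fun g _ => ?_)
  have : IsConj x⁻¹ (pPart 3 g⁻¹) ↔ IsConj x (pPart 3 g) := by
    simp only [isConj_iff, pPart_inv]
    exact exists_congr fun c => by rw [← inv_inj]; simp [mul_assoc]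
  rw [Equiv.inv_apply, cut, cut, H6.char_inv (irr_char χ), Complex.conj_conj]
  by_cases h : IsConj x (pPart 3 g)
  · rw [if_pos h, if_pos (this.2 h), mul_comm]
  · rw [if_neg h, if_neg (mt this.1 h), zero_mul, zero_mul]

/-- `C(x)` is 3-nilpotent with 3-part `3 ^ k` -/
def Nil (x : G) (k : ℕ) : Prop :=
  ∃ N : Subgroup (centralizer ({x} : Set G)), N.Normal ∧ ¬ 3 ∣ Nat.card N ∧ N.index = 3 ^ k

theorem Nil.const (hM : IsPModular 3 M) {x : G} {k : ℕ} (h : Nil x k) (hx : IsPElt 3 x)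
    {χ : IrrCharacter G} (hχ : χ ∈ principalBlock M G) {s : G} (hc : Commute x s) (hs : ¬ 3 ∣ orderOf s) :
    (χ : G → ℂ) (x * s) = (χ : G → ℂ) x := by
  obtain ⟨N, _, h1, h2⟩ := h
  have m1 : x ∈ centralizer ({x} : Set G) := mem_centralizer_singleton_iff.2 rfl
  have m2 : s ∈ centralizer ({x} : Set G) := mem_centralizer_singleton_iff.2 hc.symm
  exact H34.principal_section_mul hM hx h1 hχ (h := ⟨x, m1⟩) (h' := ⟨x, m1⟩ * ⟨s, m2⟩) (pPart_eq_self hx)
    (pPart_mul_eq hx hs hc) (by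
      rw [inv_mul_cancel_left]
      exact mem_of_not_dvd_of_index h2 (by rwa [← orderOf_coe]))

theorem Nil.cut (hM : IsPModular 3 M) {x : G} {k : ℕ} (h : Nil x k) (hx : IsPElt 3 x)
    {χ ψ : IrrCharacter G} (hχ : χ ∈ principalBlock M G) (hψ : ψ ∈ principalBlock M G) :
    3 ^ k * classInner (cut x (χ : G → ℂ)) ψ = (χ : G → ℂ) x * conj ((ψ : G → ℂ) x) := by
  classical
  rw [inner_cut hx (isCen_singleton x) (irr_class χ) (irr_class ψ)]
  obtain ⟨N, hN, h1, h2⟩ := id h
  have e : ∀ s : centralizer ({x} : Set G), pRegularPart 3 (sec x _ (χ : G → ℂ)) s *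
      conj (sec x _ (ψ : G → ℂ) s) = if s ∈ N then (χ : G → ℂ) x * conj ((ψ : G → ℂ) x) else 0 := fun s => by
    have c := (isCen_singleton x).comm s
    split_ifs with hs
    · have := not_dvd_orderOf_of_mem h1 hs
      rw [reg_of_reg _ this, sec_apply, sec_apply, h.const hM hx hχ c (by rwa [orderOf_coe]),
        h.const hM hx hψ c (by rwa [orderOf_coe])]
    · rw [reg_of_sing _ (by_contra fun e => hs (mem_of_not_dvd_of_index h2 e)), zero_mul]
  rw [classInner, sum_congr rfl fun s _ => e s, ← sum_filter, sum_const, nsmul_eq_mul,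
    ← N.card_mul_index, h2, ← Fintype.card_subtype, ← Nat.card_eq_fintype_card]
  have : (Nat.card N : ℂ) ≠ 0 := H6.card_ne_zero
  change _ * (_ * ((Nat.card N : ℂ) * _)) = _
  push_cast
  field_simp

theorem Nil.col (hM : IsPModular 3 M) {x : G} {k : ℕ} (h : Nil x k) (hx : IsPElt 3 x) :
    ∑ χ ∈ bset (principalBlock M G), (χ : G → ℂ) x * conj ((χ : G → ℂ) x) = 3 ^ k := by
  obtain ⟨N, _, h1, h2⟩ := h
  have := H34.sum_principal_section_of_index hM hx h1 ⟨k, h2⟩ not_dvd_orderOf_one not_dvd_orderOf_one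
  rw [← N.card_mul_index, h2, Nat.factorization_mul Nat.card_pos.ne' (by positivity), Finsupp.add_apply,
    Nat.factorization_eq_zero_of_not_dvd h1, Nat.prime_three.factorization_pow] at this
  simpa using this

theorem Nil.tr (hM : IsPModular 3 M) {x : G} {k : ℕ} (h : Nil x k) (hx : IsPElt 3 x) :
    ∑ χ ∈ bset (principalBlock M G), classInner (E27.cut x (χ : G → ℂ)) χ = 1 := by
  refine mul_left_cancel₀ (a := (3 : ℂ) ^ k) (pow_ne_zero _ (by norm_num)) ?_
  rw [mul_sum, sum_congr rfl fun χ hχ => h.cut hM hx (mem_bset.1 hχ) (mem_bset.1 hχ), h.col hM hx, mul_one]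

theorem height_eq (χ : IrrCharacter G) :
    blockHeight 3 (principalBlock M G) (χ : G → ℂ) = (charDegree (χ : G → ℂ)).factorization 3 := by
  have := minval_le (p := 3) (irrOne_mem_principal (M := M) (G := G))
  rw [deg_irrOne, Nat.factorization_one, Finsupp.zero_apply] at this
  rw [blockHeight_eq]
  omega

theorem height_iff (χ : IrrCharacter G) :
    blockHeight 3 (principalBlock M G) (χ : G → ℂ) = 0 ↔ ¬ 3 ∣ charDegree (χ : G → ℂ) := by
  rw [height_eq, Nat.factorization_eq_zero_iff]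
  simp [Nat.prime_three, deg_ne_zero]

theorem red_regA (hM : IsPModular 3 M) (χ ψ : IrrCharacter G) {k m : ℕ} {t : ℤ}
    (h1 : charDegree (χ : G → ℂ) = k * m) (h2 : tl 3 (χ : G → ℂ) ψ = k * t) :
    H33.red M (regA 3 (χ : G → ℂ) ψ) * m = mpart 3 G * t := by
  have h3 := irr_one_ne_zero χ
  have e : regA 3 (χ : G → ℂ) ψ * m = ((mpart 3 G * t : ℤ) : ℂ) := by
    rw [regA_eq_tl (irr_gen χ) (irr_gen ψ), h2, div_mul_eq_mul_div, div_eq_iff h3, ← cast_deg, h1]
    push_cast; ring
  rw [← H33.red_natCast M m, ← H33.red_mul (regA_mem_O χ (irr_gen ψ)) (natCast_mem _ _), e, H33.red_intCast]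
  push_cast; rfl

theorem tl_cong (hM : IsPModular 3 M) {φ ψ : IrrCharacter G} (hφ : φ ∈ principalBlock M G)
    (hψ : ψ ∈ principalBlock M G) {m : ℕ} (h : charDegree (ψ : G → ℂ) = 3 * m) {w : ℤ}
    (hw : tl 3 (ψ : G → ℂ) φ = 3 * w) :
    (3 : ℤ) ∣ w - m * tl 3 (irrOne G : G → ℂ) (irrOne G) * charDegree (φ : G → ℂ) := by
  have o := irrOne_mem_principal (M := M) (G := G)
  have a1 := red_regA hM ψ φ h hw
  have a2 := red_regA hM (irrOne G) φ (k := 1) (m := 1) deg_irrOne (by simp; rfl)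
  have a3 := red_regA hM φ (irrOne G) (k := 1) (one_mul _).symm (by simp; rfl)
  have a4 := red_regA hM (irrOne G) (irrOne G) (k := 1) (m := 1) deg_irrOne (by simp; rfl)
  rw [red_regA_of_sameBlock (sameBlock_of_mem isPBlock_principal hψ o) (irr_gen φ)] at a1
  rw [red_regA_of_sameBlock (sameBlock_of_mem isPBlock_principal hφ o) (irr_gen _),
    tl_comm (irr_gen φ) (irr_gen _)] at a3
  have h0 : (mpart 3 G : H33.F M) ≠ 0 := fun e =>
    not_dvd_mpart (p := 3) G ((H33.natCast_F_eq_zero_iff hM _).1 e)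
  refine (H33.intCast_F_eq_zero_iff hM _).1 (mul_left_cancel₀ h0 ?_)
  push_cast at a2 a4 ⊢
  linear_combination -a1 + (m : H33.F M) * a2 - (m : H33.F M) * a3 +
    (m : H33.F M) * (charDegree (φ : G → ℂ) : H33.F M) * a4

/-- the classes of 3-elements -/
structure Cls (z : G) {ι : Type*} (u : ι → G) : Prop where
  z3 : z ^ 3 = 1
  z1 : z ≠ 1
  zz : ¬ IsConj z z⁻¹
  u3 : ∀ i, u i ^ 3 = 1
  u1 : ∀ i, u i ≠ 1
  uz : ∀ i, ¬ IsConj z (u i)
  uz' : ∀ i, ¬ IsConj z⁻¹ (u i)
  uu : ∀ i j, IsConj (u i) (u j) → i = j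
  cov : ∀ g, IsPElt 3 g → g = 1 ∨ IsConj z g ∨ IsConj z⁻¹ g ∨ ∃ i, IsConj (u i) g
  card : (Nat.card G).factorization 3 = 3
  nil : ∀ i, Nil (u i) 2

theorem pelt {x : G} (h : x ^ 3 = 1) : IsPElt 3 x := isPElt_of_pow_eq_one (k := 1) (by simpa using h)

variable {z : G} {ι : Type*} [Fintype ι] {u : ι → G}

theorem Cls.split (c : Cls z u) (f θ : G → ℂ) : classInner f θ = classInner (pRegularPart 3 f) θ +
    classInner (cut z f) θ + classInner (cut z⁻¹ f) θ + ∑ i, classInner (cut (u i) f) θ := by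
  rw [← H6.classInner_sum_left, ← H6.classInner_add_left, ← H6.classInner_add_left, ← H6.classInner_add_left,
    ← cut_one]
  congr 1
  funext g
  have n1 : ∀ x : G, x ≠ 1 → ¬ IsConj x 1 := fun x h e => h (isConj_one_left.1 e)
  have z1' : z⁻¹ ≠ 1 := inv_ne_one.2 c.z1
  simp only [Pi.add_apply, Finset.sum_apply, cut]
  rcases c.cov _ (isPElt_pPart 3 g) with h | h | h | ⟨i, h⟩
  · rw [h, if_pos (IsConj.refl _), if_neg (n1 _ c.z1), if_neg (n1 _ z1'),
      sum_eq_zero fun i _ => if_neg (n1 _ (c.u1 i))]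
    ring
  · rw [if_neg fun e => n1 _ c.z1 (h.trans e.symm), if_pos h, if_neg fun e => c.zz (h.trans e.symm),
      sum_eq_zero fun i _ => if_neg fun e => c.uz i (h.trans e.symm)]
    ring
  · rw [if_neg fun e => n1 _ z1' (h.trans e.symm), if_neg fun e => c.zz (e.trans h.symm), if_pos h,
      sum_eq_zero fun i _ => if_neg fun e => c.uz' i (h.trans e.symm)]
    ring
  · rw [if_neg fun e => n1 _ (c.u1 i) (h.trans e.symm), if_neg fun e => c.uz i (e.trans h.symm),
      if_neg fun e => c.uz' i (e.trans h.symm), sum_eq_single i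
        (fun j _ hj => if_neg fun e => hj (c.uu _ _ (e.trans h.symm))) (by simp), if_pos h]
    ring

theorem Cls.cast_tl (c : Cls z u) (χ ψ : IrrCharacter G) :
    (tl 3 (χ : G → ℂ) ψ : ℂ) = 27 * classInner (pRegularPart 3 (χ : G → ℂ)) ψ := by
  rw [H84.cast_tl (irr_gen χ) (irr_gen ψ), c.card]; norm_num

open Classical in
/-- the members of height zero of the principal block -/
noncomputable def J0 (M : Ideal AlgInt) (G : Type*) [Group G] [Fintype G] : Finset (IrrCharacter G) :=
  (bset (principalBlock M G)).filter fun χ => ¬ 3 ∣ charDegree (χ : G → ℂ)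

theorem mem_J0 {χ : IrrCharacter G} :
    χ ∈ J0 M G ↔ χ ∈ principalBlock M G ∧ ¬ 3 ∣ charDegree (χ : G → ℂ) := by
  rw [J0, mem_filter, mem_bset]

theorem one_mem_J0 : irrOne G ∈ J0 M G := mem_J0.2 ⟨irrOne_mem_principal, by rw [deg_irrOne]; norm_num⟩

/-- the case of real noncentral classes -/
structure Dat (z : G) {ι : Type*} (u : ι → G) : Prop extends Cls z u where
  real : ∀ i, IsConj (u i) (u i)⁻¹

namespace Dat

variable (c : Dat z u)
include c

theorem val (i : ι) (χ : IrrCharacter G) : (χ : G → ℂ) (u i) = dd (u i) χ := (real3 χ (c.u3 i) (c.real i)).1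

theorem cong (i : ι) (χ : IrrCharacter G) : (3 : ℤ) ∣ charDegree (χ : G → ℂ) - dd (u i) χ :=
  (real3 χ (c.u3 i) (c.real i)).2

theorem dd_one (i : ι) : dd (u i) (irrOne G) = 1 := by simp [dd, irrOne_coe]

theorem col [DecidableEq ι] (hM : IsPModular 3 M) (i j : ι) :
    ∑ χ ∈ bset (principalBlock M G), dd (u i) χ * dd (u j) χ = if i = j then 9 else 0 := by
  have : ∑ χ ∈ bset (principalBlock M G), (χ : G → ℂ) (u i) * conj ((χ : G → ℂ) (u j)) =
      ((if i = j then 9 else 0 : ℤ) : ℂ) := by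
    split_ifs with h
    · subst h; rw [(c.nil i).col hM (pelt (c.u3 i))]; norm_num
    · rw [H33.col_eq_zero_of_pElt hM isPBlock_principal (pelt (c.u3 i)) (pelt (c.u3 j))
        fun e => h (c.uu _ _ e)]; simp
  simp only [c.val, map_intCast] at this
  exact_mod_cast this

theorem pos (hM : IsPModular 3 M) (i : ι) {χ : IrrCharacter G} (hχ : χ ∈ principalBlock M G)
    (h : 3 ∣ charDegree (χ : G → ℂ)) : dd (u i) χ = 0 := by
  classical
  have h1 := c.col hM i i
  have ne : χ ≠ irrOne G := fun e => by rw [e, deg_irrOne] at h; norm_num at h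
  rw [if_pos rfl, ← add_sum_erase _ _ (mem_bset.2 irrOne_mem_principal), c.dd_one] at h1
  have h2 := single_le_sum (f := fun χ => dd (u i) χ * dd (u i) χ) (fun _ _ => mul_self_nonneg _)
    (mem_erase.2 ⟨ne, mem_bset.2 hχ⟩)
  have h3 := c.cong i χ
  have : dd (u i) χ ≤ 2 := by nlinarith
  have : -2 ≤ dd (u i) χ := by nlinarith
  omega

theorem sumJ (hM : IsPModular 3 M) (i : ι) {R : Type*} [Ring R] (f : IrrCharacter G → R) :
    ∑ χ ∈ J0 M G, (dd (u i) χ : R) * f χ = ∑ χ ∈ bset (principalBlock M G), (dd (u i) χ : R) * f χ := by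
  classical
  exact sum_filter_of_ne fun χ hχ h e => h (by rw [c.pos hM i (mem_bset.1 hχ) e]; simp)

theorem nd (i : ι) {χ : IrrCharacter G} (hχ : χ ∈ J0 M G) : ¬ 3 ∣ dd (u i) χ := fun h => by
  have := c.cong i χ
  have := (mem_J0.1 hχ).2
  omega

theorem k0 (hM : IsPModular 3 M) (i : ι) : (J0 M G).card = 6 ∨ (J0 M G).card = 9 := by
  classical
  refine col9 (d := dd (u i)) (e := fun χ => charDegree (χ : G → ℂ)) one_mem_J0 (c.dd_one i)
    (by rw [deg_irrOne]; rfl) (fun χ => c.nd i) ?_ ?_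
  · have := (c.sumJ hM i (dd (u i))).trans (c.col hM i i)
    simpa [sq] using this
  · have h := H33.col_eq_zero_of_pElt hM isPBlock_principal (pelt (c.u3 i)) isPElt_one
      fun e => c.u1 i (isConj_one_left.1 e)
    simp only [c.val, ← cast_deg, map_natCast] at h
    have := c.sumJ hM i fun χ => (charDegree (χ : G → ℂ) : ℤ)
    simp only [Int.cast_id] at this
    rw [this]
    exact_mod_cast h

theorem tl_eq [DecidableEq (IrrCharacter G)] (hM : IsPModular 3 M) {χ ψ : IrrCharacter G}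
    (hχ : χ ∈ principalBlock M G) (hψ : ψ ∈ principalBlock M G) :
    (tl 3 (χ : G → ℂ) ψ : ℂ) + 27 * classInner (cut z (χ : G → ℂ)) ψ + 27 * classInner (cut z⁻¹ (χ : G → ℂ)) ψ +
      3 * (∑ i, dd (u i) χ * dd (u i) ψ : ℤ) = if χ = ψ then 27 else 0 := by
  have h := c.split (χ : G → ℂ) ψ
  have e : 9 * ∑ i, classInner (cut (u i) (χ : G → ℂ)) ψ = (∑ i, dd (u i) χ * dd (u i) ψ : ℤ) := by
    rw [mul_sum, Int.cast_sum]
    refine sum_congr rfl fun i _ => ?_
    have := (c.nil i).cut hM (pelt (c.u3 i)) hχ hψ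
    rw [c.val, c.val, map_intCast] at this
    push_cast
    linear_combination this
  rw [H6.irr_inner'] at h
  rw [c.cast_tl, ← e]
  split_ifs at h ⊢ <;> linear_combination -27 * h

end Dat

end H86.E27
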