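import Mathlib
import Cfsg.Agent.Lib.Deg.FS3
import Cfsg.Agent.Lib.Char.Burnside
import Cfsg.Agent.Lib.H85.CharAux
import Cfsg.Agent.Lib.FGS.ClassSize

/-!
Knörr's criterion for the coprime `k(GV)` problem.
-/

set_option autoImplicit false
set_option linter.style.haveILetI false
set_option linter.unusedSectionVars false

open Cfsg
open scoped ComplexConjugate

attribute [local irreducible] H33.instFieldF

namespace H86

theorem card_le_of_forall_ringEquiv {ι : Type*} [Fintype ι] (a : ι → ℂ)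
    (hi : ∀ i, IsIntegral ℤ (a i)) (h0 : ∀ i, a i ≠ 0) {B : ℝ}
    (hB : ∀ σ : ℂ ≃+* ℂ, ∑ i, ‖σ (a i)‖ ^ 2 ≤ B) : (Fintype.card ι : ℝ) ≤ B := by
  by_contra hlt
  have key : ∀ σ : ℂ ≃+* ℂ, ‖σ (∏ i, a i)‖ < 1 := fun σ => by
    by_contra h1
    push Not at h1
    apply hlt
    have h2 := H8.card_le_sum_of_one_le_prod Finset.univ (fun i => ‖σ (a i)‖ ^ 2)
      (fun i _ => pow_pos (norm_pos_iff.2 (by simpa using h0 i)) 2) (by
        rw [Finset.prod_pow, ← norm_prod, ← map_prod]
        exact one_le_pow₀ h1)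
    exact (by simpa using h2 : (Fintype.card ι : ℝ) ≤ _).trans (hB σ)
  have h3 := H8.norm_eq_one_of_forall_ringEquiv (α := ∏ i, a i)
    (IsIntegral.prod _ fun i _ => hi i) (Finset.prod_ne_zero_iff.2 fun i _ => h0 i)
    (fun σ => (key σ).le)
  have h4 := key (RingEquiv.refl ℂ)
  simp only [RingEquiv.refl_apply] at h4
  exact h4.ne h3

/-- Combinations of characters with algebraic integer coefficients. -/
def IC {H : Type*} [Group H] (f : H → ℂ) : Prop :=
  f ∈ Submodule.span AlgInt {χ : H → ℂ | IsCharacter H χ}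

namespace IC

variable {H : Type*} [Group H]

theorem of_char {χ : H → ℂ} (h : IsCharacter H χ) : IC χ := Submodule.subset_span h

theorem zero : IC (0 : H → ℂ) := Submodule.zero_mem _

theorem add {f g : H → ℂ} (hf : IC f) (hg : IC g) : IC (f + g) := Submodule.add_mem _ hf hg

theorem neg {f : H → ℂ} (hf : IC f) : IC (-f) := Submodule.neg_mem _ hf

theorem smul {c : ℂ} (hc : IsIntegral ℤ c) {f : H → ℂ} (hf : IC f) : IC (c • f) :=
  Submodule.smul_mem _ (⟨c, hc⟩ : AlgInt) hf

theorem sum {ι : Type*} (s : Finset ι) {f : ι → H → ℂ} (hf : ∀ i ∈ s, IC (f i)) :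
    IC (∑ i ∈ s, f i) := Submodule.sum_mem _ hf

theorem induction {P : (H → ℂ) → Prop} (h1 : ∀ χ, IsCharacter H χ → P χ) (h0 : P 0)
    (hadd : ∀ f g, P f → P g → P (f + g))
    (hsm : ∀ (c : ℂ) f, IsIntegral ℤ c → P f → P (c • f)) {f : H → ℂ} (hf : IC f) : P f :=
  Submodule.span_induction (p := fun f _ => P f) h1 h0 (fun f g _ _ => hadd f g)
    (fun (c : AlgInt) f _ h => hsm c f c.2 h) hf

theorem one : IC (1 : H → ℂ) := of_char H6.isCharacter_one

theorem const {c : ℂ} (hc : IsIntegral ℤ c) : IC (fun _ : H => c) := by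
  have h := smul hc (one (H := H))
  convert h using 1
  ext; simp

theorem mul {f g : H → ℂ} (hf : IC f) (hg : IC g) : IC (f * g) := by
  refine induction (P := fun f => IC (f * g)) (fun χ hχ => ?_) (by simpa using zero)
    (fun a b ha hb => by rw [add_mul]; exact ha.add hb)
    (fun c a hc ha => by rw [smul_mul_assoc]; exact ha.smul hc) hf
  exact induction (P := fun g => IC (χ * g)) (fun ψ hψ => of_char (H6.isCharacter_mul hχ hψ))
    (by simpa using zero) (fun a b ha hb => by rw [mul_add]; exact ha.add hb)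
    (fun c a hc ha => by rw [mul_smul_comm]; exact ha.smul hc) hg

theorem prod {ι : Type*} (s : Finset ι) {f : ι → H → ℂ} (hf : ∀ i ∈ s, IC (f i)) :
    IC (∏ i ∈ s, f i) :=
  Finset.prod_induction f IC (fun _ _ => mul) one hf

theorem pow {f : H → ℂ} (hf : IC f) (n : ℕ) : IC (f ^ n) := by
  induction n with
  | zero => simpa using one
  | succ n ih => rw [pow_succ]; exact ih.mul hf

theorem comp {K : Type*} [Group K] (φ : K →* H) {f : H → ℂ} (hf : IC f) :
    IC (fun k => f (φ k)) :=
  induction (P := fun f => IC (fun k => f (φ k)))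
    (fun _ hχ => of_char (H6.isCharacter_comp φ hχ)) zero (fun _ _ ha hb => ha.add hb)
    (fun _ _ hc ha => ha.smul hc) hf

theorem classFun {f : H → ℂ} (hf : IC f) : IsClassFunction H f :=
  induction (P := IsClassFunction H) (fun _ => H6.char_isClassFunction) H6.isClassFunction_zero
    (fun _ _ => H6.isClassFunction_add) (fun c _ _ => H6.isClassFunction_smul c) hf

theorem isIntegral [Finite H] {f : H → ℂ} (hf : IC f) (h : H) : IsIntegral ℤ (f h) :=
  induction (P := fun f => IsIntegral ℤ (f h)) (fun _ hχ => H6.char_isIntegral hχ h)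
    isIntegral_zero (fun _ _ ha hb => ha.add hb) (fun _ _ hc ha => hc.mul ha) hf

theorem inner [Fintype H] {f χ : H → ℂ} (hf : IC f) (hχ : IsCharacter H χ) :
    IsIntegral ℤ (classInner f χ) := by
  refine induction (P := fun f => IsIntegral ℤ (classInner f χ)) (fun ψ hψ => ?_) ?_
    (fun _ _ ha hb => ?_) (fun _ _ hc ha => ?_) hf
  · obtain ⟨n, hn⟩ := H6.char_inner_nat hψ hχ
    rw [hn]; exact isIntegral_natCast n
  · rw [H6.classInner_zero_left]; exact isIntegral_zero
  · rw [H6.classInner_add_left]; exact ha.add hb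
  · rw [H6.classInner_smul_left]; exact hc.mul ha

theorem of_inner [Fintype H] {f : H → ℂ} (hf : IsClassFunction H f)
    (h : ∀ χ, IsIrrCharacter H χ → IsIntegral ℤ (classInner f χ)) : IC f := by
  rw [H6.classFun_eq_sum_irr hf]
  exact sum _ fun χ _ => (of_char (H6.irr_isCharacter χ.2)).smul (h _ χ.2)

/-- Division by an integer prime to the group order. -/
theorem of_smul [Finite H] {f : H → ℂ} (hi : ∀ h, IsIntegral ℤ (f h)) {n : ℕ}
    (hn : n.Coprime (Nat.card H)) (hf : IC ((n : ℂ) • f)) : IC f := by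
  haveI := Fintype.ofFinite H
  have hn0 : (n : ℂ) ≠ 0 ∨ Nat.card H = 1 := by
    rcases Nat.eq_zero_or_pos n with rfl | h
    · exact Or.inr (by simpa using hn)
    · exact Or.inl (by exact_mod_cast h.ne')
  have hc : IsClassFunction H f := by
    rcases hn0 with h | h
    · have := H6.isClassFunction_smul (n : ℂ)⁻¹ hf.classFun
      rwa [smul_smul, inv_mul_cancel₀ h, one_smul] at this
    · haveI := (Nat.card_eq_one_iff_unique.1 h).1
      exact H6.isClassFunction_iff_isConj.2 fun a b _ => by rw [Subsingleton.elim a b]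
  refine of_inner hc fun χ hχ => ?_
  have h1 : IsIntegral ℤ ((n : ℂ) * classInner f χ) := by
    rw [← H6.classInner_smul_left]; exact hf.inner (H6.irr_isCharacter hχ)
  have h2 : IsIntegral ℤ ((Nat.card H : ℂ) * classInner f χ) := by
    rw [H6.card_mul_classInner]
    refine IsIntegral.sum _ fun g _ => (hi g).mul ?_
    rw [← H6.char_inv (H6.irr_isCharacter hχ)]
    exact H6.char_isIntegral (H6.irr_isCharacter hχ) _
  obtain ⟨u, w, huw⟩ := Nat.isCoprime_iff_coprime.2 hn
  have h3 : classInner f χ = (u : ℂ) * ((n : ℂ) * classInner f χ) +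
      (w : ℂ) * ((Nat.card H : ℂ) * classInner f χ) := by
    have h4 : (u : ℂ) * n + w * Nat.card H = 1 := by exact_mod_cast huw
    linear_combination -(classInner f χ) * h4
  rw [h3]
  exact ((isIntegral_algebraMap (x := u)).mul h1).add ((isIntegral_algebraMap (x := w)).mul h2)

theorem mul_center [Finite H] {χ : H → ℂ} (hχ : IsCharacter H χ) {z : H}
    (hz : z ∈ Subgroup.center H) : IC (fun h => χ (z * h)) := by
  refine H6.char_induction (P := fun χ => IC (fun h => χ (z * h))) zero (fun ψ hψ => ?_)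
    (fun _ _ ha hb => ha.add hb) hχ
  obtain ⟨ω, hω⟩ := H87.exists_mul_of_mem_center hψ hz
  have h1 : ∀ k : ℕ, ψ (z ^ k) = ω ^ k * ψ 1 := fun k => by
    induction k with
    | zero => simp
    | succ k ih => rw [pow_succ', hω, ih]; ring
  have h2 : ω ^ Nat.card H = 1 := by
    have := h1 (Nat.card H)
    rw [pow_card_eq_one'] at this
    exact (mul_left_eq_self₀.1 this.symm).resolve_right (H6.irr_one_ne_zero hψ)
  have h3 := (of_char (H6.irr_isCharacter hψ)).smul
    (H33.isIntegral_of_pow_eq_one Nat.card_pos.ne' h2)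
  convert h3 using 1
  ext h; simp [hω]

end IC

theorem sum_norm_inner_sq {H : Type*} [Group H] [Fintype H] {f : H → ℂ}
    (hf : IsClassFunction H f) : ∑ l : IrrCharacter H, ‖classInner f l‖ ^ 2 =
      (Nat.card H : ℝ)⁻¹ * ∑ h, ‖f h‖ ^ 2 := by
  rw [← H6.classInner_self_re, H6.parseval hf, Complex.re_sum]
  refine Finset.sum_congr rfl fun l _ => ?_
  rw [Complex.mul_conj, Complex.normSq_eq_norm_sq, Complex.ofReal_re]

theorem sum_norm_irr_sq {X : Type*} [Group X] [Finite X] (x : X) :
    ∑ χ : IrrCharacter X, ‖(χ : X → ℂ) x‖ ^ 2 =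
      Nat.card (Subgroup.centralizer ({x} : Set X)) := by
  have h := congrArg Complex.re (H6.column_orthogonality_self x)
  rw [Complex.re_sum, Complex.natCast_re] at h
  rw [← h]
  refine Finset.sum_congr rfl fun l _ => ?_
  rw [Complex.mul_conj, Complex.normSq_eq_norm_sq, Complex.ofReal_re]

/-- Galois conjugation of irreducible characters. -/
def galIrr {X : Type*} [Group X] (σ : ℂ ≃+* ℂ) : IrrCharacter X ≃ IrrCharacter X where
  toFun χ := ⟨fun g => σ (χ.1 g), H8.isIrrCharacter_ringEquiv_comp χ.2 σ⟩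
  invFun χ := ⟨fun g => σ.symm (χ.1 g), H8.isIrrCharacter_ringEquiv_comp χ.2 σ.symm⟩
  left_inv χ := Subtype.ext (funext fun g => by simp)
  right_inv χ := Subtype.ext (funext fun g => by simp)

theorem map_classInner {H : Type*} [Group H] [Fintype H] (σ : ℂ ≃+* ℂ) (f : H → ℂ) {l : H → ℂ}
    (hl : IsCharacter H l) :
    σ (classInner f l) = classInner (fun h => σ (f h)) (fun h => σ (l h)) := by
  rw [H6.classInner_def, H6.classInner_def, map_mul, map_inv₀, map_natCast, map_sum]
  congr 1
  refine Finset.sum_congr rfl fun h _ => ?_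
  rw [map_mul, ← H6.char_inv hl]
  exact congrArg _ (H6.char_inv (H8.isCharacter_ringHom_comp hl (σ : ℂ →+* ℂ)) h)

theorem card_centralizer_mul_le {X : Type*} [Group X] [Finite X] {V G : Subgroup X} [V.Normal]
    (hcomm : ∀ a ∈ V, ∀ b ∈ V, a * b = b * a) (hGV : Subgroup.IsComplement' V G)
    (hcop : (Nat.card V).Coprime (Nat.card G)) {v : X} (hv : v ∈ V) {H : Subgroup X}
    (hH : ∀ x, x ∈ H ↔ x ∈ G ∧ x * v = v * x) (h : H) :
    Nat.card (Subgroup.centralizer ({v * h} : Set X)) ≤
      Nat.card ↥(V ⊓ Subgroup.centralizer ({(h : X)} : Set X)) *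
        Nat.card (Subgroup.centralizer ({h} : Set H)) := by
  rw [← Nat.card_prod]
  have hc : Commute v (h : X) := ((hH h).1 h.2).2.symm
  have hhG := ((hH h).1 h.2).1
  have ho : (orderOf v).Coprime (orderOf (h : X)) :=
    (hcop.coprime_dvd_left (Subgroup.orderOf_dvd_natCard V hv)).coprime_dvd_right
      (Subgroup.orderOf_dvd_natCard G hhG)
  have key : ∀ x : Subgroup.centralizer ({v * h} : Set X),
      ∃ y : ↥(V ⊓ Subgroup.centralizer ({(h : X)} : Set X)) ×
        Subgroup.centralizer ({h} : Set H), (x : X) = y.1 * y.2 := by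
    rintro ⟨x, hx⟩
    have hx' := (H80.Cx_mul_of_coprime hc ho).le hx
    have h1 : x * v = v * x := Subgroup.mem_centralizer_singleton_iff.1 hx'.1
    have h2 : x * h = h * x := Subgroup.mem_centralizer_singleton_iff.1 hx'.2
    obtain ⟨⟨u, g⟩, rfl⟩ := (hGV.existsUnique x).exists
    simp only at h1 h2
    have h3 : (g : X) * v = v * g := by
      apply mul_left_cancel (a := (u : X))
      rw [← mul_assoc, h1, ← mul_assoc, ← mul_assoc, hcomm v hv u u.2]
    have h4 : ((⟨h * u * (h : X)⁻¹, Subgroup.Normal.conj_mem ‹_› _ u.2 _⟩ : V),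
        (⟨h * g * (h : X)⁻¹, G.mul_mem (G.mul_mem hhG g.2) (G.inv_mem hhG)⟩ : G)) = (u, g) := by
      apply hGV.1
      simp only
      calc (h : X) * u * (h : X)⁻¹ * (h * g * (h : X)⁻¹) = h * (u * g) * (h : X)⁻¹ := by group
        _ = u * g := by rw [← h2]; group
    have h5 : (h : X) * u * (h : X)⁻¹ = u := congrArg (fun y : V × G => (y.1 : X)) h4
    have h6 : (h : X) * g * (h : X)⁻¹ = g := congrArg (fun y : V × G => (y.2 : X)) h4
    refine ⟨(⟨u, u.2, Subgroup.mem_centralizer_singleton_iff.2 ?_⟩,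
      ⟨⟨g, (hH g).2 ⟨g.2, h3⟩⟩,
        Subgroup.mem_centralizer_singleton_iff.2 (Subtype.ext ?_)⟩), rfl⟩
    · exact (mul_inv_eq_iff_eq_mul.1 h5).symm
    · exact (mul_inv_eq_iff_eq_mul.1 h6).symm
  choose f hf using key
  exact Nat.card_le_card_of_injective f fun x y hxy => Subtype.ext (by rw [hf, hf, hxy])

/-- Knörr's criterion. -/
theorem knorr {X : Type*} [Group X] [Finite X] {p : ℕ} {M : Ideal AlgInt} [M.IsMaximal]
    (hM : IsPModular p M) {V G : Subgroup X} [V.Normal] (hVexp : ∀ v ∈ V, v ^ p = 1)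
    (hidx : ¬ p ∣ V.index) (hcomm : ∀ a ∈ V, ∀ b ∈ V, a * b = b * a)
    (hGV : Subgroup.IsComplement' V G) {v : X} (hv : v ∈ V) {H : Subgroup X}
    (hH : ∀ x, x ∈ H ↔ x ∈ G ∧ x * v = v * x) (η : H → ℂ) (hη : IC η) (h1 : H33.red M (η 1) ≠ 0)
    (h0 : ∀ h, h ≠ 1 → H33.red M (η h) = 0)
    (hb : ∀ (σ : ℂ ≃+* ℂ) h, ‖σ (η h)‖ ^ 2 *
      Nat.card ↥(V ⊓ Subgroup.centralizer ({(h : X)} : Set X)) ≤ Nat.card V) :
    Nat.card (ConjClasses X) ≤ Nat.card V := by
  classical
  haveI : Fact p.Prime := ⟨hM.1⟩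
  haveI := Fintype.ofFinite H
  have hG : Nat.card G = V.index := hGV.symm.index_eq_card.symm
  have hVp : IsPGroup p V := fun x => ⟨1, Subtype.ext (by simpa using hVexp x x.2)⟩
  have hcop : (Nat.card V).Coprime (Nat.card G) := by
    obtain ⟨k, hk⟩ := IsPGroup.iff_card.1 hVp
    rw [hk, hG]
    exact Nat.Coprime.pow_left _ ((Nat.Prime.coprime_iff_not_dvd hM.1).2 hidx)
  have hHp : ¬ p ∣ Nat.card H := fun h =>
    hidx (hG ▸ h.trans (Subgroup.card_dvd_of_le fun x hx => ((hH x).1 hx).1))
  have hχv : ∀ χ : IrrCharacter X, IC (fun h : H => χ.1 (v * h)) := fun χ => by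
    have hvK : v ∈ Subgroup.centralizer ({v} : Set X) :=
      Subgroup.mem_centralizer_singleton_iff.2 rfl
    have hz : (⟨v, hvK⟩ : Subgroup.centralizer ({v} : Set X)) ∈ Subgroup.center _ :=
      Subgroup.mem_center_iff.2 fun g =>
        Subtype.ext (Subgroup.mem_centralizer_singleton_iff.1 g.2)
    exact (IC.mul_center (H6.isCharacter_restrict _ (H6.irr_isCharacter χ.2)) hz).comp
      (Subgroup.inclusion (show H ≤ _ from fun x hx =>
        Subgroup.mem_centralizer_singleton_iff.2 ((hH x).1 hx).2))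
  let a : IrrCharacter X × IrrCharacter H → ℂ := fun x =>
    classInner (fun h : H => η h * x.1.1 (v * h)) x.2.1
  have hle := card_le_of_forall_ringEquiv a
    (fun x => (hη.mul (hχv x.1)).inner (H6.irr_isCharacter x.2.2)) ?_
    (B := Nat.card V * Nat.card (ConjClasses H)) ?_
  · rw [Fintype.card_prod, ← Nat.card_eq_fintype_card, ← Nat.card_eq_fintype_card,
      H6.card_irr_eq_card_conjClasses, H6.card_irr_eq_card_conjClasses] at hle
    have hpos : 0 < Nat.card (ConjClasses H) := Nat.card_pos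
    exact Nat.le_of_mul_le_mul_right (by exact_mod_cast hle) hpos
  · rintro ⟨χ, l⟩ h
    have hχ := H6.irr_isCharacter χ.2
    have hl := H6.irr_isCharacter l.2
    have hO : ∀ h : H, η h ∈ H33.O M := fun h => H33.mem_O_of_isIntegral M (hη.isIntegral h)
    have h2 : H33.red M ((Nat.card H : ℂ) * a (χ, l)) = 0 := by rw [h, mul_zero, H33.red_zero]
    simp only [a, H6.card_mul_classInner, ← H6.char_inv hl] at h2
    rw [H33.red_sum _ fun h _ => (H33.O M).mul_mem ((H33.O M).mul_mem (hO h)
      (H85.char_mem_O hχ _)) (H85.char_mem_O hl _), Finset.sum_eq_single 1] at h2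
    · obtain ⟨j, hj⟩ := IsPGroup.iff_orderOf.1 hVp ⟨v, hv⟩
      rw [← Subgroup.orderOf_coe] at hj
      rw [H33.red_mul ((H33.O M).mul_mem (hO _) (H85.char_mem_O hχ _)) (H85.char_mem_O hl _),
        H33.red_mul (hO _) (H85.char_mem_O hχ _), OneMemClass.coe_one, mul_one, inv_one,
        H85.red_char_pElt hM hχ hj, ← H87.deg_cast hl, H33.red_natCast] at h2
      rcases mul_eq_zero.1 h2 with h3 | h3
      · rcases mul_eq_zero.1 h3 with h4 | h4
        · exact h1 h4
        · exact hidx (((H33.natCast_F_eq_zero_iff hM _).1 h4).trans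
            (H87.deg_dvd_index_of_comm V hcomm χ.2))
      · exact hHp (((H33.natCast_F_eq_zero_iff hM _).1 h3).trans (H87.deg_dvd_card l.2))
    · intro h _ hne
      rw [H33.red_mul ((H33.O M).mul_mem (hO _) (H85.char_mem_O hχ _)) (H85.char_mem_O hl _),
        H33.red_mul (hO _) (H85.char_mem_O hχ _), h0 h hne, zero_mul, zero_mul]
    · simp
  · intro σ
    have e1 : ∀ x : IrrCharacter X × IrrCharacter H, σ (a x) =
        classInner (fun h : H => σ (η h) * (galIrr σ x.1).1 (v * h)) (galIrr σ x.2).1 := fun x => by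
      simp only [a, map_classInner σ _ (H6.irr_isCharacter x.2.2), map_mul]
      rfl
    simp only [e1]
    refine (Equiv.sum_comp ((galIrr σ).prodCongr (galIrr σ))
      (fun x : IrrCharacter X × IrrCharacter H =>
        ‖classInner (fun h : H => σ (η h) * x.1.1 (v * h)) x.2.1‖ ^ 2)).le.trans ?_
    rw [Fintype.sum_prod_type]
    have hc : ∀ χ : IrrCharacter X, IsClassFunction H (fun h : H => σ (η h) * χ.1 (v * h)) :=
      fun χ => H6.isClassFunction_iff_isConj.2 fun x y hxy => by
        rw [H6.classFun_of_isConj hη.classFun hxy,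
          H6.classFun_of_isConj (hχv χ).classFun hxy]
    simp only [fun χ => sum_norm_inner_sq (hc χ)]
    rw [← Finset.mul_sum, Finset.sum_comm]
    have hpos : (0 : ℝ) < Nat.card H := by exact_mod_cast Nat.card_pos
    rw [inv_mul_le_iff₀ hpos]
    have e2 := congrArg (Nat.cast : ℕ → ℝ) (H87.sum_card_centralizer (G := H))
    rw [Nat.cast_mul, Nat.cast_sum] at e2
    rw [mul_left_comm, ← e2, Finset.mul_sum]
    refine Finset.sum_le_sum fun h _ => ?_
    simp only [norm_mul, mul_pow]
    rw [← Finset.mul_sum, sum_norm_irr_sq]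
    have e3 := card_centralizer_mul_le hcomm hGV hcop hv hH h
    calc _ ≤ ‖σ (η h)‖ ^ 2 * (Nat.card ↥(V ⊓ Subgroup.centralizer ({(h : X)} : Set X)) *
          Nat.card (Subgroup.centralizer ({h} : Set H))) :=
          mul_le_mul_of_nonneg_left (by exact_mod_cast e3) (by positivity)
      _ ≤ _ := by
          rw [← mul_assoc]
          exact mul_le_mul_of_nonneg_right (hb σ h) (by positivity)

end H86
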