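import Mathlib
import Cfsg.Agent.Lib.Blk86.Knorr
import Cfsg.Agent.Lib.Core.CoprimeExt
import Cfsg.Agent.Lib.Core.Frobenius

/-!
Knörr functions: products, Gauss sums, abelian groups.
-/

set_option autoImplicit false
set_option linter.style.haveILetI false
set_option linter.unusedSectionVars false

open Cfsg
open scoped ComplexConjugate

attribute [local irreducible] H33.instFieldF

namespace H86

/-- There is an integral combination of characters, a unit at `1`, in the maximal ideal off `T`,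
with all conjugates of squared norm at most `r`. -/
def Kn (M : Ideal AlgInt) [M.IsMaximal] {H : Type*} [Group H] (T : H → Prop) (r : H → ℝ) : Prop :=
  ∃ η : H → ℂ, IC η ∧ H33.red M (η 1) ≠ 0 ∧ (∀ h, ¬ T h → H33.red M (η h) = 0) ∧
    ∀ (σ : ℂ ≃+* ℂ) h, ‖σ (η h)‖ ^ 2 ≤ r h

variable {M : Ideal AlgInt} [M.IsMaximal] {p : ℕ}

namespace Kn

variable {H : Type*} [Group H]

theorem mono {T T' : H → Prop} {r r' : H → ℝ} (h : Kn M T r) (hT : ∀ h, T h → T' h)
    (hr : ∀ h, r h ≤ r' h) : Kn M T' r' := by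
  obtain ⟨η, h1, h2, h3, h4⟩ := h
  exact ⟨η, h1, h2, fun h hh => h3 h fun ht => hh (hT h ht), fun σ h => (h4 σ h).trans (hr h)⟩

theorem one : Kn M (fun _ : H => True) (fun _ => 1) :=
  ⟨1, IC.one, by simp, by simp, by simp⟩

theorem mul [Finite H] {T T' : H → Prop} {r r' : H → ℝ} (h : Kn M T r) (h' : Kn M T' r') :
    Kn M (fun h => T h ∧ T' h) (fun h => r h * r' h) := by
  obtain ⟨η, h1, h2, h3, h4⟩ := h
  obtain ⟨η', h1', h2', h3', h4'⟩ := h'
  have e : ∀ h, H33.red M ((η * η') h) = H33.red M (η h) * H33.red M (η' h) := fun h =>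
    H33.red_mul (H33.mem_O_of_isIntegral M (h1.isIntegral h))
      (H33.mem_O_of_isIntegral M (h1'.isIntegral h))
  refine ⟨η * η', h1.mul h1', by rw [e]; exact mul_ne_zero h2 h2', fun h hh => ?_,
    fun σ h => ?_⟩
  · rw [e]
    rcases not_and_or.1 hh with h5 | h5
    · rw [h3 h h5, zero_mul]
    · rw [h3' h h5, mul_zero]
  · rw [Pi.mul_apply, map_mul, norm_mul, mul_pow]
    exact mul_le_mul (h4 σ h) (h4' σ h) (by positivity) ((sq_nonneg _).trans (h4 σ h))

theorem comp {K : Type*} [Group K] (φ : K →* H) {T : H → Prop} {r : H → ℝ} (h : Kn M T r) :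
    Kn M (fun k => T (φ k)) (fun k => r (φ k)) := by
  obtain ⟨η, h1, h2, h3, h4⟩ := h
  exact ⟨fun k => η (φ k), h1.comp φ, by simpa using h2, fun k => h3 _, fun σ k => h4 σ _⟩

end Kn

theorem norm_gaussSum_sq {F : Type*} [Field F] [Fintype F] {χ : MulChar F ℂ} (hχ : χ ≠ 1)
    {ψ : AddChar F ℂ} (hψ : ψ ≠ 1) : ‖gaussSum χ ψ‖ ^ 2 = Fintype.card F := by
  have h := gaussSum_mul_gaussSum_eq_card hχ (AddChar.IsPrimitive.of_ne_one hψ)
  rw [← star_gaussSum_eq, Complex.star_def, Complex.mul_conj, Complex.normSq_eq_norm_sq] at h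
  exact_mod_cast h

theorem addChar_pow_char {A : Type*} [AddCommGroup A] (ψ : AddChar A ℂ) {x : A} (hx : p • x = 0) :
    ψ x ^ p = 1 := by
  rw [← AddChar.map_nsmul_eq_pow, hx, AddChar.map_zero_eq_one]

open Classical in
theorem kn_mulChar (hM : IsPModular p M) (F : Type*) [Field F] [Fintype F] [CharP F p] :
    Kn M (fun χ : MulChar F ℂ => χ = 1) (fun χ => if χ = 1 then 1 else Fintype.card F) := by
  obtain ⟨ψ, hψ1⟩ := AddChar.exists_apply_ne_zero (α := F) (a := 1) |>.2 one_ne_zero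
  have hψ : ψ ≠ 1 := by rintro rfl; exact hψ1 rfl
  have hψp : ∀ x, ψ x ^ p = 1 := fun x => addChar_pow_char ψ (by simp)
  have hi : ∀ x, IsIntegral ℤ (ψ x) := fun x =>
    H33.isIntegral_of_pow_eq_one hM.1.ne_zero (hψp x)
  have hx : ∀ x : F, IC (fun χ : MulChar F ℂ => χ x) := fun x => by
    rcases eq_or_ne x 0 with rfl | h0
    · simp only [MulChar.map_zero]
      exact IC.zero
    · let l : MulChar F ℂ →* ℂ :=
        { toFun := fun χ => χ x
          map_one' := MulChar.one_apply h0.isUnit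
          map_mul' := fun _ _ => rfl }
      exact IC.of_char (H6.isCharacter_hom l.toHomUnits)
  refine ⟨fun χ => -gaussSum χ ψ, ?_, ?_, fun χ hχ => ?_, fun σ χ => ?_⟩
  · have h := (IC.sum Finset.univ fun x _ => (hx x).smul (hi x)).neg
    convert h using 1
    ext χ
    simp [gaussSum, mul_comm]
  · simp [gaussSum_one_left hψ]
  · have hO : ∀ x, χ x ∈ H33.O M := fun x => H33.mem_O_of_isIntegral M ((hx x).isIntegral χ)
    have h1 := congrArg (H33.red M) (MulChar.sum_eq_zero_of_ne_one hχ)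
    rw [H33.red_sum _ fun x _ => hO x, H33.red_zero] at h1
    rw [H33.red_neg, gaussSum, H33.red_sum _ fun x _ => (H33.O M).mul_mem (hO x)
      (H33.mem_O_of_isIntegral M (hi x)), neg_eq_zero, ← h1]
    refine Finset.sum_congr rfl fun x _ => ?_
    rw [H33.red_mul (hO x) (H33.mem_O_of_isIntegral M (hi x)),
      H33.red_eq_one_of_pow_prime_pow hM (k := 1) (ζ := ψ x) (by simpa using hψp x), mul_one]
  · beta_reduce
    split_ifs with h
    · simp [h, gaussSum_one_left hψ]
    · have e : σ (gaussSum χ ψ) = gaussSum (χ.ringHomComp (σ : ℂ →+* ℂ))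
          ((σ : ℂ →* ℂ).compAddChar ψ) := by
        simp [gaussSum]
      rw [map_neg, norm_neg, e, norm_gaussSum_sq
        ((MulChar.ringHomComp_ne_one_iff σ.injective).2 h)]
      intro h2
      have h3 := congrArg (fun c : AddChar F ℂ => c 1) h2
      exact hψ1 (by simpa using h3)

open Classical in
theorem kn_cyclic (hM : IsPModular p M) (C : Type*) [Group C] [Finite C] [IsCyclic C] {k : ℕ}
    (hk : k ≠ 0) (hC : Nat.card C ∣ p ^ k - 1) :
    Kn M (fun c : C => c = 1) (fun c => if c = 1 then 1 else (p ^ k : ℕ)) := by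
  haveI : Fact p.Prime := ⟨hM.1⟩
  haveI := Fintype.ofFinite (GaloisField p k)
  have hF : Fintype.card (GaloisField p k) = p ^ k := by
    rw [← Nat.card_eq_fintype_card, GaloisField.card p k hk]
  obtain ⟨χ, hχ⟩ := MulChar.exists_mulChar_orderOf (GaloisField p k) (hF ▸ hC)
    (Complex.isPrimitiveRoot_exp _ Nat.card_pos.ne')
  have e : C ≃* Subgroup.zpowers χ :=
    mulEquivOfCyclicCardEq (by rw [Nat.card_zpowers, hχ])
  have hinj : ∀ c, ((Subgroup.zpowers χ).subtype.comp e.toMonoidHom) c = 1 ↔ c = 1 := fun c => by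
    simp
  refine ((kn_mulChar hM (GaloisField p k)).comp
    ((Subgroup.zpowers χ).subtype.comp e.toMonoidHom)).mono (fun c => (hinj c).1) fun c => ?_
  simp only [hinj, hF, le_refl]

/-- Fixed points of an automorphism. -/
def AFx {W : Type*} [Group W] (f : MulAut W) : Subgroup W :=
  f.toMonoidHom.eqLocus (MonoidHom.id W)

theorem mem_AFx {W : Type*} [Group W] {f : MulAut W} {w : W} : w ∈ AFx f ↔ f w = w := Iff.rfl

theorem index_AFx_mul_le {A W : Type*} [Group A] [Group W] [Finite W] (φ : A →* MulAut W)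
    (N : Subgroup W) [N.Normal] (hN : ∀ a, ∀ x ∈ N, φ a x ∈ N) (a : A) :
    (AFx (H2.subAut φ N hN a)).index * (AFx (H2.quotAut φ N hN a)).index ≤ (AFx (φ a)).index := by
  have h1 : Nat.card (AFx (φ a)) ≤
      Nat.card (AFx (H2.subAut φ N hN a)) * Nat.card (AFx (H2.quotAut φ N hN a)) := by
    let f : AFx (φ a) →* W ⧸ N := (QuotientGroup.mk' N).comp (AFx (φ a)).subtype
    rw [← f.ker.card_mul_index, Subgroup.index_ker]
    refine Nat.mul_le_mul ?_ (Subgroup.card_le_of_le ?_)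
    · refine Nat.card_le_card_of_injective
        (fun x => ⟨⟨x.1.1, (QuotientGroup.eq_one_iff _).1 x.2⟩, Subtype.ext x.1.2⟩) ?_
      intro x y hxy
      exact Subtype.ext (Subtype.ext (congrArg (fun z : AFx (H2.subAut φ N hN a) => z.1.1) hxy))
    · rintro _ ⟨x, rfl⟩
      exact (H2.quotAut_mk φ N hN a x.1).trans (congrArg _ x.2)
  have h2 := (AFx (φ a)).card_mul_index
  have h3 := (AFx (H2.subAut φ N hN a)).card_mul_index
  have h4 := (AFx (H2.quotAut φ N hN a)).card_mul_index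
  have h5 := N.card_mul_index
  rw [Subgroup.index_eq_card N, ← h3, ← h4, ← h2] at h5
  refine Nat.le_of_mul_le_mul_left ?_ (Nat.card_pos (α := AFx (φ a)))
  rw [← h5]
  calc _ ≤ Nat.card (AFx (H2.subAut φ N hN a)) * Nat.card (AFx (H2.quotAut φ N hN a)) *
        ((AFx (H2.subAut φ N hN a)).index * (AFx (H2.quotAut φ N hN a)).index) :=
        Nat.mul_le_mul_right _ h1
    _ = _ := by ring

/-- The Knörr condition for an action. -/
def KnA (M : Ideal AlgInt) [M.IsMaximal] {A W : Type*} [Group A] [Group W]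
    (φ : A →* MulAut W) : Prop :=
  Kn M (fun a => φ a = 1) (fun a => (AFx (φ a)).index)

theorem KnA.of_sub_quot {A W : Type*} [Group A] [Finite A] [Group W] [Finite W]
    (φ : A →* MulAut W) (hcop : (Nat.card A).Coprime (Nat.card W))
    (N : Subgroup W) [N.Normal] (hN : ∀ a, ∀ x ∈ N, φ a x ∈ N)
    (h1 : KnA M (H2.subAut φ N hN)) (h2 : KnA M (H2.quotAut φ N hN)) : KnA M φ := by
  refine (Kn.mul h1 h2).mono (fun a ha => ?_) fun a => by exact_mod_cast index_AFx_mul_le φ N hN a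
  have hs : ∀ b ∈ Subgroup.zpowers a, H2.subAut φ N hN b = 1 ∧ H2.quotAut φ N hN b = 1 := by
    rintro _ ⟨k, rfl⟩
    simp [ha.1, ha.2]
  have h3 : (⊤ : Subgroup W) ≤ H2.fixSub φ (Subgroup.zpowers a) := by
    refine H2.ext_le_fixSub_of_stable (N := N) (H2.coprime_subgroups hcop) (fun b hb x _ => ?_)
      fun x hx b hb => ?_
    · rw [← QuotientGroup.eq, ← H2.quotAut_mk φ N hN, (hs b hb).2]
      rfl
    · rw [← H2.coe_subAut_apply φ N hN b ⟨x, hx⟩, (hs b hb).1]
      rfl
  ext x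
  exact h3 (Subgroup.mem_top x) a (Subgroup.mem_zpowers a)

universe u

theorem knA_of_comm (hM : IsPModular p M) {A : Type*} [Group A] [Finite A] [IsMulCommutative A]
    (hA : ¬ p ∣ Nat.card A) (n : ℕ) : ∀ {W : Type u} [CommGroup W] [Finite W], Nat.card W = n →
      IsPGroup p W → ∀ φ : A →* MulAut W, KnA M φ := by
  classical
  haveI : Fact p.Prime := ⟨hM.1⟩
  induction n using Nat.strong_induction_on with
  | _ n ih =>
  intro W _ _ hn hW φ
  obtain ⟨k, hk⟩ := IsPGroup.iff_card.1 hW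
  have hcop : (Nat.card A).Coprime (Nat.card W) := by
    rw [hk]
    exact Nat.Coprime.pow_right _ ((Nat.Prime.coprime_iff_not_dvd hM.1).2 hA).symm
  by_cases hN : ∃ N : Subgroup W, N ≠ ⊥ ∧ N ≠ ⊤ ∧ ∀ a, ∀ x ∈ N, φ a x ∈ N
  · obtain ⟨N, h1, h2, hN⟩ := hN
    have h3 := N.card_mul_index
    have h4 := (Subgroup.one_lt_card_iff_ne_bot N).2 h1
    have h5 := Subgroup.one_lt_index_of_ne_top h2
    refine KnA.of_sub_quot φ hcop N hN (ih _ ?_ rfl (hW.to_subgroup N) _)
      (ih _ ?_ rfl (hW.to_quotient N) _)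
    · rw [← hn, ← h3]; nlinarith
    · rw [← hn, ← h3, ← Subgroup.index_eq_card]; nlinarith
  rcases subsingleton_or_nontrivial W with hW1 | hW1
  · refine Kn.one.mono (fun a _ => by ext x; exact Subsingleton.elim _ _) fun a => ?_
    exact_mod_cast Nat.pos_of_ne_zero Subgroup.FiniteIndex.index_ne_zero
  have hk0 : k ≠ 0 := by
    rintro rfl
    exact (Finite.one_lt_card (α := W)).ne' (by simpa using hk)
  have hF : ∀ a, φ a ≠ 1 → AFx (φ a) = ⊥ := fun a ha => by
    by_contra h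
    refine hN ⟨AFx (φ a), h, fun ht => ha ?_, fun b x hx => ?_⟩
    · ext x
      exact mem_AFx.1 (ht ▸ Subgroup.mem_top x)
    · rw [mem_AFx, ← MulAut.mul_apply, ← map_mul, mul_comm' a b, map_mul, MulAut.mul_apply,
        mem_AFx.1 hx]
  have hfpf : ∀ c : φ.range, c ≠ 1 → ∀ w, φ.range.subtype c w = w → w = 1 := by
    rintro ⟨_, a, rfl⟩ hc w hw
    exact Subgroup.mem_bot.1 (hF a (fun h => hc (Subtype.ext h)) ▸ mem_AFx.2 hw)
  haveI : IsMulCommutative φ.range := ⟨⟨by
    rintro ⟨_, a, rfl⟩ ⟨_, b, rfl⟩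
    exact Subtype.ext (by simp only [Subgroup.coe_mul, ← map_mul, mul_comm' a b])⟩⟩
  haveI := H2.isCyclic_of_fpf_of_comm φ.range.subtype hfpf
  have hd := H2.card_modEq_one_of_fpf φ.range.subtype hfpf
  rw [hk] at hd
  have hd' := (Nat.modEq_iff_dvd' (Nat.one_le_pow _ _ hM.1.pos)).1 hd.symm
  refine ((kn_cyclic hM φ.range hk0 hd').comp φ.rangeRestrict).mono
    (fun a ha => congrArg Subtype.val ha) fun a => ?_
  split_ifs with h
  · exact_mod_cast Nat.pos_of_ne_zero Subgroup.FiniteIndex.index_ne_zero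
  · rw [hF a fun h' => h (Subtype.ext h'), Subgroup.index_bot, hk]

/-- Knörr's criterion through a faithful invariant subgroup. -/
theorem knorr_of_knA {X : Type*} [Group X] [Finite X] (hM : IsPModular p M) {V G : Subgroup X}
    [V.Normal] (hVexp : ∀ v ∈ V, v ^ p = 1) (hidx : ¬ p ∣ V.index)
    (hcomm : ∀ a ∈ V, ∀ b ∈ V, a * b = b * a) (hGV : Subgroup.IsComplement' V G) {v : X}
    (hv : v ∈ V) {H : Subgroup X} (hH : ∀ x, x ∈ H ↔ x ∈ G ∧ x * v = v * x) {U : Subgroup X}
    (hUV : U ≤ V) (hU : H ≤ Subgroup.normalizer (U : Set X))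
    (hf : ∀ h, H2.conjAut hU h = 1 → h = 1) (hK : KnA M (H2.conjAut hU)) :
    Nat.card (ConjClasses X) ≤ Nat.card V := by
  obtain ⟨η, h1, h2, h3, h4⟩ := hK
  refine knorr hM hVexp hidx hcomm hGV hv hH η h1 h2 (fun h hh => h3 h fun h' => hh (hf h h'))
    fun σ h => (mul_le_mul_of_nonneg_right (h4 σ h) (by positivity)).trans ?_
  have e : AFx (H2.conjAut hU h) = (Subgroup.centralizer ({(h : X)} : Set X)).subgroupOf U := by
    ext u
    rw [mem_AFx, Subgroup.mem_subgroupOf, Subgroup.mem_centralizer_singleton_iff, Subtype.ext_iff,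
      H2.coe_conjAut_apply, mul_inv_eq_iff_eq_mul, eq_comm]
  have h5 : (Subgroup.centralizer ({(h : X)} : Set X)).relIndex U ≤
      (Subgroup.centralizer ({(h : X)} : Set X)).relIndex V :=
    Subgroup.relIndex_le_of_le_right hUV Subgroup.FiniteIndex.index_ne_zero
  have h6 := ((Subgroup.centralizer ({(h : X)} : Set X)).subgroupOf V).card_mul_index
  rw [← Subgroup.inf_subgroupOf_left, Nat.card_congr (Subgroup.subgroupOfEquivOfLe
    inf_le_left).toEquiv, Subgroup.inf_subgroupOf_left] at h6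
  simp only [e]
  rw [← h6, mul_comm]
  exact_mod_cast Nat.mul_le_mul_left _ h5

end H86
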