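import Mathlib
import Cfsg.Agent.Lib.Blk86.Knorr2
import Cfsg.Agent.Lib.Glaub.Cyclic
import Cfsg.Agent.Lib.Char.Berger
import Cfsg.Agent.Lib.Char.ExtMain

/-!
Square roots of the fixed point character: extensions of fully ramified characters.
-/

set_option autoImplicit false
set_option linter.style.haveILetI false
set_option linter.unusedSectionVars false

open Cfsg
open scoped ComplexConjugate

attribute [local irreducible] H33.instFieldF

namespace H86

section cen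

variable {K Z : Type*} [Group K] [Group Z] [Finite Z]

theorem mul_conj_hom (ζ : Z →* ℂ) (z : Z) : ζ z * conj (ζ z) = 1 := by
  have h : ζ z ^ Nat.card Z = 1 := by rw [← map_pow, pow_card_eq_one', map_one]
  rw [Complex.mul_conj, Complex.normSq_eq_norm_sq,
    Complex.norm_eq_one_of_pow_eq_one h Nat.card_pos.ne']
  simp

/-- Class functions transforming by `ζ` under the central subgroup `i Z`. -/
structure CenF (i : Z →* K) (ζ : Z →* ℂ) (f : K → ℂ) : Prop where
  cf : IsClassFunction K f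
  mul : ∀ z x, f (i z * x) = ζ z * f x

/-- Full ramification condition. -/
def Ram (i : Z →* K) (ζ : Z →* ℂ) : Prop :=
  ∀ x, x ∉ i.range → ∃ y z, y * x * y⁻¹ = i z * x ∧ ζ z ≠ 1

variable {i : Z →* K} {ζ : Z →* ℂ} {f g : K → ℂ}

theorem CenF.vanish (hf : CenF i ζ f) (hr : Ram i ζ) {x : K} (hx : x ∉ i.range) : f x = 0 := by
  obtain ⟨y, z, h1, h2⟩ := hr x hx
  have h3 := hf.cf x y
  rw [h1, hf.mul] at h3
  exact (mul_left_eq_self₀.1 h3).resolve_left h2

theorem CenF.sum [Fintype K] (hf : CenF i ζ f) (hg : CenF i ζ g) (hr : Ram i ζ)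
    (hi : Function.Injective i) :
    ∑ x, f x * conj (g x) = Nat.card Z * (f 1 * conj (g 1)) := by
  classical
  haveI := Fintype.ofFinite Z
  rw [← Finset.sum_subset (Finset.subset_univ (Finset.univ.image i)) fun x _ hx => by
    rw [hf.vanish hr (by simpa using hx), zero_mul], Finset.sum_image fun a _ b _ h => hi h,
    Nat.card_eq_fintype_card, ← Finset.card_univ, ← nsmul_eq_mul, ← Finset.sum_const]
  refine Finset.sum_congr rfl fun z _ => ?_
  rw [← mul_one (i z), hf.mul, hg.mul, map_mul]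
  linear_combination (f 1 * conj (g 1)) * mul_conj_hom ζ z

theorem CenF.exists_irr [Finite K] (hf : CenF i ζ f) (h0 : f ≠ 0)
    (hc : ∀ z, i z ∈ Subgroup.center K) : ∃ χ, IsIrrCharacter K χ ∧ CenF i ζ χ := by
  haveI := Fintype.ofFinite K
  obtain ⟨χ, hχ, h⟩ := H6.exists_irr_inner_ne_zero hf.cf h0
  refine ⟨χ, hχ, H6.irr_isClassFunction hχ, fun z => ?_⟩
  obtain ⟨ω, hω⟩ := H87.exists_mul_of_mem_center hχ (hc z)
  have h1 : ∑ x, f x * conj (χ x) ≠ 0 := by
    rw [← H6.card_mul_classInner]; exact mul_ne_zero H6.card_ne_zero h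
  have h2 : ∑ x, f x * conj (χ x) = ζ z * conj ω * ∑ x, f x * conj (χ x) := by
    conv_lhs => rw [← Equiv.sum_comp (Equiv.mulLeft (i z))]
    rw [Finset.mul_sum]
    refine Finset.sum_congr rfl fun x _ => ?_
    rw [Equiv.coe_mulLeft, hf.mul, hω, map_mul]; ring
  have h3 : ζ z * conj ω = 1 := (mul_left_eq_self₀.1 h2.symm).resolve_right h1
  have h4 : ω = ζ z := by
    have h5 := mul_conj_hom ζ z
    have h6 : ζ z ≠ 0 := left_ne_zero_of_mul_eq_one h5
    exact star_injective (mul_left_cancel₀ h6 (h3.trans h5.symm))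
  rw [← h4]; exact hω

end cen

section weil

variable {Γ Z : Type*} [Group Γ] [Finite Γ] [Group Z] [Finite Z] {E : Subgroup Γ} [E.Normal]
  {i : Z →* Γ}

theorem cen_coset (hE : ∀ z, i z ∈ E) (hc : ∀ z, i z ∈ Subgroup.center Γ) {ζ : Z →* ℂ}
    {Θ : Γ → ℂ} (hΘ : CenF i ζ Θ) (y : Γ) :
    CenF (i.codRestrict (E ⊓ Subgroup.centralizer {y}) fun z => ⟨hE z,
      Subgroup.center_le_centralizer _ (hc z)⟩) ζ (fun d => Θ (y * d)) := by
  refine ⟨fun d t => ?_, fun z d => ?_⟩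
  · have h1 : (t : Γ) * y = y * t := Subgroup.mem_centralizer_singleton_iff.1 t.2.2
    rw [← hΘ.cf (y * d) t]
    congr 1
    simp only [Subgroup.coe_mul, Subgroup.coe_inv, ← mul_assoc, h1]
  · rw [← hΘ.mul]
    congr 1
    change y * (i z * d) = _
    rw [← mul_assoc, Subgroup.mem_center_iff.1 (hc z) y, mul_assoc]

theorem ram_coset (hE : ∀ z, i z ∈ E) (hc : ∀ z, i z ∈ Subgroup.center Γ) {ζ : Z →* ℂ} {y : Γ}
    (hr : ∀ d ∈ E, d * y = y * d → d ∉ i.range →
      ∃ t ∈ E, t * y = y * t ∧ ∃ z, t * d * t⁻¹ = i z * d ∧ ζ z ≠ 1) :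
    Ram (i.codRestrict (E ⊓ Subgroup.centralizer {y}) fun z => ⟨hE z,
      Subgroup.center_le_centralizer _ (hc z)⟩) ζ := by
  intro d hd
  obtain ⟨t, ht, h1, z, h2, h3⟩ := hr d d.2.1 (Subgroup.mem_centralizer_singleton_iff.1 d.2.2)
    fun ⟨z, hz⟩ => hd ⟨z, Subtype.ext hz⟩
  exact ⟨⟨t, ht, Subgroup.mem_centralizer_singleton_iff.2 h1⟩, z, Subtype.ext h2, h3⟩

theorem norm_sq_coset (hi : Function.Injective i) (hE : ∀ z, i z ∈ E)
    (hc : ∀ z, i z ∈ Subgroup.center Γ) {ζ : Z →* ℂ} {Θ : Γ → ℂ} (hΘ : CenF i ζ Θ)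
    (h1 : IsIrrCharacter Γ Θ) (h2 : IsIrrCharacter E fun e : E => Θ e) {y : Γ}
    (hcop : (Nat.card E).Coprime (orderOf y))
    (hr : ∀ d ∈ E, d * y = y * d → d ∉ i.range →
      ∃ t ∈ E, t * y = y * t ∧ ∃ z, t * d * t⁻¹ = i z * d ∧ ζ z ≠ 1) :
    Nat.card Z * (Θ y * conj (Θ y)) = Nat.card ↥(E ⊓ Subgroup.centralizer {y}) := by
  haveI := Fintype.ofFinite E
  haveI := Fintype.ofFinite ↥(E ⊓ Subgroup.centralizer {y})
  have h3 := H88.avg_coset_eq E (E ⊓ Subgroup.centralizer {y}) inf_le_left (y := y)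
    (fun g hg => Subgroup.Normal.conj_mem ‹_› g hg y)
    (fun g hg d hd d' hd' h => ⟨hg, Subgroup.mem_centralizer_singleton_iff.2
      (H88.mem_of_conj_coset hcop hd.1 hd'.1 (Subgroup.mem_centralizer_singleton_iff.1 hd.2)
        (Subgroup.mem_centralizer_singleton_iff.1 hd'.2) h)⟩)
    (fun x => Θ x * conj (Θ x)) fun g _ x => by simp only [hΘ.cf x g]
  rw [H31.sum_coset_mul_conj E h1 h2, inv_mul_cancel₀ H6.card_ne_zero,
    inv_mul_eq_iff_eq_mul₀ H6.card_ne_zero, mul_one] at h3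
  have h4 := (cen_coset hE hc hΘ y).sum (cen_coset hE hc hΘ y) (ram_coset hE hc hr)
    fun a b h => hi (congrArg Subtype.val h)
  simp only [OneMemClass.coe_one, mul_one] at h4
  rw [← h4, ← h3]
  exact Finset.sum_congr rfl fun d _ => by rw [H6.classFun_mul_comm hΘ.cf]

theorem sq_coset (hi : Function.Injective i) (hE : ∀ z, i z ∈ E)
    (hc : ∀ z, i z ∈ Subgroup.center Γ) {ζ : Z →* ℂ} {Θ : Γ → ℂ} (hΘ : CenF i ζ Θ)
    (h1 : IsCharacter Γ Θ) {y : Γ}
    (hr : ∀ d ∈ E, d * y = y * d → d ∉ i.range →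
      ∃ t ∈ E, t * y = y * t ∧ ∃ z, t * d * t⁻¹ = i z * d ∧ ζ z ≠ 1) :
    ∃ a, IsIntegral ℤ a ∧
      Nat.card Z * Θ y ^ 2 = a * Nat.card ↥(E ⊓ Subgroup.centralizer {y}) := by
  by_cases h0 : Θ y = 0
  · exact ⟨0, isIntegral_zero, by simp [h0]⟩
  haveI := Fintype.ofFinite ↥(E ⊓ Subgroup.centralizer {y})
  have hf := cen_coset hE hc hΘ y
  have hinj : Function.Injective (i.codRestrict (E ⊓ Subgroup.centralizer {y}) fun z => ⟨hE z,
      Subgroup.center_le_centralizer _ (hc z)⟩) := fun a b h => hi (congrArg Subtype.val h)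
  obtain ⟨χ, hχ, hχ'⟩ := hf.exists_irr (fun h => h0 (by simpa using congrFun h 1)) fun z =>
    Subgroup.mem_center_iff.2 fun g => Subtype.ext (Subgroup.mem_center_iff.1 (hc z) g)
  have hyK : y ∈ Subgroup.centralizer ({y} : Set Γ) := Subgroup.mem_centralizer_singleton_iff.2 rfl
  have hI : IC (fun d : ↥(E ⊓ Subgroup.centralizer {y}) => Θ (y * d)) :=
    (IC.mul_center (H6.isCharacter_restrict _ h1) (z := ⟨y, hyK⟩)
      (Subgroup.mem_center_iff.2 fun g =>
        Subtype.ext (Subgroup.mem_centralizer_singleton_iff.1 g.2))).comp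
      (Subgroup.inclusion inf_le_right)
  have h3 := hf.sum hχ' (ram_coset hE hc hr) hinj
  have h4 := hχ'.sum hχ' (ram_coset hE hc hr) hinj
  rw [← H6.card_mul_classInner, H87.conj_one (H6.irr_isCharacter hχ)] at h3 h4
  rw [H6.irr_inner_self hχ, mul_one] at h4
  simp only [OneMemClass.coe_one, mul_one] at h3
  refine ⟨_, (hI.inner (H6.irr_isCharacter hχ)).pow 2, ?_⟩
  apply mul_left_cancel₀ (H6.card_ne_zero (G := ↥(E ⊓ Subgroup.centralizer {y})))
  linear_combination (-(Nat.card ↥(E ⊓ Subgroup.centralizer {y}) : ℂ) *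
    classInner (fun d : ↥(E ⊓ Subgroup.centralizer {y}) => Θ (y * d)) χ -
      Nat.card Z * (Θ y * χ 1)) * h3 + (Nat.card Z * Θ y ^ 2) * h4

open Classical in
theorem exists_weil (hi : Function.Injective i) (hE : ∀ z, i z ∈ E)
    (hc : ∀ z, i z ∈ Subgroup.center Γ) (ζ : Z →* ℂ) (hcop : E.index.Coprime (Nat.card E))
    (hr : ∀ d ∈ E, d ∉ i.range → ∃ t ∈ E, ∃ z, t * d * t⁻¹ = i z * d ∧ ζ z ≠ 1) :
    ∃ Θ : Γ → ℂ, CenF i ζ Θ ∧ IsIrrCharacter Γ Θ ∧ IsIrrCharacter E fun e : E => Θ e := by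
  let j : Z →* E := i.codRestrict E hE
  have hj : Function.Injective j := fun a b h => hi (congrArg Subtype.val h)
  have hjc : ∀ z, j z ∈ Subgroup.center E := fun z =>
    Subgroup.mem_center_iff.2 fun g => Subtype.ext (Subgroup.mem_center_iff.1 (hc z) g)
  have hR : Ram j ζ := fun d hd => by
    obtain ⟨t, ht, z, h2, h3⟩ := hr d d.2 fun ⟨z, hz⟩ => hd ⟨z, Subtype.ext hz⟩
    exact ⟨⟨t, ht⟩, z, Subtype.ext h2, h3⟩
  let r : E → ℂ := Function.extend j ζ 0
  have hr1 : ∀ z, r (j z) = ζ z := fun z => hj.extend_apply _ _ z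
  have hr2 : ∀ x, x ∉ j.range → r x = 0 := fun x hx => Function.extend_apply' _ _ _ hx
  have hrc : CenF j ζ r := by
    refine ⟨fun x t => ?_, fun z x => ?_⟩
    · by_cases hx : x ∈ j.range
      · obtain ⟨z, rfl⟩ := hx
        rw [Subgroup.mem_center_iff.1 (hjc z) t, mul_inv_cancel_right]
      · rw [hr2 x hx, hr2]
        rintro ⟨z, hz⟩
        refine hx ⟨z, ?_⟩
        rw [← mul_inv_cancel_right (j z) t⁻¹, ← Subgroup.mem_center_iff.1 (hjc z), hz]
        group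
    · by_cases hx : x ∈ j.range
      · obtain ⟨w, rfl⟩ := hx
        rw [← map_mul, hr1, hr1, map_mul]
      · rw [hr2 x hx, hr2, mul_zero]
        exact fun h => hx ((mul_mem_cancel_left (show j z ∈ j.range from ⟨z, rfl⟩)).1 h)
  obtain ⟨θ, hθ, hθ'⟩ := hrc.exists_irr (fun h => by simpa [h] using hr1 1) hjc
  obtain ⟨Θ, h1, h2⟩ := H31.extends_of_coprime E hcop hθ fun g n => by
    by_cases hn : n ∈ j.range
    · obtain ⟨z, rfl⟩ := hn
      congr 1
      exact Subtype.ext (by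
        simp only [j, MonoidHom.codRestrict_apply, Subgroup.mem_center_iff.1 (hc z) g,
          mul_inv_cancel_right])
    · rw [hθ'.vanish hR hn, hθ'.vanish hR]
      rintro ⟨z, hz⟩
      refine hn ⟨z, Subtype.ext ?_⟩
      have h3 : i z = g * n * g⁻¹ := congrArg Subtype.val hz
      change i z = n
      rw [← mul_inv_cancel_right (i z) g⁻¹, ← Subgroup.mem_center_iff.1 (hc z), h3]
      group
  refine ⟨Θ, ⟨H6.irr_isClassFunction h1, fun z => ?_⟩, h1, by simpa only [h2] using hθ⟩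
  obtain ⟨ω, hω⟩ := H87.exists_mul_of_mem_center h1 (hc z)
  have h3 := hω 1
  have h4 := hθ'.mul z 1
  rw [← h2, ← h2] at h4
  have h5 : ω = ζ z := mul_right_cancel₀ (H6.irr_one_ne_zero h1) (h3.symm.trans h4)
  rw [← h5]; exact hω

end weil

end H86
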