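import Mathlib
import Cfsg.Agent.Lib.Blk86.Knorr3
import Cfsg.Agent.S4966

/-!
Knörr functions for self-dual modules.
-/

set_option autoImplicit false
set_option linter.style.haveILetI false
set_option linter.unusedSectionVars false

open Cfsg
open scoped ComplexConjugate

attribute [local irreducible] H33.instFieldF

namespace H86

variable {M : Ideal AlgInt} [M.IsMaximal] {p : ℕ}

theorem isIntegral_conj {a : ℂ} (h : IsIntegral ℤ a) : IsIntegral ℤ (conj a) :=
  h.map (starRingEnd ℂ).toIntAlgHom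

theorem IC.exists_inv {H : Type*} [Group H] [Finite H] {f : H → ℂ} (hf : IC f)
    (h : ∀ x, ∃ (g : ℂ) (k : ℕ), IsIntegral ℤ g ∧ f x * g = p ^ k) :
    ∃ (F : H → ℂ) (N : ℕ), IC F ∧ ∀ x, F x * f x = p ^ N := by
  classical
  haveI := Fintype.ofFinite H
  suffices key : ∀ s : Finset H, ∃ (F : H → ℂ) (N : ℕ), IC F ∧ ∀ x ∈ s, F x * f x = p ^ N by
    obtain ⟨F, N, h1, h2⟩ := key Finset.univ
    exact ⟨F, N, h1, fun x => h2 x (Finset.mem_univ x)⟩
  intro s
  induction s using Finset.induction_on with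
  | empty => exact ⟨0, 0, IC.zero, by simp⟩
  | insert x s _ ih =>
    obtain ⟨F, N, h1, h2⟩ := ih
    obtain ⟨g, k, h3, h4⟩ := h x
    have hp : ∀ j : ℕ, IsIntegral ℤ ((p : ℂ) ^ j) := fun j => (isIntegral_natCast p).pow j
    refine ⟨_, N + k, ((h1.smul (hp k)).add (IC.const ((hp N).mul h3))).add
      ((h1.mul hf).smul h3).neg, fun y hy => ?_⟩
    simp only [Pi.add_apply, Pi.smul_apply, Pi.neg_apply, Pi.mul_apply, smul_eq_mul, pow_add]
    rcases Finset.mem_insert.1 hy with rfl | hy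
    · linear_combination ((p : ℂ) ^ N - F y * f y) * h4
    · linear_combination ((p : ℂ) ^ k - g * f y) * h2 y hy

theorem kn_of_sq (hM : IsPModular p M) {H : Type*} [Group H] [Finite H] (hH : ¬ p ∣ Nat.card H)
    (c : H → ℕ) {m : ℕ} (hc : ∀ h, c h ∣ p ^ m) (hc1 : c 1 = p ^ m) {ω : H → ℂ} (hω : IC ω)
    (h1 : ∀ (σ : ℂ ≃+* ℂ) h, ‖σ (ω h)‖ ^ 2 = c h)
    (h2 : ∀ h, ∃ a, IsIntegral ℤ a ∧ ω h ^ 2 = a * c h) :
    Kn M (fun h => c h = p ^ m) (fun h => (p ^ m : ℕ) / c h) := by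
  have hp := hM.1
  have hc0 : ∀ h, (c h : ℂ) ≠ 0 := fun h =>
    Nat.cast_ne_zero.2 (ne_zero_of_dvd_ne_zero (pow_ne_zero _ hp.ne_zero) (hc h))
  have e1 : ∀ h, ω h * conj (ω h) = c h := fun h => by
    rw [Complex.mul_conj, Complex.normSq_eq_norm_sq]
    exact_mod_cast h1 (RingEquiv.refl ℂ) h
  have hω0 : ∀ h, ω h ≠ 0 := fun h => left_ne_zero_of_mul (e1 h ▸ hc0 h)
  have e2 : ∀ h, ∃ b, IsIntegral ℤ b ∧ ∀ j : ℕ, p ^ m = c h * j → (ω 1 / ω h) ^ 2 = b * j := by
    intro h
    obtain ⟨a, ha, ha'⟩ := h2 h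
    obtain ⟨a1, ha1, ha1'⟩ := h2 1
    refine ⟨a1 * conj a, ha1.mul (isIntegral_conj ha), fun j hj => ?_⟩
    have e3 : a * conj a = 1 := by
      have e4 := congrArg (fun z => conj z) ha'
      simp only [map_pow, map_mul, Complex.conj_natCast] at e4
      apply mul_right_cancel₀ (pow_ne_zero 2 (hc0 h))
      linear_combination (ω h * conj (ω h) + c h) * e1 h - conj (ω h) ^ 2 * ha' - a * c h * e4
    rw [div_pow, div_eq_iff (pow_ne_zero _ (hω0 h)), ha', ha1', hc1, hj, Nat.cast_mul]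
    linear_combination (-(a1 * c h * j)) * e3
  have hi : ∀ h, IsIntegral ℤ (ω 1 / ω h) := fun h => by
    obtain ⟨b, hb, hb'⟩ := e2 h
    obtain ⟨j, hj⟩ := hc h
    exact IsIntegral.of_pow two_pos (hb' j hj ▸ hb.mul (isIntegral_natCast j))
  refine ⟨fun h => ω 1 / ω h, ?_, by simp [hω0], fun h hh => ?_, fun σ h => ?_⟩
  · obtain ⟨F, N, hF, hF'⟩ := hω.exists_inv (p := p) fun h => by
      obtain ⟨k, -, hk⟩ := (Nat.dvd_prime_pow hp).1 (hc h)
      exact ⟨_, k, isIntegral_conj (hω.isIntegral h), by rw [e1, hk, Nat.cast_pow]⟩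
    refine IC.of_smul hi (n := p ^ N)
      (Nat.Coprime.pow_left _ ((Nat.Prime.coprime_iff_not_dvd hp).2 hH)) ?_
    convert hF.smul (hω.isIntegral 1) using 1
    ext h
    simp only [Pi.smul_apply, smul_eq_mul, Nat.cast_pow, ← hF' h]
    field_simp [hω0 h]
  · obtain ⟨b, hb, hb'⟩ := e2 h
    obtain ⟨j, hj⟩ := hc h
    have hj' : p ∣ j := by
      obtain ⟨k, -, hk⟩ := (Nat.dvd_prime_pow hp).1 (Dvd.intro_left _ hj.symm)
      rcases k with _ | k
      · exact absurd (by rw [hj, hk, pow_zero, mul_one]) hh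
      · exact hk ▸ dvd_pow_self p k.succ_ne_zero
    apply pow_eq_zero_iff (two_ne_zero) |>.1
    rw [← H33.red_pow (H33.mem_O_of_isIntegral M (hi h)), hb' j hj, H33.red_mul
      (H33.mem_O_of_isIntegral M hb) (natCast_mem _ j), (H33.red_natCast_eq_zero_iff hM j).2 hj',
      mul_zero]
  · rw [map_div₀, norm_div, div_pow, h1, h1, hc1]

theorem exists_fix_add {F U : Type*} [Field F] [AddCommGroup U] [Module F U] (T : Module.End F U)
    {n : ℕ} (hn : (n : F) ≠ 0) (hT : T ^ n = 1) (u : U) :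
    ∃ c w, T c = c ∧ u = c + (T w - w) := by
  have h1 : ∀ i : ℕ, ∃ w, (T ^ i) u = u + (T w - w) := fun i => by
    induction i with
    | zero => exact ⟨0, by simp⟩
    | succ i ih =>
      obtain ⟨w, hw⟩ := ih
      refine ⟨w + (T ^ i) u, ?_⟩
      rw [pow_succ', Module.End.mul_apply, map_add]
      linear_combination (norm := module) hw
  choose w hw using h1
  refine ⟨(n : F)⁻¹ • ∑ i ∈ Finset.range n, (T ^ i) u,
    -((n : F)⁻¹ • ∑ i ∈ Finset.range n, w i), ?_, ?_⟩
  · rw [map_smul, map_sum]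
    congr 1
    have h2 := Finset.sum_range_succ' (fun i => (T ^ i) u) n
    rw [Finset.sum_range_succ, hT] at h2
    simp only [pow_succ', Module.End.mul_apply, pow_zero] at h2
    exact (add_right_cancel h2).symm
  · simp only [hw, Finset.sum_add_distrib, Finset.sum_sub_distrib, Finset.sum_const,
      Finset.card_range, map_neg, map_smul, map_sum, smul_add, smul_sub,
      ← Nat.cast_smul_eq_nsmul F, smul_smul, inv_mul_cancel₀ hn, one_smul]
    abel

section rep

variable [Fact p.Prime] {H U : Type*} [Group H] [Finite H] [AddCommGroup U] [Module (ZMod p) U]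
  [Finite U]

/-- The fixed space of a group element. -/
def fixS (ρ : Representation (ZMod p) H U) (h : H) : Submodule (ZMod p) U :=
  LinearMap.eqLocus (ρ h) LinearMap.id

theorem mem_fixS {ρ : Representation (ZMod p) H U} {h : H} {u : U} : u ∈ fixS ρ h ↔ ρ h u = u :=
  Iff.rfl

/-- The Knörr condition for a representation. -/
def KnR (M : Ideal AlgInt) [M.IsMaximal] (ρ : Representation (ZMod p) H U) : Prop :=
  Kn M (fun h => ρ h = 1) (fun h => (Nat.card U : ℝ) / Nat.card (fixS ρ h))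

theorem knR_of_sq (hM : IsPModular p M) (hH : ¬ p ∣ Nat.card H) (ρ : Representation (ZMod p) H U)
    {ω : H → ℂ} (hω : IC ω) (h1 : ∀ (σ : ℂ ≃+* ℂ) h, ‖σ (ω h)‖ ^ 2 = Nat.card (fixS ρ h))
    (h2 : ∀ h, ∃ a, IsIntegral ℤ a ∧ ω h ^ 2 = a * Nat.card (fixS ρ h)) : KnR M ρ := by
  have hU : Nat.card U = p ^ Module.finrank (ZMod p) U := by
    rw [Module.natCard_eq_pow_finrank (K := ZMod p), Nat.card_zmod]
  refine (kn_of_sq hM hH (fun h => Nat.card (fixS ρ h)) (m := Module.finrank (ZMod p) U)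
    (fun h => hU ▸ (fixS ρ h).toAddSubgroup.card_addSubgroup_dvd_card) ?_ hω h1 h2).mono
    (fun h hh => ?_) fun h => by rw [hU]
  · rw [← hU]
    exact Nat.card_congr (Equiv.subtypeUnivEquiv fun u => by simp [mem_fixS])
  · have h3 : (fixS ρ h).toAddSubgroup = ⊤ := AddSubgroup.eq_top_of_card_eq _ (hh.trans hU.symm)
    ext u
    exact (h3.ge (AddSubgroup.mem_top u) : u ∈ fixS ρ h)

theorem fixS_nondeg (hH : ¬ p ∣ Nat.card H) (ρ : Representation (ZMod p) H U)
    (B : LinearMap.BilinForm (ZMod p) U) (hB : ∀ h x y, B (ρ h x) (ρ h y) = B x y)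
    (hnd : ∀ x, (∀ y, B x y = 0) → x = 0) {h : H} {x : U} (hx : ρ h x = x)
    (h0 : ∀ y, ρ h y = y → B x y = 0) : x = 0 := by
  refine hnd x fun y => ?_
  obtain ⟨c, w, hc, rfl⟩ := exists_fix_add (ρ h) (n := Nat.card H)
    (by rwa [Ne, ZMod.natCast_eq_zero_iff]) (by rw [← map_pow, pow_card_eq_one', map_one]) y
  rw [map_add, h0 c hc, map_sub, ← hB h x w, hx, sub_self, add_zero]

theorem KnR.of_isCompl (ρ : Representation (ZMod p) H U) {W₁ W₂ : Submodule (ZMod p) U}
    (hc : IsCompl W₁ W₂) (h₁ : ∀ g, W₁ ≤ W₁.comap (ρ g)) (h₂ : ∀ g, W₂ ≤ W₂.comap (ρ g))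
    (k₁ : KnR M (ρ.subrepresentation W₁ h₁)) (k₂ : KnR M (ρ.subrepresentation W₂ h₂)) :
    KnR M ρ := by
  have hd : ∀ u, ∃ a ∈ W₁, ∃ b ∈ W₂, a + b = u := fun u =>
    Submodule.mem_sup.1 (hc.sup_eq_top ▸ Submodule.mem_top)
  refine (Kn.mul k₁ k₂).mono (fun h hh => ?_) fun h => ?_
  · ext u
    obtain ⟨a, ha, b, hb, rfl⟩ := hd u
    have e1 : ρ h a = a := congrArg Subtype.val (LinearMap.congr_fun hh.1 ⟨a, ha⟩)
    have e2 : ρ h b = b := congrArg Subtype.val (LinearMap.congr_fun hh.2 ⟨b, hb⟩)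
    rw [map_add, e1, e2, Module.End.one_apply]
  · have key : ∀ u : fixS ρ h, ∃ y : fixS (ρ.subrepresentation W₁ h₁) h ×
        fixS (ρ.subrepresentation W₂ h₂) h, (u : U) = y.1 + y.2 := by
      rintro ⟨u, hu⟩
      obtain ⟨a, ha, b, hb, rfl⟩ := hd u
      rw [mem_fixS, map_add] at hu
      have e1 : ρ h a - a = 0 := Submodule.disjoint_def.1 hc.disjoint _
        (W₁.sub_mem (h₁ h ha) ha) (by
          rw [show ρ h a - a = b - ρ h b by linear_combination (norm := module) hu]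
          exact W₂.sub_mem hb (h₂ h hb))
      rw [sub_eq_zero] at e1
      rw [e1] at hu
      exact ⟨(⟨⟨a, ha⟩, Subtype.ext e1⟩, ⟨⟨b, hb⟩, Subtype.ext (add_left_cancel hu)⟩), rfl⟩
    choose f hf using key
    have e3 := Nat.card_le_card_of_injective f fun x y hxy => Subtype.ext (by rw [hf, hf, hxy])
    have e4 := Nat.card_congr (Submodule.prodEquivOfIsCompl W₁ W₂ hc).toEquiv
    rw [Nat.card_prod] at e3 e4
    rw [div_mul_div_comm, ← e4, Nat.cast_mul]
    exact div_le_div_of_nonneg_left (by positivity) (by exact_mod_cast Nat.card_pos)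
      (by exact_mod_cast e3)

theorem knR_of_symm (hM : IsPModular p M) (hH : ¬ p ∣ Nat.card H) (hp2 : p ≠ 2)
    (ρ : Representation (ZMod p) H U) (S : LinearMap.BilinForm (ZMod p) U)
    (hS : ∀ x y, S x y = S y x) (hB : ∀ h x y, S (ρ h x) (ρ h y) = S x y)
    (hnd : ∀ x, (∀ y, S x y = 0) → x = 0) : KnR M ρ := by
  classical
  have h2 : (2 : ZMod p) ≠ 0 := by
    rw [show (2 : ZMod p) = (2 : ℕ) by simp, Ne, ZMod.natCast_eq_zero_iff,
      Nat.prime_dvd_prime_iff_eq hM.1 Nat.prime_two]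
    exact hp2
  haveI := Fintype.ofFinite U
  let g : AddChar (ZMod p) ℂ → H → ℂ := fun ψ h => ∑ u : fixS ρ h, ψ (S u u)
  have key : ∀ ψ : AddChar (ZMod p) ℂ, ψ ≠ 1 → ∀ h,
      g ψ h * conj (g ψ h) = Nat.card (fixS ρ h) := fun ψ hψ h => by
    simp only [g, map_sum, Finset.mul_sum, Finset.sum_mul]
    have e1 : ∀ y : fixS ρ h, ∑ x : fixS ρ h, ψ (S x x) * conj (ψ (S y y)) =
        ∑ z : fixS ρ h, ψ (S z z) * ψ (2 * S z y) := fun y => by
      rw [← Equiv.sum_comp (Equiv.addRight y)]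
      refine Finset.sum_congr rfl fun z _ => ?_
      rw [← AddChar.map_neg_eq_conj, ← AddChar.map_add_eq_mul, ← AddChar.map_add_eq_mul]
      congr 1
      simp only [Equiv.coe_addRight, Submodule.coe_add, map_add, LinearMap.add_apply, hS y z]
      ring
    rw [Finset.sum_congr rfl fun y _ => e1 y, Finset.sum_comm, Finset.sum_eq_single 0]
    · simp
    · intro z _ hz
      rw [← Finset.mul_sum]
      let l : fixS ρ h →+ ZMod p := ((2 : ZMod p) • (S z ∘ₗ (fixS ρ h).subtype)).toAddMonoidHom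
      have hl : ψ.compAddMonoidHom l ≠ 1 := fun hl => by
        refine hz (Subtype.ext (fixS_nondeg hH ρ S hB hnd z.2 fun y hy => ?_))
        by_contra hne
        refine hψ (AddChar.ext _ _ fun t => ?_)
        have e2 := congrArg (fun c : AddChar (fixS ρ h) ℂ =>
          c ((t * (2 * S z y)⁻¹) • (⟨y, hy⟩ : fixS ρ h))) hl
        simp only [l, AddChar.compAddMonoidHom_apply, LinearMap.toAddMonoidHom_coe, map_smul,
          LinearMap.smul_apply, LinearMap.comp_apply, Submodule.subtype_apply, smul_eq_mul,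
          inv_mul_cancel_right₀ (mul_ne_zero h2 hne)] at e2
        exact e2
      have e3 := AddChar.sum_eq_zero_of_ne_one hl
      exact mul_eq_zero_of_right _ e3
    · simp
  obtain ⟨ψ, hψ1⟩ := AddChar.exists_apply_ne_zero (α := ZMod p) (a := 1) |>.2 one_ne_zero
  have hψ : ψ ≠ 1 := by rintro rfl; exact hψ1 rfl
  refine knR_of_sq hM hH ρ (ω := g ψ) ?_ (fun σ h => ?_) fun h => ?_
  · have e1 : ∀ t : ZMod p, IC fun h : H => (Nat.card {u : fixS ρ h // S u u = t} : ℂ) := by
      intro t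
      letI : MulAction H {u : U // S u u = t} :=
        { smul := fun h u => ⟨ρ h u, by rw [hB, u.2]⟩
          one_smul := fun u => Subtype.ext (LinearMap.congr_fun ρ.map_one u)
          mul_smul := fun a b u => Subtype.ext (LinearMap.congr_fun (ρ.map_mul a b) u) }
      have e2 := IC.of_char (H6.isCharacter_fixedBy (G := H) {u : U // S u u = t})
      convert e2 using 3 with h
      exact Nat.card_congr ⟨fun x => ⟨⟨x.1, x.2⟩, Subtype.ext x.1.2⟩,
        fun x => ⟨⟨x.1, congrArg Subtype.val x.2⟩, x.1.2⟩, fun _ => rfl, fun _ => rfl⟩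
    have e3 := IC.sum Finset.univ fun t _ => (e1 t).smul (H33.isIntegral_of_pow_eq_one
      hM.1.ne_zero (addChar_pow_char ψ (x := t) (p := p) (by simp)))
    convert e3 using 1
    ext h
    simp only [g, Finset.sum_apply, Pi.smul_apply, smul_eq_mul]
    rw [← Finset.sum_fiberwise Finset.univ fun u : fixS ρ h => S u u]
    refine Finset.sum_congr rfl fun t _ => ?_
    rw [Finset.sum_congr rfl fun u hu => by rw [(Finset.mem_filter.1 hu).2], Finset.sum_const,
      nsmul_eq_mul, mul_comm, Nat.card_eq_fintype_card, Fintype.card_subtype]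
  · have e1 : σ (g ψ h) = g ((σ : ℂ →* ℂ).compAddChar ψ) h := by simp [g]
    have e2 := key ((σ : ℂ →* ℂ).compAddChar ψ) (fun h3 => hψ1 (by
      simpa using congrArg (fun c : AddChar (ZMod p) ℂ => c 1) h3)) h
    rw [Complex.mul_conj, Complex.normSq_eq_norm_sq] at e2
    rw [e1]
    exact_mod_cast e2
  · obtain ⟨a, b, hab⟩ := ZMod.sq_add_sq p (-1)
    have e1 : g ψ h ^ 2 = conj (g ψ h) ^ 2 := by
      let e : fixS ρ h × fixS ρ h → fixS ρ h × fixS ρ h :=
        fun x => (a • x.1 + b • x.2, a • x.2 - b • x.1)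
      have he : Function.Bijective e := Finite.injective_iff_bijective.1 fun x y hxy => by
        have e2 : a • x.1 + b • x.2 = a • y.1 + b • y.2 := congrArg Prod.fst hxy
        have e3 : a • x.2 - b • x.1 = a • y.2 - b • y.1 := congrArg Prod.snd hxy
        refine Prod.ext ?_ ?_
        · linear_combination (norm := module) (-a) • e2 + b • e3 + hab • (x.1 - y.1)
        · linear_combination (norm := module) (-b) • e2 - a • e3 + hab • (x.2 - y.2)
      simp only [g, sq, map_sum, Finset.sum_mul_sum, ← Fintype.sum_prod_type']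
      rw [← he.sum_comp]
      refine Finset.sum_congr rfl fun x _ => ?_
      rw [← AddChar.map_neg_eq_conj, ← AddChar.map_neg_eq_conj, ← AddChar.map_add_eq_mul,
        ← AddChar.map_add_eq_mul]
      congr 1
      simp only [e, Submodule.coe_add, Submodule.coe_sub, Submodule.coe_smul, map_add, map_sub,
        map_smul, LinearMap.add_apply, LinearMap.sub_apply, LinearMap.smul_apply, smul_eq_mul]
      linear_combination (S x.1 x.1 + S x.2 x.2) * hab
    have e2 : (g ψ h ^ 2) ^ 2 = (Nat.card (fixS ρ h) : ℂ) ^ 2 := by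
      rw [← key ψ hψ h, mul_pow, ← e1, sq (g ψ h ^ 2)]
    rcases sq_eq_sq_iff_eq_or_eq_neg.1 e2 with e3 | e3
    · exact ⟨1, isIntegral_one, by rw [e3, one_mul]⟩
    · exact ⟨-1, isIntegral_one.neg, by rw [e3, neg_one_mul]⟩

end rep

end H86
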