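import Mathlib
import Cfsg.Agent.Lib.Blk86.Knorr4

/-!
Knörr functions for self-dual modules: the symplectic case through the Heisenberg group.
-/

set_option autoImplicit false
set_option linter.style.haveILetI false
set_option linter.unusedSectionVars false
set_option linter.unusedVariables false

open Cfsg
open scoped ComplexConjugate

attribute [local irreducible] H33.instFieldF

namespace H86

variable {M : Ideal AlgInt} [M.IsMaximal] {p : ℕ} [Fact p.Prime] {H U : Type*} [Group H]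
  [AddCommGroup U] [Module (ZMod p) U]

/-- The Heisenberg group of an invariant bilinear form extended by the acting group. -/
@[ext] structure Hs (ρ : Representation (ZMod p) H U) (B : LinearMap.BilinForm (ZMod p) U)
    (hB : ∀ h x y, B (ρ h x) (ρ h y) = B x y) where
  u : U
  a : ZMod p
  h : H

namespace Hs

variable {ρ : Representation (ZMod p) H U} {B : LinearMap.BilinForm (ZMod p) U}
  {hB : ∀ h x y, B (ρ h x) (ρ h y) = B x y}

instance : Mul (Hs ρ B hB) :=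
  ⟨fun x y => ⟨x.u + ρ x.h y.u, x.a + y.a + B x.u (ρ x.h y.u), x.h * y.h⟩⟩
instance : One (Hs ρ B hB) := ⟨⟨0, 0, 1⟩⟩
instance : Inv (Hs ρ B hB) := ⟨fun x => ⟨-ρ x.h⁻¹ x.u, -x.a + B x.u x.u, x.h⁻¹⟩⟩

@[simp] theorem mul_u (x y : Hs ρ B hB) : (x * y).u = x.u + ρ x.h y.u := rfl
@[simp] theorem mul_a (x y : Hs ρ B hB) : (x * y).a = x.a + y.a + B x.u (ρ x.h y.u) := rfl
@[simp] theorem mul_h (x y : Hs ρ B hB) : (x * y).h = x.h * y.h := rfl
@[simp] theorem one_u : (1 : Hs ρ B hB).u = 0 := rfl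
@[simp] theorem one_a : (1 : Hs ρ B hB).a = 0 := rfl
@[simp] theorem one_h : (1 : Hs ρ B hB).h = 1 := rfl
@[simp] theorem inv_u (x : Hs ρ B hB) : (x⁻¹).u = -ρ x.h⁻¹ x.u := rfl
@[simp] theorem inv_a (x : Hs ρ B hB) : (x⁻¹).a = -x.a + B x.u x.u := rfl
@[simp] theorem inv_h (x : Hs ρ B hB) : (x⁻¹).h = x.h⁻¹ := rfl

instance : Group (Hs ρ B hB) := Group.ofLeftAxioms
  (fun x y z => by
    ext
    · simp [add_assoc]
    · simp only [mul_a, mul_u, mul_h, map_mul, map_add, Module.End.mul_apply,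
        LinearMap.add_apply, hB]
      ring
    · simp [mul_assoc])
  (fun x => by ext <;> simp) (fun x => by ext <;> simp [hB])

/-- Coordinates. -/
def equivProd : Hs ρ B hB ≃ U × ZMod p × H :=
  ⟨fun x => (x.u, x.a, x.h), fun x => ⟨x.1, x.2.1, x.2.2⟩, fun _ => rfl, fun _ => rfl⟩

instance [Finite U] [Finite H] : Finite (Hs ρ B hB) := Finite.of_equiv _ equivProd.symm

variable (ρ B hB)

/-- Projection to the acting group. -/
def prj : Hs ρ B hB →* H := ⟨⟨fun x => x.h, rfl⟩, fun _ _ => rfl⟩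

/-- The acting group as a subgroup. -/
def sec : H →* Hs ρ B hB := ⟨⟨fun h => ⟨0, 0, h⟩, rfl⟩, fun _ _ => by ext <;> simp⟩

/-- The centre. -/
def cen : Multiplicative (ZMod p) →* Hs ρ B hB :=
  ⟨⟨fun a => ⟨0, a.toAdd, 1⟩, rfl⟩, fun _ _ => by ext <;> simp⟩

theorem card_inf (h : H) :
    Nat.card ↥((prj ρ B hB).ker ⊓ Subgroup.centralizer {sec ρ B hB h}) =
      p * Nat.card (fixS ρ h) := by
  refine Eq.trans ?_ ((Nat.card_prod (ZMod p) (fixS ρ h)).trans (by rw [Nat.card_zmod]))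
  refine Nat.card_congr ⟨fun x => (x.1.a, ⟨x.1.u, ?_⟩), fun y => ⟨⟨y.2, y.1, 1⟩, rfl, ?_⟩,
    fun x => Subtype.ext (Hs.ext rfl rfl (MonoidHom.mem_ker.1 x.2.1).symm), fun _ => rfl⟩
  · have h1 := congrArg Hs.u (Subgroup.mem_centralizer_singleton_iff.1 x.2.2)
    change ρ h x.1.u = x.1.u
    simpa [sec] using h1.symm
  · refine Subgroup.mem_centralizer_singleton_iff.2 ?_
    have h1 : ρ h y.2 = y.2 := y.2.2
    ext <;> simp [sec, h1]

end Hs

variable [Finite H] [Finite U]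

theorem knR_of_alt (hM : IsPModular p M) (hH : ¬ p ∣ Nat.card H)
    (ρ : Representation (ZMod p) H U) (B : LinearMap.BilinForm (ZMod p) U)
    (hB : ∀ h x y, B (ρ h x) (ρ h y) = B x y)
    (hnd : ∀ x, (∀ y, B x y = B y x) → x = 0) : KnR M ρ := by
  have hi : Function.Injective (Hs.cen ρ B hB) := fun a b h =>
    Multiplicative.toAdd.injective (congrArg Hs.a h)
  have hE : ∀ z, Hs.cen ρ B hB z ∈ (Hs.prj ρ B hB).ker := fun _ => rfl
  have hc : ∀ z, Hs.cen ρ B hB z ∈ Subgroup.center _ := fun z =>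
    Subgroup.mem_center_iff.2 fun g => by ext <;> simp [Hs.cen, add_comm]
  have hEp : IsPGroup p (Hs.prj ρ B hB).ker := by
    have h1 := Hs.card_inf ρ B hB 1
    rw [map_one, inf_eq_left.2 fun x _ => Subgroup.mem_centralizer_singleton_iff.2 (by simp),
      Module.natCard_eq_pow_finrank (K := ZMod p) (V := fixS ρ 1), Nat.card_zmod, ← pow_succ'] at h1
    exact IsPGroup.of_card h1
  have hcop : (Nat.card (Hs.prj ρ B hB).ker).Coprime (Nat.card H) := by
    obtain ⟨k, hk⟩ := IsPGroup.iff_card.1 hEp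
    rw [hk]
    exact Nat.Coprime.pow_left _ ((Nat.Prime.coprime_iff_not_dvd hM.1).2 hH)
  have hr : ∀ ζ : Multiplicative (ZMod p) →* ℂ, ζ (Multiplicative.ofAdd 1) ≠ 1 → ∀ h : H,
      ∀ d ∈ (Hs.prj ρ B hB).ker, d * Hs.sec ρ B hB h = Hs.sec ρ B hB h * d →
        d ∉ (Hs.cen ρ B hB).range → ∃ t ∈ (Hs.prj ρ B hB).ker,
          t * Hs.sec ρ B hB h = Hs.sec ρ B hB h * t ∧
          ∃ z, t * d * t⁻¹ = Hs.cen ρ B hB z * d ∧ ζ z ≠ 1 := by
    rintro ζ hζ h ⟨u, a, k⟩ hd h1 h2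
    obtain rfl : k = 1 := hd
    have h3 : ρ h u = u := by simpa [Hs.sec] using (congrArg Hs.u h1).symm
    have h4 : ¬ ∀ y, ρ h y = y → (B - B.flip) u y = 0 := fun h4 => by
      obtain rfl : u = 0 := fixS_nondeg hH ρ (B - B.flip) (fun h x y => by simp [hB])
        (fun x hx => hnd x fun y => by simpa [sub_eq_zero] using hx y) h3 h4
      exact h2 ⟨Multiplicative.ofAdd a, rfl⟩
    push Not at h4
    obtain ⟨y, h5, h6⟩ := h4
    have h7 : B y u - B u y ≠ 0 := fun h => h6 (by simp [sub_eq_zero.1 h])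
    refine ⟨⟨(B y u - B u y)⁻¹ • y, 0, 1⟩, rfl, by ext <;> simp [Hs.sec, h5],
      Multiplicative.ofAdd 1, ?_, hζ⟩
    rw [mul_inv_eq_iff_eq_mul]
    ext
    · simp [Hs.cen, add_comm]
    · simp only [Hs.cen, Hs.mul_a, Hs.mul_u, Hs.mul_h, map_one, map_smul, map_zero,
        LinearMap.smul_apply, Module.End.one_apply, smul_eq_mul, MonoidHom.coe_mk, OneHom.coe_mk,
        toAdd_ofAdd, zero_add, add_zero, mul_one, LinearMap.zero_apply]
      linear_combination inv_mul_cancel₀ h7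
    · simp [Hs.cen]
  obtain ⟨ψ, hψ1⟩ := AddChar.exists_apply_ne_zero (α := ZMod p) (a := 1) |>.2 one_ne_zero
  obtain ⟨Θ, h1, h2, h3⟩ := exists_weil hi hE hc ψ.toMonoidHom (by
    rw [Subgroup.index_ker]
    exact (hcop.coprime_dvd_right (Subgroup.card_subgroup_dvd_card _)).symm) fun d hd hd' => by
      obtain ⟨t, ht, -, z, hz⟩ := hr ψ.toMonoidHom hψ1 1 d hd (by simp) hd'
      exact ⟨t, ht, z, hz⟩
  have hp0 : (p : ℂ) ≠ 0 := Nat.cast_ne_zero.2 hM.1.ne_zero
  have hZ : Nat.card (Multiplicative (ZMod p)) = p := Nat.card_zmod p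
  refine knR_of_sq hM hH ρ (IC.of_char (H6.isCharacter_comp (Hs.sec ρ B hB)
    (H6.irr_isCharacter h2))) (fun σ h => ?_) fun h => ?_
  · have h4 := norm_sq_coset hi hE hc (ζ := (σ : ℂ →* ℂ).comp ψ.toMonoidHom)
      (Θ := fun x => σ (Θ x)) ⟨fun x t => by rw [h1.cf], fun z x => by rw [h1.mul, map_mul]; rfl⟩
      (H8.isIrrCharacter_ringEquiv_comp h2 σ) (H8.isIrrCharacter_ringEquiv_comp h3 σ)
      (hcop.coprime_dvd_right ((orderOf_map_dvd _ h).trans (orderOf_dvd_natCard h)))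
      (hr _ (fun h5 => hψ1 (by simpa using h5)) h)
    rw [Hs.card_inf, hZ, Nat.cast_mul, Complex.mul_conj, Complex.normSq_eq_norm_sq] at h4
    exact_mod_cast mul_left_cancel₀ hp0 h4
  · obtain ⟨a, ha, h4⟩ := sq_coset hi hE hc h1 (H6.irr_isCharacter h2) (hr _ hψ1 h)
    rw [Hs.card_inf, hZ, Nat.cast_mul, mul_left_comm] at h4
    exact ⟨a, ha, mul_left_cancel₀ hp0 h4⟩

theorem exists_sub_flip {F V : Type*} [Field F] [AddCommGroup V] [Module F V]
    [FiniteDimensional F V] (A : LinearMap.BilinForm F V) (hA : ∀ x, A x x = 0) :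
    ∃ B : LinearMap.BilinForm F V, B - B.flip = A := by
  let b := Module.finBasis F V
  refine ⟨Matrix.toBilin b (Matrix.of fun i j => if i < j then A (b i) (b j) else 0), ?_⟩
  refine LinearMap.BilinForm.ext_basis b fun i j => ?_
  have e : ∀ (N : Matrix _ _ F) i j, Matrix.toBilin b N (b i) (b j) = N i j := fun N i j => by
    rw [← LinearMap.BilinForm.toMatrix_apply b, LinearMap.BilinForm.toMatrix_toBilin]
  rw [LinearMap.sub_apply, LinearMap.sub_apply, LinearMap.BilinForm.flip_apply, e, e]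
  simp only [Matrix.of_apply]
  rcases lt_trichotomy i j with h | rfl | h
  · simp [h, h.not_gt]
  · simp [hA]
  · simp [h, h.not_gt, LinearMap.IsAlt.neg hA]

theorem knR_of_isAlt (hM : IsPModular p M) (hH : ¬ p ∣ Nat.card H)
    (ρ : Representation (ZMod p) H U) (A : LinearMap.BilinForm (ZMod p) U) (hA : ∀ x, A x x = 0)
    (hB : ∀ h x y, A (ρ h x) (ρ h y) = A x y) (hnd : ∀ x, (∀ y, A x y = 0) → x = 0) :
    KnR M ρ := by
  haveI := Fintype.ofFinite H
  obtain ⟨B, hBA⟩ := exists_sub_flip A hA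
  have e : ∀ x y, B x y - B y x = A x y := fun x y => by rw [← hBA]; rfl
  refine knR_of_alt hM hH ρ (∑ g, B.comp (ρ g) (ρ g)) (fun h x y => ?_) fun x hx => hnd x fun y => ?_
  · simp only [LinearMap.sum_apply, LinearMap.BilinForm.comp_apply]
    rw [← Equiv.sum_comp (Equiv.mulRight h) fun g => B (ρ g x) (ρ g y)]
    simp
  · have h1 := sub_eq_zero.2 (hx y)
    simp only [LinearMap.sum_apply, LinearMap.BilinForm.comp_apply, ← Finset.sum_sub_distrib, e, hB,
      Finset.sum_const, Finset.card_univ, nsmul_eq_mul, ← Nat.card_eq_fintype_card] at h1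
    exact (mul_eq_zero.1 h1).resolve_left (by rwa [ZMod.natCast_eq_zero_iff])

theorem knR_of_nondeg (hM : IsPModular p M) (hH : ¬ p ∣ Nat.card H)
    (ρ : Representation (ZMod p) H U) (B : LinearMap.BilinForm (ZMod p) U)
    (hB : ∀ h x y, B (ρ h x) (ρ h y) = B x y) (hnd : ∀ x, (∀ y, B x y = 0) → x = 0) :
    KnR M ρ := by
  obtain ⟨W₁, W₂, hc, h₁, h₂, ⟨A, a1, a2, a3⟩, ⟨S, s1, s2, s3⟩, h3⟩ :=
    Cfsg.Agent.S4966.result p hH ρ B (LinearMap.BilinForm.Nondegenerate.ofSeparatingLeft hnd) hB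
  refine KnR.of_isCompl ρ hc h₁ h₂ (knR_of_isAlt hM hH _ (A.restrict W₁) (fun x => a1 x)
    (fun h x y => a2 h x x.2 y y.2) fun x hx => Subtype.ext (a3 x x.2 fun y hy => hx ⟨y, hy⟩)) ?_
  by_cases hp : p = 2
  · refine Kn.one.mono (fun h _ => LinearMap.ext fun w => Subtype.ext (h3 hp h w w.2)) fun h => ?_
    rw [le_div_iff₀ (by exact_mod_cast Nat.card_pos), one_mul]
    exact_mod_cast Nat.card_le_card_of_injective _ Subtype.val_injective
  · exact knR_of_symm hM hH hp _ (S.restrict W₂) (fun x y => s1 x y)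
      (fun h x y => s2 h x x.2 y y.2) fun x hx => Subtype.ext (s3 x x.2 fun y hy => hx ⟨y, hy⟩)

end H86
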