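import Mathlib
import Cfsg.Agent.Lib.Glaub.Solvable
import Cfsg.Agent.Lib.Deg.Cliff
import Cfsg.Agent.Lib.Deg.PrinSolv
import Cfsg.Agent.Lib.Deg.SylNorm
import Cfsg.Agent.Lib.Core.CoprimeAbelian
import Cfsg.Agent.Lib.Char.ExtMain
import Cfsg.Agent.Lib.Thompson.Replacement

/-!
Groups in which the irreducible characters of degree prime to `p` have degree prime to `q`
(Navarro and Wolf).
-/

set_option autoImplicit false
set_option linter.style.haveILetI false
set_option linter.unusedSectionVars false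

namespace H86

open Cfsg Subgroup H68
open scoped commutatorElement Pointwise

universe u

variable {G : Type*} [Group G] [Finite G] {p q : ℕ} [hp : Fact p.Prime] [hq : Fact q.Prime]

/-- degrees prime to `p` are prime to `q` -/
def PQ (p q : ℕ) (G : Type*) [Group G] : Prop :=
  ∀ χ : G → ℂ, IsIrrCharacter G χ → ¬ p ∣ charDegree χ → ¬ q ∣ charDegree χ

theorem PQ.quot (h : PQ p q G) (N : Subgroup G) [N.Normal] : PQ p q (G ⧸ N) := fun ψ hψ h1 => by
  have := h _ (H87.isIrr_infl N hψ) (by rwa [H87.deg_infl])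
  rwa [H87.deg_infl] at this

theorem exists_over_not_dvd_of_ext {M H : Subgroup G} (hMH : M ≤ H) (hH : ¬ p ∣ H.index)
    {η : H → ℂ} (hη : IsIrrCharacter H η) (hd : ¬ p ∣ charDegree η) {θ : M → ℂ}
    (hθ : IsIrrCharacter M θ) (he : ∀ m : M, η ⟨m, hMH m.2⟩ = θ m) :
    ∃ χ, IsIrrCharacter G χ ∧ ¬ p ∣ charDegree χ ∧ H87.Over M χ θ := by
  haveI := Fintype.ofFinite G
  have h1 := H6.irr_isCharacter hη
  obtain ⟨χ, hχ, h2, h3⟩ := H87.exists_constituent_not_dvd (H7.isCharacter_indFun H h1) (d := p)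
    (by rw [H87.deg_indFun H h1, hp.out.dvd_mul]; exact fun h => h.elim hH hd)
  exact ⟨χ, hχ, h3, (H87.over_of_inner_indFun (H6.irr_isClassFunction hχ) h2).trans hMH
    (H87.finsum_ne_zero_of_eq_mul hθ one_ne_zero fun m => by rw [he, one_mul])
    (H6.irr_isCharacter hχ) hη (H6.irr_isCharacter hθ)⟩

theorem PQ.not_dvd_index_inertia (h : PQ p q G) {M H : Subgroup G} [M.Normal] (hMH : M ≤ H)
    (hH : ¬ p ∣ H.index) {η : H → ℂ} (hη : IsIrrCharacter H η) (hd : ¬ p ∣ charDegree η)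
    {θ : M → ℂ} (hθ : IsIrrCharacter M θ) (he : ∀ m : M, η ⟨m, hMH m.2⟩ = θ m) :
    ¬ q ∣ (H7.inertia θ).index := fun hq' => by
  obtain ⟨χ, hχ, h1, h2⟩ := exists_over_not_dvd_of_ext hMH hH hη hd hθ he
  exact h χ hχ h1 ((hq'.mul_right _).trans (h2.index_inertia_mul_dvd hχ hθ))

theorem minNormal_cases (h1 : H3.IsPiSeparable {p} G) (h2 : H3.IsPiSeparable {q} G)
    {N : Subgroup G} (hN : H3.IsMinNormal N) :
    IsPGroup p N ∨ IsPGroup q N ∨ ((Nat.card N).Coprime p ∧ (Nat.card N).Coprime q) := by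
  rcases hN.isPiSubgroup_or (h1.subgroup N) with a | a
  · exact .inl (H1.isPiSubgroup_singleton_iff.1 a)
  rcases hN.isPiSubgroup_or (h2.subgroup N) with b | b
  · exact .inr (.inl (H1.isPiSubgroup_singleton_iff.1 b))
  exact .inr (.inr ⟨H1.isPiSubgroup_compl_singleton_iff.1 a, H1.isPiSubgroup_compl_singleton_iff.1 b⟩)

theorem isPiSeparable_pair (h1 : H3.IsPiSeparable {p} G) (h2 : H3.IsPiSeparable {q} G) :
    H3.IsPiSeparable {p, q} G := fun M _ hM => by
  haveI : Nontrivial (G ⧸ M) := QuotientGroup.nontrivial_iff.2 hM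
  obtain ⟨N, hN⟩ := H3.exists_isMinNormal (G ⧸ M)
  haveI := hN.normal
  refine ⟨N.comap (QuotientGroup.mk' M), inferInstance, H3.lt_comap_mk' M hN.ne_bot, ?_⟩
  rw [H3.relIndex_comap_mk']
  rcases minNormal_cases (h1.quotient M) (h2.quotient M) hN with a | a | ⟨a, b⟩
  · exact .inl (H1.isPiSubgroup_mono (H1.isPiSubgroup_singleton_iff.2 a) (by simp))
  · exact .inl (H1.isPiSubgroup_mono (H1.isPiSubgroup_singleton_iff.2 a) (by simp))
  · refine .inr fun r hr hd => ?_
    rintro (rfl | rfl)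
    · exact hr.coprime_iff_not_dvd.1 a.symm hd
    · exact hr.coprime_iff_not_dvd.1 b.symm hd

theorem sylow_le_of_index (hs : H3.IsPiSeparable {p, q} G) (P : Sylow p G) (Q : Sylow q G)
    (hN : normalizer ((P : Subgroup G) : Set G) ≤ normalizer ((Q : Subgroup G) : Set G))
    {T : Subgroup G} (hPT : (P : Subgroup G) ≤ T) (hT : ¬ q ∣ T.index) : (Q : Subgroup G) ≤ T := by
  obtain ⟨H, hH⟩ := (hs.subgroup T).exists_isPiHall
  have h1 := H3.isPiHallOf_top_iff.1 (H3.isPiHallOf_trans (H3.isPiHallOf_map_subtype_iff.2 hH)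
    le_top (H3.piNum_compl_iff.2 fun r _ hr => by
      rw [relIndex_top_right]
      rcases hr with rfl | rfl
      · exact fun hd => P.not_dvd_index (hd.trans (index_dvd_of_le hPT))
      · exact hT))
  have hPQ := le_normalizer.trans hN
  obtain ⟨g, hg⟩ := hs.exists_conj_le h1 (K := (P : Subgroup G) ⊔ Q)
    (H1.isPiSubgroup_sup_of_le_normalizer
      (H1.isPiSubgroup_mono (H1.isPiSubgroup_singleton_iff.2 P.isPGroup') (by simp))
      (H1.isPiSubgroup_mono (H1.isPiSubgroup_singleton_iff.2 Q.isPGroup') (by simp)) hPQ)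
    (.inl (H1.isSolvable_sup_of_le_normalizer (H1.isSolvable_of_isPGroup P.isPGroup')
      (H1.isSolvable_of_isPGroup Q.isPGroup') hPQ))
  have h2 : H68.cj g ((P : Subgroup G) ⊔ Q) ≤ T := hg.trans (map_subtype_le H)
  rw [cj_sup, sup_le_iff] at h2
  obtain ⟨t, ht, e⟩ := (sylowIn_of_le (g • P) h2.1).exists_cj_eq (sylowIn_of_le P hPT)
  have h3 : t * g ∈ normalizer ((P : Subgroup G) : Set G) := by
    rw [mem_normalizer_iff_cj, H68.cj_mul]; exact e
  rw [← cj_eq_of_mem_normalizer (hN h3), H68.cj_mul]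
  exact cj_le_of_mem ht h2.2

theorem exists_hom_ne_one_of_commutator {P M Q : Subgroup G} (hpq : p ≠ q) (hP : IsPGroup p P)
    [M.Normal] (hMP : M ≤ P) (hc : IsMulCommutative M) (hQ : SylowIn q Q (M ⊔ Q))
    (hPK : P ≤ normalizer ((M ⊔ Q : Subgroup G) : Set G)) (hne : ⁅M, Q⁆ ≠ ⊥) :
    ∃ (μ : P →* ℂˣ) (a : P), (a : G) ∈ ⁅M, Q⁆ ∧ μ a ≠ 1 := by
  set A := ⁅M, Q⁆ with hA
  set B := P ⊓ normalizer (Q : Set G) with hB
  have hAM : A ≤ M := commutator_le_left _ _
  have hcop : (Nat.card Q).Coprime (Nat.card M) :=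
    IsPGroup.coprime_card_of_ne q p hpq.symm _ _ hQ.isPGroup (hP.to_le hMP)
  have hdec : ∀ x ∈ P, ∃ a ∈ A, ∃ b ∈ B, a * b = x := fun x hx => by
    obtain ⟨k, hk, y, hy, rfl⟩ := hQ.frattini (hPK hx)
    obtain ⟨m, hm, z, hz, rfl⟩ := H3.mem_sup_iff_of_normal.1 hk
    obtain ⟨a, ha, c, hc', rfl⟩ := H2.exists_commutator_mul_centralizer le_normalizer_of_normal
      hcop (.inl (H1.isSolvable_of_isPGroup hQ.isPGroup)) hm
    refine ⟨a, ha, c * z * y, ⟨?_, mul_mem (mul_mem (centralizer_le_normalizer _ hc'.2)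
      (le_normalizer hz)) hy⟩, by group⟩
    have := mul_mem (inv_mem (hMP (hAM ha))) hx
    simpa [mul_assoc] using this
  have hP' : P = A ⊔ B := le_antisymm (fun x hx => by
    obtain ⟨a, ha, b, hb, rfl⟩ := hdec x hx
    exact mul_mem_sup ha hb) (sup_le (hAM.trans hMP) inf_le_left)
  have hBA : B ≤ normalizer (A : Set G) :=
    (le_inf le_normalizer_of_normal inf_le_right).trans (normalizer_inf_le_normalizer_commutator M Q)
  have hPA : P ≤ normalizer (A : Set G) := hP' ▸ sup_le le_normalizer hBA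
  have hAB : A ⊓ B = ⊥ := by
    rw [eq_bot_iff, ← H2.commutator_inf_centralizer_eq_bot hc le_normalizer_of_normal hcop]
    refine le_inf inf_le_left (commutator_eq_bot_iff_le_centralizer.1 (eq_bot_iff.2 ?_))
    rw [← H2.inf_eq_bot_of_coprime_card hcop]
    exact le_inf (le_normalizer_iff_commutator_le_right.1 (inf_le_right.trans inf_le_right))
      ((commutator_mono (inf_le_left.trans hAM) le_rfl).trans (commutator_le_left _ _))
  set D := ⁅A, P⁆ ⊔ B with hD
  have hDP : D ≤ P := sup_le ((commutator_mono (hAM.trans hMP) le_rfl).trans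
    (commutator_le_self P)) inf_le_left
  have hAD : A ≤ normalizer (D : Set G) := le_normalizer_iff_commutator_le_right.2
    ((commutator_mono le_rfl hDP).trans le_sup_left)
  have hBD : B ≤ normalizer (D : Set G) := le_sup_right.trans le_normalizer
  have h1 : ⁅A ⊔ B, B⁆ ≤ D := H2.commutator_sup_le hAD hBD
    ((commutator_mono le_rfl inf_le_left).trans le_sup_left)
    ((commutator_le_self B).trans le_sup_right)
  have h2 : ⁅A ⊔ B, P⁆ ≤ D := H2.commutator_sup_le hAD hBD le_sup_left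
    (by rw [commutator_comm, hP']; exact h1)
  rw [← hP'] at h2
  have h3 : ¬ A ≤ D := fun h => hne (H24.eq_bot_of_le_commutator_of_isNilpotent hP.isNilpotent
    (hAM.trans hMP) (by
      have := inf_sup_of_le_normalizer' (A := ⁅A, P⁆) (B := B) (C := A)
        (H2.le_normalizer_commutator hBA (inf_le_left.trans le_normalizer))
        (H2.commutator_le_of_le_normalizer hPA)
      rw [hAB, sup_bot_eq, inf_eq_left.2 h] at this
      exact this.le))
  obtain ⟨a, ha, haD⟩ := SetLike.not_le_iff_exists.1 h3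
  obtain ⟨μ, -, hμ⟩ := H87.exists_hom_trivial_ne_one (D.subgroupOf P) (fun x hx => h2 (by
    rw [← map_subtype_commutator]; exact mem_map_of_mem _ hx)) (g := ⟨a, hMP (hAM ha)⟩) haD
  exact ⟨μ, _, ha, hμ⟩

theorem centralizer_le_of_inertia {M P A : Subgroup G} [hM : M.Normal] (hPA : P ≤ A)
    (hA : Group.IsSolvable A) (hcop : (Nat.card A).Coprime (Nat.card M))
    (h : ∀ θ : M → ℂ, IsIrrCharacter M θ → P ≤ H7.inertia θ → A ≤ H7.inertia θ) :
    M ⊓ centralizer (P : Set G) ≤ centralizer (A : Set G) := by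
  have key : ∀ S ≤ A, Nat.card {χ : IrrCharacter M // S ≤ H7.inertia χ.1} =
      Nat.card (ConjClasses (M ⊓ centralizer (S : Set G) : Subgroup G)) := fun S hS => by
    have hn : ∀ s ∈ S, ∀ g ∈ M, s * g * s⁻¹ ∈ M := fun s _ g hg => hM.conj_mem g hg s
    letI := H88.conjAction M S hn
    rw [← H6.card_irr_eq_card_conjClasses, ← H88.card_inv_irr (H2.isSolvable_of_le hS hA)
      (H2.coprime_of_le_left hcop hS).symm _ (inclusion_injective inf_le_left)
      (H88.conjAction_fix M S hn _ rfl inf_le_left)]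
    refine Nat.card_congr (Equiv.subtypeEquivRight fun χ => ?_)
    rw [H88.inv_conjAction_iff]
    exact ⟨fun h s hs g g' e => by
      rw [← H7.mem_inertia'.1 (h hs) g]; exact congrArg _ (Subtype.ext e),
      fun h s hs => H7.mem_inertia'.2 fun g => h s hs _ _ rfl⟩
  have hle : M ⊓ centralizer (A : Set G) ≤ M ⊓ centralizer (P : Set G) :=
    inf_le_inf_left _ (centralizer_le hPA)
  have h1 : Nat.card (ConjClasses (M ⊓ centralizer (P : Set G) : Subgroup G)) ≤
      Nat.card (ConjClasses (M ⊓ centralizer (A : Set G) : Subgroup G)) := by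
    rw [← key P hPA, ← key A le_rfl]
    exact (Nat.card_congr (Equiv.subtypeEquivRight fun χ =>
      ⟨h _ χ.2, fun h => hPA.trans h⟩)).le
  have h2 : Function.Injective (ConjClasses.map (inclusion hle)) := fun x y e => by
    obtain ⟨x, rfl⟩ := ConjClasses.mk_surjective x
    obtain ⟨y, rfl⟩ := ConjClasses.mk_surjective y
    obtain ⟨k, hk⟩ := isConj_iff.1 (ConjClasses.mk_eq_mk_iff_isConj.1 e)
    have hk' : (k : G) * x * (k : G)⁻¹ = y := congrArg Subtype.val hk
    obtain ⟨c, hc, e⟩ := H2.exists_centralizer_conj_eq le_normalizer_of_normal hcop (.inl hA)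
      x.2.2 k.2.1 (hk' ▸ y.2.2)
    exact ConjClasses.mk_eq_mk_iff_isConj.2 (isConj_iff.2 ⟨⟨c, hc⟩, Subtype.ext (e.trans hk')⟩)
  have h3 := (h2.bijective_of_nat_card_le h1).2
  have h4 : (M ⊓ centralizer (A : Set G)).subgroupOf (M ⊓ centralizer (P : Set G)) = ⊤ :=
    H80.eq_top_of_forall_exists_conj_mem fun x => by
      obtain ⟨y, hy⟩ := h3 (ConjClasses.mk x)
      obtain ⟨y, rfl⟩ := ConjClasses.mk_surjective y
      obtain ⟨k, hk⟩ := isConj_iff.1 (ConjClasses.mk_eq_mk_iff_isConj.1 hy).symm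
      exact ⟨k, hk ▸ y.2⟩
  exact (subgroupOf_eq_top.1 h4).trans inf_le_right

theorem PQ.exists_normalizer_le (hpq : p ≠ q) (n : ℕ) :
    ∀ (G : Type u) [Group G] [Finite G], Nat.card G = n → H3.IsPiSeparable {p} G →
      H3.IsPiSeparable {q} G → PQ p q G → ∃ (P : Sylow p G) (Q : Sylow q G),
        normalizer ((P : Subgroup G) : Set G) ≤ normalizer ((Q : Subgroup G) : Set G) := by
  induction n using Nat.strong_induction_on with
  | _ n ih =>
  rintro G _ _ rfl hsp hsq h
  rcases subsingleton_or_nontrivial G with h0 | h0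
  · exact ⟨default, default, (Subsingleton.elim _ _).le⟩
  obtain ⟨M, hM⟩ := H3.exists_isMinNormal G
  haveI := hM.normal
  let f := QuotientGroup.mk' M
  have hf := QuotientGroup.mk'_surjective M
  obtain ⟨P, Q', hN⟩ := ih _ (H3.card_quotient_lt M hM.ne_bot) _ rfl (hsp.quotient M)
    (hsq.quotient M) (h.quot M)
  obtain ⟨P, rfl⟩ := Sylow.mapSurjective_surjective hf p P
  obtain ⟨Q, rfl⟩ := Sylow.mapSurjective_surjective hf q Q'
  have hK : ((Q : Subgroup G).map f).comap f = M ⊔ Q := by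
    rw [comap_map_eq, QuotientGroup.ker_mk', sup_comm]
  have hNK : normalizer ((P : Subgroup G) : Set G) ≤
      normalizer ((M ⊔ Q : Subgroup G) : Set G) := by
    rw [← hK, ← comap_normalizer_eq_of_surjective _ hf, ← map_le_iff_le_comap]
    exact (le_normalizer_map f).trans hN
  have hT : ∀ {θ : M → ℂ}, IsIrrCharacter M θ → (P : Subgroup G) ≤ H7.inertia θ →
      ¬ q ∣ (H7.inertia θ).index → M ⊔ Q ≤ H7.inertia θ := fun {θ} hθ h1 h2 => by
    have h3 := H7.le_inertia (H6.irr_isClassFunction hθ)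
    have h4 := sylow_le_of_index ((isPiSeparable_pair hsp hsq).quotient M) _ _ hN
      (T := (H7.inertia θ).map f) (map_mono h1) fun hd => h2 (hd.trans (index_map_dvd _ hf))
    have h5 := comap_mono (f := f) h4
    rwa [Sylow.coe_mapSurjective, hK, comap_map_eq, QuotientGroup.ker_mk', sup_eq_left.2 h3] at h5
  have hPK := le_normalizer.trans hNK
  have hQ : SylowIn q (Q : Subgroup G) (M ⊔ Q) := sylowIn_of_le Q le_sup_right
  rcases minNormal_cases hsp hsq hM with a | a | ⟨a, b⟩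
  · have hMP : M ≤ P := a.le_sylow_of_normal P
    have hc : ⁅M, (Q : Subgroup G)⁆ = ⊥ := by
      by_contra hne
      obtain ⟨μ, x, hx, hμ⟩ := exists_hom_ne_one_of_commutator hpq P.isPGroup' hMP
        (hM.isMulCommutative (H1.isSolvable_of_isPGroup a)) hQ hPK hne
      let l : M →* ℂˣ := μ.comp (inclusion hMP)
      have hl := H6.isIrrCharacter_hom l
      have h1 : (P : Subgroup G) ≤ H7.inertia fun m : M => (l m : ℂ) := fun y hy =>
        H7.mem_inertia'.2 fun m => by
          have : l ⟨y * m * y⁻¹, hM.normal.conj_mem m m.2 y⟩ =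
              μ (⟨y, hy⟩ * inclusion hMP m * ⟨y, hy⟩⁻¹) := rfl
          rw [this, map_mul, map_mul, map_inv, mul_inv_cancel_comm]
          rfl
      have h2 := le_sup_right.trans (hT hl h1 (h.not_dvd_index_inertia hMP P.not_dvd_index
        (H6.isIrrCharacter_hom μ) (by rw [H87.deg_hom]; exact hp.out.not_dvd_one) hl fun _ => rfl))
      have h3 : ⁅M, (Q : Subgroup G)⁆ ≤ l.ker.map M.subtype := commutator_le.2 fun m hm y hy => by
        have h4 := Units.ext (H7.mem_inertia'.1 (h2 hy) ⟨m⁻¹, inv_mem hm⟩)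
        refine ⟨⟨m, hm⟩ * ⟨y * m⁻¹ * y⁻¹, hM.normal.conj_mem _ (inv_mem hm) y⟩, ?_, by
          simp [commutatorElement_def, mul_assoc]⟩
        rw [SetLike.mem_coe, MonoidHom.mem_ker, map_mul, h4, ← map_mul]
        exact (congrArg l (Subtype.ext (mul_inv_cancel m))).trans (map_one l)
      obtain ⟨z, hz, e⟩ := h3 hx
      exact hμ ((congrArg μ (Subtype.ext e)).symm.trans hz)
    refine ⟨P, Q, fun x hx => mem_normalizer_of_cj_le (hQ.le_of_normalizes
      (isPGroup_cj x Q.isPGroup') ?_ ?_)⟩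
    · exact (hQ.cj_of_mem_normalizer (hNK hx)).le
    · exact (hQ.cj_of_mem_normalizer (hNK hx)).le.trans (sup_le
        ((commutator_eq_bot_iff_le_centralizer.1 hc).trans (centralizer_le_normalizer _))
        le_normalizer)
  · rw [sup_eq_right.2 (a.le_sylow_of_normal Q)] at hNK
    exact ⟨P, Q, hNK⟩
  have hPs := H1.isSolvable_of_isPGroup P.isPGroup'
  have hPM := H1.coprime_card_of_isPGroup_of_coprime P.isPGroup' a
  have hcK : (Nat.card P).Coprime (Nat.card (M ⊔ Q : Subgroup G)) :=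
    (hPM.mul_right (IsPGroup.coprime_card_of_ne p q hpq _ _ P.isPGroup'
      Q.isPGroup')).coprime_dvd_right (H3.card_sup_dvd le_normalizer_of_normal)
  obtain ⟨R, hR, hPR⟩ := H2.exists_invariant_sylowIn hPK hcK (.inl hPs) q
  obtain ⟨k, hk, rfl⟩ := hQ.exists_cj_eq hR
  have hKR : M ⊔ H68.cj k Q = M ⊔ Q := by
    conv_rhs => rw [← cj_eq_of_mem hk, cj_sup, cj_eq_of_normal]
  have hcA : (Nat.card ((P : Subgroup G) ⊔ H68.cj k Q : Subgroup G)).Coprime (Nat.card M) := by
    rw [sup_comm]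
    exact ((H1.coprime_card_of_isPGroup_of_coprime hR.isPGroup b).mul_left hPM).coprime_dvd_left
      (H3.card_sup_dvd hPR)
  have hC := centralizer_le_of_inertia (M := M) (A := P ⊔ H68.cj k Q) le_sup_left
    (H1.isSolvable_sup_of_le_normalizer hPs (H1.isSolvable_of_isPGroup hR.isPGroup) hPR) hcA
    fun θ hθ h1 => by
      have h3 := H7.le_inertia (H6.irr_isClassFunction hθ)
      have hle : M ≤ M ⊔ P := le_sup_left
      obtain ⟨η, hη, he⟩ := H31.extends_of_coprime (M.subgroupOf (M ⊔ P)) (by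
          rw [H3.card_subgroupOf_of_le hle]
          exact hPM.coprime_dvd_left ((H3.relIndex_sup_left_of_le_normalizer
            le_normalizer_of_normal).dvd.trans (relIndex_dvd_card _ _)))
        (H7.isIrr_subgroupOf hle hθ) (H7.inertia_eq_top_iff.1 (by
          rw [H7.inertia_subgroupOf hle, subgroupOf_eq_top]; exact sup_le h3 h1))
      have h4 : charDegree η = charDegree θ := H87.deg_congr (he 1)
      refine sup_le h1 (hR.le.trans (hT hθ h1 (h.not_dvd_index_inertia hle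
        (fun hd => P.not_dvd_index (hd.trans (index_dvd_of_le le_sup_right))) hη ?_ hθ
        fun m => he ⟨⟨m, hle m.2⟩, m.2⟩)))
      rw [h4]
      exact fun hd => hp.out.coprime_iff_not_dvd.1 a.symm (hd.trans (H87.deg_dvd_card hθ))
  refine ⟨P, k • Q, fun x hx => ?_⟩
  have hx' : (P : Subgroup G) ≤ normalizer (H68.cj x (H68.cj k Q) : Set G) := by
    rw [← cj_normalizer, ← cj_eq_of_mem_normalizer hx]
    exact cj_mono x hPR
  obtain ⟨c, hc, e⟩ := H2.exists_centralizer_cj_eq_of_sylowIn hPK hcK (.inl hPs) hR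
    (hR.cj_of_mem_normalizer (hNK hx)) hPR hx'
  rw [← hKR, H2.sup_inf_centralizer le_normalizer_of_normal hPR le_normalizer_of_normal
    (H2.coprime_of_le_right hPM inf_le_left) (.inl hPs)] at hc
  have h5 : c ∈ normalizer (H68.cj k Q : Set G) := (sup_le (hC.trans ((centralizer_le
    (le_sup_right : _ ≤ (P : Subgroup G) ⊔ H68.cj k Q)).trans (centralizer_le_normalizer _)))
    (inf_le_left.trans le_normalizer) :) hc
  exact mem_normalizer_iff_cj.2 (e.symm.trans (cj_eq_of_mem_normalizer h5))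

/-- the quotient by the `p'`-core is a `q'`-group -/
theorem not_dvd_index_pPrimeCore (hpq : p ≠ q) (hsp : IsPSolvable p G) (hsq : IsPSolvable q G)
    (h : PQ p q (G ⧸ pPrimeCore p G)) : ¬ q ∣ (pPrimeCore p G).index := by
  have h1 := (H3.isPiSeparable_of_isPSolvable hp.out hsp).quotient (pPrimeCore p G)
  obtain ⟨P, Q, hN⟩ := PQ.exists_normalizer_le hpq _ _ rfl h1
    ((H3.isPiSeparable_of_isPSolvable hq.out hsq).quotient _) h
  have h2 := H87.le_pPrimeCore_of_forall hpq ((H3.isPSolvable_iff_isPiSeparable hp.out).2 h1)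
    Q.isPGroup' fun y hy => ⟨P, Q, Q.isPGroup', hy, le_normalizer.trans hN⟩
  rw [H1.pPrimeCore_quotient_pPrimeCore, le_bot_iff] at h2
  exact fun hd => Q.ne_bot_of_dvd_card hd h2

theorem exists_commute_sylow (hpq : p ≠ q) (h1 : ¬ q ∣ (pPrimeCore p G).index)
    (h2 : ¬ p ∣ (pPrimeCore q G).index) : ∃ (P : Sylow p G) (Q : Sylow q G),
      ∀ x ∈ (P : Subgroup G), ∀ y ∈ (Q : Subgroup G), x * y = y * x := by
  obtain ⟨P, Q, h⟩ := H87.exists_sylow_le_normalizer_of_not_dvd h1
  have h3 : (P : Subgroup G) ≤ pPrimeCore q G := H1.le_of_coprime_index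
    (H1.coprime_card_of_isPGroup_of_coprime P.isPGroup' (hp.out.coprime_iff_not_dvd.2 h2).symm)
  refine ⟨P, Q, fun x hx y hy => commutatorElement_eq_one_iff_mul_comm.1 ?_⟩
  refine H2.eq_one_of_mem_of_coprime (H1.coprime_card_of_isPGroup_of_coprime Q.isPGroup'
    H1.coprime_card_pPrimeCore) ?_ ?_
  · exact le_normalizer_iff_commutator_le_right.1 h (commutator_mem_commutator hx hy)
  · exact commutator_le_left _ _ (commutator_mem_commutator (h3 hx) hy)

theorem not_dvd_index_of_commute (hpq : p ≠ q) (hsp : IsPSolvable p G) {P : Sylow p G}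
    {Q : Sylow q G} (h : ∀ x ∈ (P : Subgroup G), ∀ y ∈ (Q : Subgroup G), x * y = y * x) :
    ¬ q ∣ (pPrimeCore p G).index := fun hd =>
  Q.not_dvd_index (hd.trans (index_dvd_of_le (H87.le_pPrimeCore_of_forall hpq hsp Q.isPGroup'
    fun y hy => ⟨P, Q, Q.isPGroup', hy, le_trans (b := centralizer _)
      (fun x hx z hz => (h x hx z hz).symm) (centralizer_le_normalizer _)⟩)))

end H86
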