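import Mathlib
import Cfsg.Agent.Lib.Block.Dade
import Cfsg.Agent.Lib.Lin35.Prod
import Cfsg.Agent.Lib.Blk86.Major

/-!
Extensions of principal block characters when the centraliser of a Sylow subgroup of the normal
subgroup covers the quotient.
-/

set_option autoImplicit false
set_option linter.style.haveILetI false
set_option linter.unusedSectionVars false
attribute [local irreducible] H33.instFieldF

namespace H86

open Cfsg H33 Function Subgroup

section Orb

variable {M : Ideal AlgInt} [M.IsMaximal]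

theorem memLocalIdeal_sum_orbits {H X : Type*} [Group H] [MulAction H X] [Fintype X] (f : X → ℂ)
    (hf : ∀ (u : H) (x : X), f (u • x) = f x)
    (h : ∀ x, MemLocalIdeal M (((MulAction.stabilizer H x).index : ℂ) * f x)) :
    MemLocalIdeal M (∑ x, f x) := by
  classical
  rw [← Finset.sum_fiberwise_of_maps_to (t := Finset.univ)
    (g := fun x : X => (Quotient.mk'' x : MulAction.orbitRel.Quotient H X))
    (fun _ _ => Finset.mem_univ _)]
  refine memLocalIdeal_sum _ fun ω _ => ?_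
  obtain ⟨a, rfl⟩ := Quotient.exists_rep ω
  have hset : (Finset.univ.filter
      (fun x => (Quotient.mk'' x : MulAction.orbitRel.Quotient H X) = Quotient.mk _ a)) =
      (MulAction.orbit H a).toFinset := by
    ext x
    simp only [Finset.mem_filter, Finset.mem_univ, true_and, Set.mem_toFinset]
    exact ⟨fun hx => Quotient.exact hx, fun hx => Quotient.sound hx⟩
  rw [hset, Finset.sum_congr rfl (g := fun _ => f a), Finset.sum_const, nsmul_eq_mul,
    Set.toFinset_card, ← Nat.card_eq_fintype_card, Nat.card_coe_set_eq,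
    ← MulAction.index_stabilizer]
  · exact h a
  · intro x hx
    obtain ⟨v, rfl⟩ := Set.mem_toFinset.1 hx
    exact hf v a

theorem sum_smul_eq_orbit {H X : Type*} [Group H] [Fintype H] [MulAction H X] (c : X)
    [Fintype (MulAction.orbit H c)] (f : X → ℂ) :
    ∑ x : H, f (x • c) = Nat.card (MulAction.stabilizer H c) * ∑ a : MulAction.orbit H c, f a := by
  classical
  rw [← Finset.sum_fiberwise_of_maps_to (t := Finset.univ)
    (g := fun x : H => (⟨x • c, MulAction.mem_orbit c x⟩ : MulAction.orbit H c))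
    (fun _ _ => Finset.mem_univ _), Finset.mul_sum]
  refine Finset.sum_congr rfl fun a _ => ?_
  obtain ⟨_, y, rfl⟩ := a
  rw [Finset.sum_congr rfl (g := fun _ => f (y • c)), Finset.sum_const, nsmul_eq_mul]
  · congr 2
    rw [← Fintype.card_subtype, ← Nat.card_eq_fintype_card]
    refine Nat.card_congr ⟨fun x => ⟨y⁻¹ * x.1, ?_⟩, fun z => ⟨y * z.1, ?_⟩, ?_, ?_⟩
    · have := congrArg Subtype.val x.2
      simp only at this
      rw [MulAction.mem_stabilizer_iff, mul_smul, this, inv_smul_smul]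
    · exact Subtype.ext (by simp only; rw [mul_smul, MulAction.mem_stabilizer_iff.1 z.2])
    · intro x; simp
    · intro x; simp
  · intro x hx
    exact congrArg f (congrArg Subtype.val (Finset.mem_filter.1 hx).2)

theorem memLocalIdeal_mul_conj {G K : Type*} [Group G] [Finite G] [Group K] [Fintype K]
    (ι : K →* G) {t : G → ℂ} (ht : ∀ x k, t (x * k * x⁻¹) = t k)
    (hsum : ∀ y h, ∑ x, t (ι x * y * (ι x)⁻¹ * h) = Nat.card K * t y * t h) (c d : G) (s : ℂ)
    (hs : ∀ x y : K, MemLocalIdeal M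
      ((((centralizer {ι x * c * (ι x)⁻¹ * (ι y * d * (ι y)⁻¹)}).comap ι).index : ℂ) *
        (t (ι x * c * (ι x)⁻¹ * (ι y * d * (ι y)⁻¹)) - s))) :
    MemLocalIdeal M ((((centralizer {c}).comap ι).index : ℂ) * ((centralizer {d}).comap ι).index *
      (t c * t d - s)) := by
  classical
  letI : MulAction K G := MulAction.compHom G (MulAut.conj.comp ι)
  have hsm : ∀ (x : K) (g : G), x • g = ι x * g * (ι x)⁻¹ := fun _ _ => rfl
  have hst : ∀ g : G, MulAction.stabilizer K g = (centralizer {g}).comap ι := fun g => by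
    ext x
    rw [MulAction.mem_stabilizer_iff, hsm, mem_comap, mem_centralizer_singleton_iff,
      mul_inv_eq_iff_eq_mul]
  haveI := Fintype.ofFinite (MulAction.orbit K c)
  haveI := Fintype.ofFinite (MulAction.orbit K d)
  have h1 := memLocalIdeal_sum_orbits (M := M) (H := K)
    (fun z : MulAction.orbit K c × MulAction.orbit K d => t (z.1 * z.2) - s) (fun u z => by
      rw [Prod.smul_fst, Prod.smul_snd, MulAction.orbit.coe_smul, MulAction.orbit.coe_smul, hsm,
        hsm, ← ht (ι u) (z.1 * z.2)]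
      congr 2; group) (by
      rintro ⟨⟨_, x, rfl⟩, ⟨_, y, rfl⟩⟩
      have hle : MulAction.stabilizer K ((⟨x • c, x, rfl⟩, ⟨y • d, y, rfl⟩) :
          MulAction.orbit K c × MulAction.orbit K d) ≤ MulAction.stabilizer K (x • c * y • d) := by
        intro u hu
        rw [MulAction.mem_stabilizer_iff] at hu ⊢
        have e1 : u • x • c = x • c := congrArg (fun z => (z.1 : G)) hu
        have e2 : u • y • d = y • d := congrArg (fun z => (z.2 : G)) hu
        conv_rhs => rw [← e1, ← e2]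
        simp only [hsm]; group
      obtain ⟨r, hr⟩ := index_dvd_of_le hle
      rw [hr, Nat.cast_mul, mul_comm (_ : ℂ) r, mul_assoc, hst]
      exact memLocalIdeal_mul_left (natCast_mem _ r) (hs x y))
  convert h1 using 1
  have hc : (Nat.card (MulAction.stabilizer K c) : ℂ) ≠ 0 := Nat.cast_ne_zero.2 Nat.card_pos.ne'
  have hd : (Nat.card (MulAction.stabilizer K d) : ℂ) ≠ 0 := Nat.cast_ne_zero.2 Nat.card_pos.ne'
  refine mul_left_cancel₀ hc (mul_left_cancel₀ hd ?_)
  have e1 : ∀ g : G, (Nat.card (MulAction.stabilizer K g) : ℂ) *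
      ((centralizer {g}).comap ι).index = Nat.card K := fun g => by
    rw [← hst, ← Nat.cast_mul, card_mul_index]
  rw [Fintype.sum_prod_type, Finset.sum_comm, Finset.mul_sum]
  have e2 : ∀ b : G, (Nat.card (MulAction.stabilizer K c) : ℂ) *
      ∑ a : MulAction.orbit K c, (t (a * b) - s) = Nat.card K * (t c * t b - s) := fun b => by
    rw [← sum_smul_eq_orbit c fun a => t (a * b) - s, Finset.sum_sub_distrib]
    simp only [hsm]
    rw [hsum, Finset.sum_const, Finset.card_univ, nsmul_eq_mul, Nat.card_eq_fintype_card]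
    ring
  simp only [e2]
  rw [← sum_smul_eq_orbit d fun b => Nat.card K * (t c * t b - s)]
  simp only [hsm, ht]
  rw [Finset.sum_const, Finset.card_univ, nsmul_eq_mul, ← Nat.card_eq_fintype_card]
  linear_combination (Nat.card (MulAction.stabilizer K d) * ((centralizer {d}).comap ι).index *
    (t c * t d - s)) * e1 c + (Nat.card K * (t c * t d - s)) * e1 d

end Orb

section Ext

variable {G : Type*} [Group G] [Finite G] {p : ℕ} [Fact p.Prime] {M : Ideal AlgInt} [M.IsMaximal]
  {N : Subgroup G} [N.Normal]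

theorem relIndex_eq_mul_of_normal (C : Subgroup G) {J : Subgroup G} (hJ : N ≤ J) :
    C.relIndex J = C.relIndex N * (C ⊓ J ⊔ N).relIndex J := by
  have e1 := relIndex_inf_mul_relIndex (C ⊓ J) N (C ⊓ J ⊔ N)
  have e2 := relIndex_inf_mul_relIndex N (C ⊓ J) (C ⊓ J ⊔ N)
  rw [inf_of_le_left (le_sup_right : N ≤ C ⊓ J ⊔ N), relIndex_sup_right] at e1
  rw [inf_of_le_left (le_sup_left : C ⊓ J ≤ C ⊓ J ⊔ N), inf_comm N, ← e1, mul_comm] at e2
  have e3 := Nat.eq_of_mul_eq_mul_right (Nat.pos_of_ne_zero index_ne_zero_of_finite) e2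
  have e4 : (C ⊓ J).relIndex N = C.relIndex N := by
    rw [← inf_relIndex_right, inf_assoc, inf_of_le_right hJ, inf_relIndex_right]
  rw [← e4, ← e3, relIndex_mul_relIndex _ _ _ le_sup_left (sup_le inf_le_right hJ),
    inf_relIndex_right]

theorem index_centralizer_coe {J : Subgroup G} (k : J) :
    (centralizer ({k} : Set J)).index = (centralizer ({(k : G)} : Set G)).relIndex J := by
  rw [relIndex]
  congr 1
  ext x
  rw [mem_subgroupOf, mem_centralizer_singleton_iff, mem_centralizer_singleton_iff,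
    Subtype.ext_iff, coe_mul, coe_mul]

/-- the normalised values of `ψ` on the coset of `g` are congruent to `u`, class by class -/
def Rk (M : Ideal AlgInt) (N : Subgroup G) (ψ : G → ℂ) (g : G) (u : ℂ) : Prop :=
  ∀ k, k * g⁻¹ ∈ N →
    MemLocalIdeal M (((centralizer ({k} : Set G)).relIndex N : ℂ) * (ψ k / ψ 1 - u))

theorem Rk.congr {ψ : G → ℂ} {g : G} {u v : ℂ} (h : Rk M N ψ g u) (huv : MemLocalIdeal M (u - v)) :
    Rk M N ψ g v := fun k hk => by
  have := memLocalIdeal_add (h k hk) (memLocalIdeal_mul_left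
    (natCast_mem _ ((centralizer ({k} : Set G)).relIndex N)) huv)
  convert this using 1
  ring

theorem exists_rk (hM : IsPModular p M) {θ : IrrCharacter N} (hθ : θ ∈ principalBlock M N)
    {ψ : IrrCharacter G} (hψ : ∀ x : N, (ψ : G → ℂ) x = (θ : N → ℂ) x) (g : G) :
    ∃ (u : ℂ) (m : ℕ), ¬ p ∣ m ∧ u ^ m = 1 ∧ Rk M N ψ g u := by
  suffices h : ∃ u : ℂ, red M u ≠ 0 ∧ Rk M N ψ g u by
    obtain ⟨u, hu, h⟩ := h
    obtain ⟨m, hm, h1⟩ := exists_pow_eq_one_F hM hu
    have hm0 : m ≠ 0 := by rintro rfl; exact hm (dvd_zero p)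
    obtain ⟨ζ, h2, h3⟩ := exists_root_red_eq hm0 h1
    exact ⟨ζ, m, hm, h2, h.congr ((memLocalIdeal_sub_iff (mem_O_of_red_ne_zero hu)
      (mem_O_of_pow_eq_one M hm0 h2)).2 h3.symm)⟩
  set J := N ⊔ zpowers g with hJ
  have hNJ : N ≤ J := le_sup_left
  have hg : g ∈ J := mem_sup_right (mem_zpowers g)
  let ι := inclusion hNJ
  have hr : ι.range = N.subgroupOf J := inclusion_range hNJ
  haveI hn : ι.range.Normal := by rw [hr]; infer_instance
  haveI := Fintype.ofFinite N
  haveI := Fintype.ofFinite J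
  haveI := Fintype.ofFinite ι.range
  haveI := Fintype.ofFinite (J ⧸ ι.range)
  obtain ⟨χ, hχ, ho⟩ := H34.exists_principal_over_hom hM (inclusion_injective hNJ) hn hθ
  have hθ' : (fun n => (ψ : G → ℂ) (ι n : J)) = θ := funext hψ
  let ψ' : IrrCharacter J := ⟨fun y => (ψ : G → ℂ) y, H31.isIrr_of_comp_isIrr ι
    (H6.isCharacter_comp J.subtype (H6.irr_isCharacter ψ.2)) (by rw [hθ']; exact θ.2)⟩
  have hπ : ∀ k : J, (k : G) * g⁻¹ ∈ N →
      QuotientGroup.mk' ι.range k = QuotientGroup.mk' ι.range ⟨g, hg⟩ := fun k hk => by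
    rw [QuotientGroup.mk'_apply, QuotientGroup.mk'_apply, QuotientGroup.eq_iff_div_mem, hr,
      mem_subgroupOf, div_eq_mul_inv]
    exact hk
  haveI : IsCyclic (J ⧸ ι.range) := ⟨QuotientGroup.mk' ι.range ⟨g, hg⟩, fun a => by
    obtain ⟨y, rfl⟩ := QuotientGroup.mk'_surjective _ a
    obtain ⟨n, hn', z, ⟨i, rfl⟩, e⟩ := mem_sup_of_normal_left.1 y.2
    refine ⟨i, ?_⟩
    simp only
    rw [← map_zpow, QuotientGroup.mk'_apply, QuotientGroup.mk'_apply, eq_comm,
      QuotientGroup.eq_iff_div_mem, hr, mem_subgroupOf, coe_div, ← e]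
    simpa using hn'⟩
  letI : CommGroup (J ⧸ ι.range) := IsCyclic.commGroup
  have h1 := inner_res_eq_card (A := J ⧸ ι.range) (π := QuotientGroup.mk' ι.range)
    (QuotientGroup.mk'_surjective _) (QuotientGroup.ker_mk' _) χ ψ'
  rw [H34.inner_range (inclusion_injective hNJ)] at h1
  obtain ⟨l, hl⟩ : Nonempty {l : (J ⧸ ι.range) →* ℂˣ //
      mulL χ (l.comp (QuotientGroup.mk' ι.range)) = ψ'} :=
    (Nat.card_pos_iff.1 (Nat.pos_of_ne_zero fun h0 => ho (by
      rw [h0, Nat.cast_zero] at h1; rw [← hθ']; exact h1))).1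
  have hv : ∀ k : J, (ψ : G → ℂ) k = (χ : J → ℂ) k * l (QuotientGroup.mk' ι.range k) := fun k =>
    (congrFun (congrArg Subtype.val hl) k).symm
  have hu : ((l (QuotientGroup.mk' ι.range ⟨g, hg⟩) : ℂˣ) : ℂ) ^ Nat.card (J ⧸ ι.range) = 1 := by
    rw [← Units.val_pow_eq_pow_val, ← map_pow, pow_card_eq_one', map_one, Units.val_one]
  refine ⟨l (QuotientGroup.mk' ι.range ⟨g, hg⟩),
    red_ne_zero_of_pow_eq_one M Nat.card_pos.ne' hu, fun k hk => ?_⟩
  have hkJ : k ∈ J := by simpa using J.mul_mem (hNJ hk) hg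
  have h2 := memLocalIdeal_mul_left (mem_O_of_pow_eq_one M Nat.card_pos.ne' hu)
    (memLocalIdeal_sub_comm (hχ ⟨k, hkJ⟩))
  have h3 : (centralizer {k} ⊓ J ⊔ N).relIndex J = 1 := by
    rw [relIndex_eq_one]
    refine sup_le le_sup_right ((zpowers_le_of_mem ?_))
    have := mul_mem (inv_mem (mem_sup_right hk)) (mem_sup_left (S := centralizer {k} ⊓ J) (T := N)
      ⟨mem_centralizer_singleton_iff.2 rfl, hkJ⟩)
    simpa using this
  have h4 := hv ⟨k, hkJ⟩
  have h5 := hv 1
  rw [hπ _ hk] at h4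
  rw [map_one, map_one, Units.val_one, mul_one, coe_one] at h5
  rw [centralChar, centralChar, index_centralizer_coe, relIndex_eq_mul_of_normal _ hNJ, h3,
    mul_one] at h2
  convert h2 using 1
  rw [h4, h5]
  ring

variable {P : Sylow p N}

theorem exists_cent_coset
    (hcov : N ⊔ centralizer (((P : Subgroup N).map N.subtype : Subgroup G) : Set G) = ⊤) (g : G) :
    ∃ c, c * g⁻¹ ∈ N ∧ ¬ p ∣ (centralizer ({c} : Set G)).relIndex N := by
  obtain ⟨n, hn, c, hc, e⟩ := mem_sup_of_normal_left.1 (hcov ▸ mem_top g)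
  refine ⟨c, ?_, fun h => P.not_dvd_index (h.trans (index_dvd_of_le fun x hx => ?_))⟩
  · rw [← e]; simpa using hn
  · rw [mem_subgroupOf, mem_centralizer_singleton_iff]
    exact hc _ ⟨x, hx, rfl⟩

theorem memLocalIdeal_of_natCast_mul (hM : IsPModular p M) {n : ℕ} (hn : ¬ p ∣ n) {z : ℂ}
    (h : MemLocalIdeal M (n * z)) : MemLocalIdeal M z := by
  have := memLocalIdeal_mul_left (natCast_inv_mem_O hM hn) h
  rwa [inv_mul_cancel_left₀ (Nat.cast_ne_zero.2 (by rintro rfl; exact hn (dvd_zero p)))] at this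

theorem Rk.mul (hM : IsPModular p M)
    (hcov : N ⊔ centralizer (((P : Subgroup N).map N.subtype : Subgroup G) : Set G) = ⊤)
    {ψ : G → ℂ} (hψ : IsCharacter G ψ) (hr : IsIrrCharacter N fun n : N => ψ n) {g h : G}
    {u v s : ℂ} (hu : Rk M N ψ g u) (hv : Rk M N ψ h v) (hs : Rk M N ψ (g * h) s) (hu' : u ∈ O M)
    (hv' : v ∈ O M) : MemLocalIdeal M (u * v - s) := by
  haveI := Fintype.ofFinite N
  obtain ⟨c, hc, hc'⟩ := exists_cent_coset hcov g
  obtain ⟨d, hd, hd'⟩ := exists_cent_coset hcov h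
  have h1 := memLocalIdeal_mul_conj (M := M) N.subtype (t := fun k => ψ k / ψ 1)
    (fun x k => by rw [H6.char_isClassFunction hψ]) (fun y z => by
      rw [← Finset.sum_div, H35L.sum_conj_mul_hom N.subtype hψ hr]; ring) c d s fun x y => hs _ (by
      have hN : ∀ a b : G, a * b⁻¹ ∈ N ↔ (a : G ⧸ N) = b := fun a b => by
        rw [QuotientGroup.eq_iff_div_mem, div_eq_mul_inv]
      have h1 : ∀ z : N, ((z : G) : G ⧸ N) = 1 := fun z => (QuotientGroup.eq_one_iff _).2 z.2
      rw [hN] at hc hd ⊢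
      simp [hc, hd, h1])
  rw [← Nat.cast_mul] at h1
  have h2 := memLocalIdeal_of_natCast_mul hM (fun h => ((Fact.out : p.Prime).dvd_mul.1 h).elim
    hc' hd') h1
  have h3 := memLocalIdeal_of_natCast_mul hM hc' (hu c hc)
  have h4 := memLocalIdeal_of_natCast_mul hM hd' (hv d hd)
  have h5 := memLocalIdeal_sub (memLocalIdeal_sub h2 (memLocalIdeal_mul_right h3
    (mem_O_and_red_eq_of_sub h4 hv').1)) (memLocalIdeal_mul_left hu' h4)
  convert h5 using 1
  ring

theorem exists_prin_ext (hM : IsPModular p M)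
    (hcov : N ⊔ centralizer (((P : Subgroup N).map N.subtype : Subgroup G) : Set G) = ⊤)
    {θ : IrrCharacter N} (hθ : θ ∈ principalBlock M N) {ψ : IrrCharacter G}
    (hψ : ∀ x : N, (ψ : G → ℂ) x = (θ : N → ℂ) x) :
    ∃ χ : IrrCharacter G, (∀ x : N, (χ : G → ℂ) x = (θ : N → ℂ) x) ∧ ∀ g, Rk M N χ g 1 := by
  choose u m hm hu hk using exists_rk hM hθ hψ
  have hm0 : ∀ g, m g ≠ 0 := fun g h => hm g (h ▸ dvd_zero p)
  have hO : ∀ g, u g ∈ O M := fun g => mem_O_of_pow_eq_one M (hm0 g) (hu g)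
  have hr : IsIrrCharacter N fun n : N => (ψ : G → ℂ) n := by rw [funext hψ]; exact θ.2
  have hmul : ∀ g h, u (g * h) = u g * u h := fun g h => by
    have h1 := Rk.mul hM hcov (H6.irr_isCharacter ψ.2) hr (hk g) (hk h) (hk (g * h)) (hO g) (hO h)
    refine (red_injOn_roots hM (m := m g * m h) (fun h => ((Fact.out : p.Prime).dvd_mul.1 h).elim
      (hm _) (hm _)) (hm (g * h)) ?_ (hu _)
      ((memLocalIdeal_sub_iff (mul_mem (hO g) (hO h)) (hO _)).1 h1)).symm
    rw [mul_pow, pow_mul, hu, one_pow, mul_comm (m g), pow_mul, hu, one_pow, one_mul]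
  have h0 : ∀ g, u g ≠ 0 := fun g h => by
    have := hu g
    rw [h, zero_pow (hm0 g)] at this
    exact zero_ne_one this
  have hN : ∀ n ∈ N, u n = 1 := fun n hn => by
    have h1 := hk n 1 (by simpa using hn)
    have h2 : (centralizer ({1} : Set G)).relIndex N = 1 :=
      relIndex_eq_one.2 fun x _ => mem_centralizer_singleton_iff.2 (by simp)
    rw [h2, Nat.cast_one, one_mul, div_self (H6.irr_one_ne_zero ψ.2),
      memLocalIdeal_sub_iff (one_mem _) (hO n), red_one] at h1
    exact eq_one_of_red_eq_one hM (hm n) (hu n) h1.symm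
  let l : G →* ℂˣ := MonoidHom.mk' (fun g => Units.mk0 (u g) (h0 g)) fun g h =>
    Units.ext (hmul g h)
  have hv : ∀ g, (mulL ψ l⁻¹ : G → ℂ) g = (ψ : G → ℂ) g * (u g)⁻¹ := fun g => by
    rw [mulL_apply, MonoidHom.inv_apply, Units.val_inv_eq_inv_val]; rfl
  have key : ∀ g, Rk M N (mulL ψ l⁻¹) g 1 := fun g k _ => by
    have h1 := memLocalIdeal_mul_left (inv_mem_O (red_ne_zero_of_pow_eq_one M (hm0 k) (hu k)))
      (hk k k (by simp))
    convert h1 using 1
    rw [hv, hv, hN 1 (one_mem _)]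
    field_simp [h0 k]
  exact ⟨mulL ψ l⁻¹, fun x => by rw [hv, hN _ x.2, _root_.inv_one, mul_one, hψ], key⟩

theorem mem_prin_of_rk {χ : G → ℂ} (h : ∀ g, Rk M N χ g 1) {J : Subgroup G} (hJ : N ≤ J)
    {ξ : IrrCharacter J} (hξ : ∀ y : J, (ξ : J → ℂ) y = χ y) : ξ ∈ principalBlock M J := fun k => by
  have h1 := memLocalIdeal_mul_left (natCast_mem _ ((centralizer {(k : G)} ⊓ J ⊔ N).relIndex J))
    (memLocalIdeal_neg (h k k (by simp)))
  rw [centralChar, centralChar, index_centralizer_coe, relIndex_eq_mul_of_normal _ hJ, hξ, hξ,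
    coe_one, Nat.cast_mul]
  convert h1 using 1
  ring

end Ext

end H86
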