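import Mathlib
import Cfsg.Agent.Lib.Char.Mackey
import Cfsg.Agent.Lib.Char.InduceChar
import Cfsg.Agent.Lib.Char.More
import Cfsg.Agent.Lib.RankOne.Inverted
import Cfsg.Agent.Lib.Block.Bridge

/-!
An irreducible character of degree divisible by the degree of a split doubly transitive group.
-/

set_option autoImplicit false
set_option linter.style.haveILetI false
set_option linter.unusedSectionVars false

namespace H86

open Cfsg MulAction H40.RankOne
open scoped ComplexConjugate

section

variable {G Ω : Type*} [Group G] [MulAction G Ω] {a : Ω} {t : G} {Q : Subgroup G}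

theorem eq_one_of_isConj_inv' {H : Type*} [Group H] [Finite H] (hodd : Odd (Nat.card H)) {x : H}
    (h : IsConj x x⁻¹) : x = 1 := by
  obtain ⟨c, hc⟩ := isConj_iff.1 h
  obtain ⟨k, hk⟩ := hodd
  have h1 : Commute (c * c) x := by
    have : c * (c * x * c⁻¹) * c⁻¹ = x := by
      rw [hc, ← conj_inv, hc, inv_inv]
    calc c * c * x = c * (c * x * c⁻¹) * c⁻¹ * (c * c) := by group
      _ = _ := by rw [this]
  have h2 : ∀ y : H, y = (y * y) ^ (k + 1) := by
    intro y
    have := pow_card_eq_one' (x := y)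
    rw [hk] at this
    rw [← pow_two, ← pow_mul, show 2 * (k + 1) = 2 * k + 1 + 1 by ring, pow_succ, this, one_mul]
  have h3 : Commute c x := by
    rw [h2 c]; exact h1.pow_left _
  rw [h3.eq, mul_inv_cancel_right] at hc
  rw [h2 x]
  nth_rw 2 [hc]
  rw [mul_inv_cancel, one_pow]

/-- The projection of the point stabiliser onto the two-point stabiliser. -/
theorem exists_proj (hS : IsRankOneSetup G Ω a t Q) :
    ∃ π : stabilizer G a →* DD G a t, ∀ (d : G) (hd : d ∈ DD G a t), π ⟨d, hd.1⟩ = ⟨d, hd⟩ := by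
  have h : ∀ h : stabilizer G a, ∃ d : DD G a t, ∃ q ∈ Q, (h : G) = q * d := fun h => by
    obtain ⟨q, hq, d, hd, e⟩ := decomp hS h.2
    exact ⟨⟨d, hd⟩, q, hq, e⟩
  choose f q hq e using h
  refine ⟨MonoidHom.mk' f fun x y => ?_, fun d hd => ?_⟩
  · have h1 : q (x * y) * f (x * y) =
        (q x * ((f x : G) * q y * (f x : G)⁻¹)) * ((f x * f y : DD G a t) : G) := by
      rw [← e, Subgroup.coe_mul, e x, e y, Subgroup.coe_mul]; group
    exact Subtype.ext (decomp_unique hS (hq _) (f _).2
      (Q.mul_mem (hq x) (conjQ hS (f x).2.1 (hq y))) (f x * f y).2 h1).2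
  · have h1 : q ⟨d, hd.1⟩ * f ⟨d, hd.1⟩ = 1 * d := by rw [← e, one_mul]
    exact Subtype.ext (decomp_unique hS (hq _) (f _).2 Q.one_mem hd h1).2

/-- Conjugation by `t` on the two-point stabiliser. -/
def tauD (hS : IsRankOneSetup G Ω a t Q) : DD G a t ≃* DD G a t where
  toFun d := ⟨t * d * t, conj_t_mem_D' hS d.2⟩
  invFun d := ⟨t * d * t, conj_t_mem_D' hS d.2⟩
  left_inv d := Subtype.ext (by
    simp only [← mul_assoc]
    rw [mul_tt hS, hS.mul_self, one_mul])
  right_inv d := Subtype.ext (by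
    simp only [← mul_assoc]
    rw [mul_tt hS, hS.mul_self, one_mul])
  map_mul' x y := Subtype.ext (by
    simp only [Subgroup.coe_mul, ← mul_assoc]
    rw [mul_tt hS])

theorem exists_irr_of_rankOne [Finite G] (hS : IsRankOneSetup G Ω a t Q) {k : G}
    (hk : k ∈ KK G a t) (hk1 : k ≠ 1) :
    ∃ χ : IrrCharacter G, Nat.card Ω ∣ charDegree (χ : G → ℂ) := by
  classical
  haveI := Fintype.ofFinite G
  set H := stabilizer G a with hH
  obtain ⟨π, hπ⟩ : ∃ π : H →* DD G a t,
    ∀ (d : G) (hd : d ∈ DD G a t), π ⟨d, hd.1⟩ = ⟨d, hd⟩ := exists_proj hS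
  have hnc : ¬ IsConj (⟨k, hk.1⟩ : DD G a t) (⟨k, hk.1⟩ : DD G a t)⁻¹ := fun h =>
    hk1 (congrArg Subtype.val (eq_one_of_isConj_inv' hS.odd_card h))
  rw [H6.isConj_iff_irr, not_forall] at hnc
  obtain ⟨φ, hφ⟩ := hnc
  have hτ := H6.isIrrCharacter_comp_equiv (tauD hS) φ.2
  have hne : (fun x => (φ : DD G a t → ℂ) (tauD hS x)) ≠ φ := by
    intro h
    apply hφ
    rw [← congrFun h ⟨k, hk.1⟩]
    exact congrArg (φ : DD G a t → ℂ) (Subtype.ext (K_conj hS hk))
  have h0 : ∑ d : DD G a t, (φ : DD G a t → ℂ) (tauD hS d) * conj ((φ : DD G a t → ℂ) d) = 0 := by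
    rw [← H6.card_mul_classInner, H6.irr_inner_ne hτ φ.2 hne, mul_zero]
  set θ : H → ℂ := fun x => (φ : DD G a t → ℂ) (π x) with hθ
  have hθi : IsIrrCharacter H θ := H6.isIrrCharacter_comp_surjective π
    (fun d => ⟨⟨d, d.2.1⟩, hπ d d.2⟩) φ.2
  have hθc := H6.irr_isClassFunction hθi
  have key : ∀ x : G, ∑ y : H, extendByZero H θ (x⁻¹ * y * x) * conj (θ y) =
      extendByZero H (fun _ => (Nat.card H : ℂ)) x := by
    intro x
    by_cases hx : x ∈ H
    · rw [H7.extendByZero_of_mem H _ hx]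
      simp only [H7.extendByZero_inv_conj_mem H hθc hx, H7.extendByZero_coe]
      rw [← H6.card_mul_classInner, H6.irr_inner_self hθi, mul_one]
    · rw [H7.extendByZero_of_not_mem H _ hx]
      obtain ⟨h, hh, y, hy, rfl⟩ := canonical hS hx
      have e1 : ∀ z : H, extendByZero H θ ((h * t * y)⁻¹ * z * (h * t * y)) * conj (θ z) =
          (fun z : H => extendByZero H θ (t * z * t) * conj (θ z))
            ((⟨h, hh⟩ : H)⁻¹ * z * ⟨h, hh⟩) := by
        intro z
        have : (h * t * y)⁻¹ * z * (h * t * y) = y⁻¹ * (t⁻¹ * (h⁻¹ * z * h) * t) * y := by group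
        rw [this, H7.extendByZero_inv_conj_mem H hθc (hS.le hy), t_inv hS]
        simp only [H6.classFun_conj' hθc]
        rfl
      simp only [e1]
      rw [Fintype.sum_equiv ((MulAut.conj (⟨h, hh⟩ : H)⁻¹).toEquiv)
        _ (fun z : H => extendByZero H θ (t * z * t) * conj (θ z)) (fun z => by simp)]
      have e2 := H7.sum_extendByZero_mul H (fun z => conj (θ z))
        (fun z => extendByZero H θ (t * z * t))
      simp only [mul_comm (conj (θ _))] at e2
      rw [← e2, ← h0, ← H7.sum_extendByZero]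
      refine Finset.sum_congr rfl fun z _ => ?_
      by_cases hz : z ∈ DD G a t
      · rw [H7.extendByZero_of_mem _ _ hz, H7.extendByZero_of_mem H _ hz.1,
          H7.extendByZero_of_mem H _ (conj_t_mem_D' hS hz).1, mul_comm]
        exact congrArg₂ (fun u v => (φ : DD G a t → ℂ) u * conj ((φ : DD G a t → ℂ) v))
          (hπ _ (conj_t_mem_D' hS hz)) (hπ z hz)
      · rw [H7.extendByZero_of_not_mem _ _ hz]
        by_cases hz' : z ∈ H
        · rw [H7.extendByZero_of_not_mem H θ (x := t * z * t), mul_zero]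
          intro h'
          apply hz
          refine ⟨hz', ?_⟩
          have h2 : (t * z * t) • a = a := h'
          have h3 := congrArg (t • ·) h2
          simp only [mul_smul, tt_smul hS] at h3
          exact h3
        · rw [H7.extendByZero_of_not_mem H _ hz', zero_mul]
  have hirr : IsIrrCharacter G (indFun H θ) := by
    refine H6.isIrr_of_char_of_inner_self (H7.isCharacter_indFun H (H6.irr_isCharacter hθi)) ?_
    rw [H7.classInner_indFun_indFun]
    simp only [key]
    rw [H7.sum_extendByZero, Finset.sum_const, Finset.card_univ, ← Nat.card_eq_fintype_card,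
      nsmul_eq_mul]
    exact inv_mul_cancel₀ (mul_ne_zero H6.card_ne_zero H6.card_ne_zero)
  refine ⟨⟨_, hirr⟩, ?_⟩
  obtain ⟨n, -, hn⟩ := H6.irr_one_pos hθi
  refine ⟨n, ?_⟩
  rw [charDegree]
  simp only [H7.indFun_one, hn, hH, index_H hS]
  rw [← Nat.cast_mul, Complex.natCast_re, Nat.floor_natCast]

end

end H86
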